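import Mathlib

/-!
# Two independent forms on a noncyclic abelian `p`-group
-/

set_option autoImplicit false
set_option linter.unusedSectionVars false

namespace Cfsg.Agent.Lib.InvSylow.Forms

universe u

theorem exists_forms {A : Type u} [Group A] [Finite A] {p : ℕ} [hp : Fact p.Prime]
    (hA : IsPGroup p A) (hc : ∀ a b : A, a * b = b * a) (hnc : ¬ IsCyclic A) :
    ∃ u v : A → ZMod p, (∀ x y, u (x * y) = u x + u y) ∧ (∀ x y, v (x * y) = v x + v y) ∧
      ∀ s t, ∃ x, u x = s ∧ v x = t := by
  classical
  letI : CommGroup A := { (inferInstance : Group A) with mul_comm := hc }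
  obtain ⟨ι, _, n, hn, ⟨e⟩⟩ := CommGroup.equiv_prod_multiplicative_zmod_of_finite A
  have hex : ∃ i j : ι, i ≠ j := by
    by_contra h
    push Not at h
    haveI : Subsingleton ι := ⟨h⟩
    apply hnc
    by_cases hne : Nonempty ι
    · obtain ⟨i⟩ := hne
      letI : Unique ι := uniqueOfSubsingleton i
      have e2 := MulEquiv.piUnique (fun j => Multiplicative (ZMod (n j)))
      haveI : NeZero (n default) := ⟨by have := hn default; omega⟩
      exact isCyclic_of_surjective (e.trans e2).symm (MulEquiv.surjective _)
    · haveI : IsEmpty ι := not_nonempty_iff.mp hne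
      haveI : Subsingleton A := e.injective.subsingleton
      exact isCyclic_of_subsingleton
  obtain ⟨i, j, hij⟩ := hex
  have hdvd : ∀ l : ι, p ∣ n l := by
    intro l
    obtain ⟨r, hr⟩ := IsPGroup.iff_card.mp hA
    have h1 : Function.Surjective (fun x : A => e x l) := by
      intro y
      refine ⟨e.symm (Function.update 1 l y), ?_⟩
      simp
    haveI : NeZero (n l) := ⟨by have := hn l; omega⟩
    have h2 : Nat.card (Multiplicative (ZMod (n l))) ∣ Nat.card A := by
      have h3 : (Pi.evalMonoidHom _ l).comp e.toMonoidHom = _ := rfl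
      exact Subgroup.card_dvd_of_surjective ((Pi.evalMonoidHom (fun l => Multiplicative (ZMod (n l))) l).comp
        e.toMonoidHom) h1
    have h3 : Nat.card (Multiplicative (ZMod (n l))) = n l := by
      rw [Nat.card_congr Multiplicative.ofAdd.symm, Nat.card_zmod]
    rw [h3, hr] at h2
    obtain ⟨s, -, hs⟩ := (Nat.dvd_prime_pow hp.out).mp h2
    rw [hs]
    have hs0 : s ≠ 0 := by
      rintro rfl
      have := hn l
      rw [hs, pow_zero] at this
      exact lt_irrefl _ this
    exact dvd_pow_self p hs0
  let U : ι → A → ZMod p := fun l x => ZMod.castHom (hdvd l) (ZMod p) (Multiplicative.toAdd (e x l))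
  have hU : ∀ l x y, U l (x * y) = U l x + U l y := by
    intro l x y
    simp only [U, map_mul, Pi.mul_apply, toAdd_mul, map_add]
  have hUs : ∀ l (s : ZMod p), ZMod.castHom (hdvd l) (ZMod p) ((s.val : ℕ) : ZMod (n l)) = s := by
    intro l s
    simp
  refine ⟨U i, U j, hU i, hU j, fun s t => ?_⟩
  refine ⟨e.symm (Function.update (Function.update 1 i
    (Multiplicative.ofAdd ((s.val : ℕ) : ZMod (n i)))) j
    (Multiplicative.ofAdd ((t.val : ℕ) : ZMod (n j)))), ?_, ?_⟩
  · simp only [U, MulEquiv.apply_symm_apply]
    rw [Function.update_of_ne hij, Function.update_self, toAdd_ofAdd, hUs]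
  · simp only [U, MulEquiv.apply_symm_apply]
    rw [Function.update_self, toAdd_ofAdd, hUs]

end Cfsg.Agent.Lib.InvSylow.Forms
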