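import Cfsg.Agent.Lib.InvSylow.Final
import Cfsg.Agent.Lib.InvSylow.Forms
import Cfsg.Agent.Lib.Char.Degree
import Cfsg.Agent.Lib.Core.Basic

/-!
# The character theorem: a proper normal subgroup containing the Sylow subgroup
-/

set_option autoImplicit false
set_option linter.unusedSectionVars false

namespace Cfsg.Agent.Lib.InvSylow.CT

open Cfsg
open Cfsg.Agent.Lib.Char.Basic Cfsg.Agent.Lib.Char.Ortho Cfsg.Agent.Lib.Char.Complete
open Cfsg.Agent.Lib.Char.GenLattice Cfsg.Agent.Lib.Char.Degree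
open Cfsg.Agent.Lib.Core.Basic
open Cfsg.Agent.Lib.InvSylow.Pow Cfsg.Agent.Lib.InvSylow.Ext Cfsg.Agent.Lib.InvSylow.Fusion
open Cfsg.Agent.Lib.InvSylow.Count Cfsg.Agent.Lib.InvSylow.Tau
open Cfsg.Agent.Lib.InvSylow.Cover Cfsg.Agent.Lib.InvSylow.CoverP
open Cfsg.Agent.Lib.InvSylow.Values Cfsg.Agent.Lib.InvSylow.Final

universe u

variable {G : Type u} [Group G] {p : ℕ} {P : Sylow p G}

/-- Conjugation by powers of an inverting element. -/
theorem pow_conj_odd {t₀ x : G} (ht : t₀ * x * t₀⁻¹ = x⁻¹) (n : ℕ) :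
    t₀ ^ n * x * (t₀ ^ n)⁻¹ = if Even n then x else x⁻¹ := by
  have ht' : t₀ * x⁻¹ * t₀⁻¹ = x := by
    have h := congrArg (fun y => y⁻¹) ht
    simpa [mul_assoc] using h
  induction n with
  | zero => simp
  | succ n ih =>
    rw [pow_succ']
    have e : t₀ * t₀ ^ n * x * (t₀ * t₀ ^ n)⁻¹ = t₀ * (t₀ ^ n * x * (t₀ ^ n)⁻¹) * t₀⁻¹ := by group
    rw [e, ih]
    by_cases h : Even n
    · rw [if_pos h, ht, if_neg (Nat.not_even_iff_odd.mpr h.add_one)]
    · rw [if_neg h, ht', if_pos]
      exact (Nat.not_even_iff_odd.mp h).add_one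

variable [Finite G] [hp : Fact p.Prime]

theorem even_card {t₀ x : G} (hP : InvHyp P) (ht : t₀ * x * t₀⁻¹ = x⁻¹)
    (hx : x ∈ (P : Subgroup G)) (hx1 : x ≠ 1) : Even (orderOf t₀) := by
  by_contra h
  have h1 := pow_conj_odd ht (orderOf t₀)
  rw [if_neg h, pow_orderOf_eq_one] at h1
  simp only [inv_one, one_mul, mul_one] at h1
  exact ne_inv hP hx hx1 h1

/-- **The character theorem**. -/
theorem ct_core (hP : InvHyp P) {t₀ : G}
    (ht₀ : ∀ x ∈ (P : Subgroup G), t₀ * x * t₀⁻¹ = x⁻¹) (hnc : ¬ IsCyclic (P : Subgroup G))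
    (hcore : pPrimeCore p G = ⊥) :
    ∃ K : Subgroup G, K.Normal ∧ K ≠ ⊤ ∧ (P : Subgroup G) ≤ K := by
  classical
  letI := Fintype.ofFinite G
  letI := Fintype.ofFinite (P : Subgroup G)
  obtain ⟨u, v, hu, hv, hs⟩ := Cfsg.Agent.Lib.InvSylow.Forms.exists_forms P.isPGroup'
    (fun a b => Subtype.ext (hP.comm _ a.2 _ b.2)) hnc
  -- a nontrivial element of `P`
  obtain ⟨x₀, hx₀, -⟩ := hs 1 0
  have hx₀1 : (x₀ : G) ≠ 1 := by
    intro h
    have h1 : x₀ = 1 := Subtype.ext h
    rw [h1, add_one_eq hu] at hx₀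
    exact zero_ne_one hx₀
  have hev := even_card hP (ht₀ _ x₀.2) x₀.2 hx₀1
  have h2G : 2 ∣ Nat.card G := hev.two_dvd.trans (orderOf_dvd_natCard t₀)
  -- exponents
  have hN0 : Nat.card G * p ≠ 0 := mul_ne_zero Nat.card_pos.ne' hp.out.ne_zero
  obtain ⟨k, k', a, m, D⟩ := exists_powData hp.out hN0
  have hexp : ∀ x : G, x ^ (Nat.card G * p) = 1 := fun x => by
    rw [pow_mul, pow_card_eq_one', one_pow]
  -- parity of `k'`
  have h2m : 2 ∣ m := by
    have h1 : 2 ∣ p ^ a * m := by
      rw [← D.eq]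
      exact h2G.trans (dvd_mul_right _ _)
    have h3 : Nat.Coprime 2 (p ^ a) := by
      apply Nat.Coprime.pow_right
      exact (Nat.coprime_primes Nat.prime_two hp.out).mpr hP.odd.symm
    exact h3.dvd_of_dvd_mul_left h1
  have hk'odd : ¬ Even k' := by
    have h1 : k' ≡ 1 [MOD 2] := D.k'1.of_dvd h2m
    rw [Nat.not_even_iff_odd, Nat.odd_iff]
    exact h1
  set t : G := t₀ ^ k' with ht
  have htinv : ∀ x ∈ (P : Subgroup G), t * x * t⁻¹ = x⁻¹ := by
    intro x hx
    rw [ht, pow_conj_odd (ht₀ x hx), if_neg hk'odd]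
  have htc : Nat.Coprime (orderOf t) p := D.coprime_order_k' (hexp t₀)
  have S : Setup P D t := ⟨hP, Dvd.intro _ rfl, htinv⟩
  -- the extension
  obtain ⟨H, _, _, ⟨C⟩⟩ := exists_cov hP hu hv
  letI := Fintype.ofFinite H
  have hNH : Nat.card H ∣ Nat.card G * p := by rw [C.card_eq]
  have hexpH : ∀ x : H, x ^ (Nat.card G * p) = 1 := fun x => by
    rw [← C.card_eq, pow_card_eq_one']
  obtain ⟨T, hT1, hT2⟩ := exists_lift_coprime C hexpH hexp D htc
  have X : Ctx S C T := ⟨hu, hv, hs, hNH, hT1, hT2⟩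
  obtain ⟨ε, hε, hε0, hε1, hθ⟩ := exists_eps S hu hv hs
  -- the involution
  obtain ⟨j, hj⟩ := exists_prime_orderOf_dvd_card' 2 h2G
  have hj1 : j ≠ 1 := by
    rintro rfl
    simp at hj
  have hjj : j * j = 1 := by
    rw [← pow_two, ← hj, pow_orderOf_eq_one]
  have hjc : Nat.Coprime (orderOf j) p := by
    rw [hj]
    exact (Nat.coprime_primes Nat.prime_two hp.out).mpr hP.odd.symm
  obtain ⟨jh, hjh1, hjh2⟩ := exists_lift_coprime C hexpH hexp D hjc
  have hjhjh : jh * jh = 1 := by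
    have h1 : C.π (jh * jh) = 1 := by rw [map_mul, hjh1, hjj]
    have h2 := C.eq_z _ h1
    set i := C.snd (jh * jh) with hi
    have h3 : (jh * jh) ^ p = 1 := by
      rw [h2, z_nat]
      simp [z_zero]
    have h4 : (jh * jh) ^ orderOf jh = 1 := by
      rw [← pow_two, ← pow_mul, mul_comm, pow_mul, pow_orderOf_eq_one, one_pow]
    have h5 := orderOf_dvd_of_pow_eq_one h3
    have h6 := orderOf_dvd_of_pow_eq_one h4
    have h7 := Nat.eq_one_of_dvd_coprimes hjh2 h6 h5
    exact orderOf_eq_one_iff.mp h7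
  have hjhk : jh ^ k = 1 := D.pow_k_of_coprime (hexpH jh) hjh2
  have hfin := fun {j : G} {jh : H} (h1 : C.π jh = j) (h2 : jh * jh = 1) (h3 : jh ^ k = 1) =>
    final X hε hε0 hε1 hθ h1 h2 h3
  have hmain := hfin hjh1 hjhjh hjhk
  -- the irreducible character
  obtain ⟨χ, hχ, hχε⟩ : ∃ χ : G → ℂ, IsIrrCharacter G χ ∧
      (∀ g, χ g = χ 1 ↔ ε g = ε 1) := by
    rcases hε with h | h
    · exact ⟨ε, h, fun g => Iff.rfl⟩
    · refine ⟨-ε, h, fun g => ?_⟩
      simp only [Pi.neg_apply, neg_inj]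
  have hχc := isCharacter_of_isIrrCharacter hχ
  have he : ε 1 = 1 := by
    rcases hmain with h | h
    · exact h
    · -- the kernel contains an involution
      have hjK : j ∈ charKer hχc := (hχε j).mpr h
      have hKn : (charKer hχc).Normal := inferInstance
      have hnc2 : ¬ (Nat.card (charKer hχc)).Coprime p := by
        intro hc
        have h1 := le_pPrimeCore hKn hc
        rw [hcore] at h1
        exact hj1 ((Subgroup.mem_bot).mp (h1 hjK))
      have hdvd : p ∣ Nat.card (charKer hχc) := by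
        by_contra hn
        exact hnc2 ((Nat.Prime.coprime_iff_not_dvd hp.out).mpr hn).symm
      obtain ⟨y, hy⟩ := exists_prime_orderOf_dvd_card' p hdvd
      have hyG : orderOf (y : G) = p := by
        rw [Subgroup.orderOf_coe, hy]
      have hR : IsPGroup p (Subgroup.zpowers (y : G)) :=
        IsPGroup.of_card (n := 1) (by rw [Nat.card_zpowers, hyG, pow_one])
      obtain ⟨c, hc⟩ := exists_conj_le P hR
      have hxP := hc (y : G) (Subgroup.mem_zpowers _)
      set x := c * (y : G) * c⁻¹ with hx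
      have hxK : x ∈ charKer hχc := hKn.conj_mem _ y.2 c
      have hx1 : x ≠ 1 := by
        intro h1
        have h2 : (y : G) = 1 := by
          have h3 : (y : G) = c⁻¹ * x * c := by
            rw [hx]
            group
          rw [h3, h1]
          group
        rw [h2, orderOf_one] at hyG
        exact hp.out.one_lt.ne hyG
      have hxk : x ^ k ≠ 1 := by
        rw [S.pow_mem hxP]
        exact hx1
      have h1 := hε1 x hxk
      have h2 := (hχε x).mp hxK
      rw [← h2, h1]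
  -- `ε` is an irreducible character
  have hεirr : IsIrrCharacter G ε := by
    rcases hε with h | h
    · exact h
    · obtain ⟨n, hn⟩ := exists_deg_of_isCharacter (isCharacter_of_isIrrCharacter h)
      rw [Pi.neg_apply, he] at hn
      have h1 : ((n + 1 : ℕ) : ℂ) = 0 := by
        push_cast
        rw [← hn]
        ring
      have h2 : n + 1 = 0 := by exact_mod_cast h1
      omega
  have hεc := isCharacter_of_isIrrCharacter hεirr
  refine ⟨charKer hεc, inferInstance, ?_, ?_⟩
  · intro hK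
    have h1 : ε = one G := by
      funext g
      have h2 : g ∈ charKer hεc := by
        rw [hK]
        trivial
      have h3 : ε g = ε 1 := h2
      rw [h3, he]
    rw [h1, classInner_one_self] at hε0
    exact one_ne_zero hε0
  · intro x hx
    change ε x = ε 1
    rw [he]
    by_cases hx1 : x = 1
    · rw [hx1, he]
    · apply hε1
      rw [S.pow_mem hx]
      exact hx1

end Cfsg.Agent.Lib.InvSylow.CT
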