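import Cfsg.Agent.Lib.InvSylow.CoverP
import Cfsg.Agent.Lib.Char.IndRep

/-!
# The fusion-stable character of the Sylow subgroup of the central extension
-/

set_option autoImplicit false
set_option linter.unusedSectionVars false

namespace Cfsg.Agent.Lib.InvSylow.ChiNu

open Cfsg
open Cfsg.Agent.Lib.Char.Basic Cfsg.Agent.Lib.Char.GenLattice Cfsg.Agent.Lib.Char.Linear
open Cfsg.Agent.Lib.Char.Induced
open Cfsg.Agent.Lib.InvSylow.Pow Cfsg.Agent.Lib.InvSylow.Ext Cfsg.Agent.Lib.InvSylow.Fusion
open Cfsg.Agent.Lib.InvSylow.Count Cfsg.Agent.Lib.InvSylow.Tau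
open Cfsg.Agent.Lib.InvSylow.Cover Cfsg.Agent.Lib.InvSylow.CoverP
open scoped ComplexConjugate _root_.Classical

universe u

variable {G H : Type u} [Group G] [Group H] {p N k k' a m : ℕ} {P : Sylow p G}
variable [Finite G] [Finite H] [hp : Fact p.Prime]
variable {D : PowData p N k k' a m} {t : G} {u v : ↥(P : Subgroup G) → ZMod p}
variable {S : Setup P D t} {C : Cov P u v H} {T : H}

theorem isPGroup_comap (C : Cov P u v H) : IsPGroup p ((P : Subgroup G).comap C.π) := by
  apply P.isPGroup'.comap_of_ker_isPGroup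
  rintro ⟨y, hy⟩
  refine ⟨1, Subtype.ext ?_⟩
  have hy' : y = C.z (C.snd y) := C.eq_z y hy
  simp only [pow_one, SubgroupClass.coe_pow, Subgroup.coe_one]
  rw [hy', z_nat, CharP.cast_eq_zero, zero_mul, z_zero]

theorem not_dvd_index (C : Cov P u v H) : ¬ p ∣ ((P : Subgroup G).comap C.π).index := by
  rw [Subgroup.index_comap_of_surjective _ C.surj]
  exact P.not_dvd_index

/-- The Sylow subgroup of the extension. -/
noncomputable def PH (C : Cov P u v H) : Sylow p H :=
  IsPGroup.toSylow (isPGroup_comap C) (not_dvd_index C)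

theorem mem_PH {C : Cov P u v H} {y : H} : y ∈ (PH C : Subgroup H) ↔ C.π y ∈ (P : Subgroup G) :=
  Iff.rfl

/-- The linear function of the isotropic part. -/
noncomputable def mu (C : Cov P u v H) (T y : H) : ℂ := ee p (2⁻¹ * kap C T y)

theorem two_ne (X : Ctx S C T) : (2 : ZMod p) ≠ 0 := by
  intro h
  have h3 : ((2 : ℕ) : ZMod p) = 0 := by exact_mod_cast h
  rw [ZMod.natCast_eq_zero_iff] at h3
  exact S.hyp.odd ((Nat.prime_dvd_prime_iff_eq hp.out Nat.prime_two).mp h3)

theorem mu_mul_z (X : Ctx S C T) {y : H} (hy : C.π y ∈ (P : Subgroup G)) (i : ZMod p) :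
    mu C T (y * C.z i) = mu C T y * ee p i := by
  rw [mu, mu, ← ee_add, kap_mul_z X hy]
  congr 1
  field_simp [two_ne X]

theorem mu_z (X : Ctx S C T) (i : ZMod p) : mu C T (C.z i) = ee p i := by
  rw [mu, kap_z X]
  congr 1
  field_simp [two_ne X]

theorem mu_mul (X : Ctx S C T) {x y : H} (hx : C.π x ∈ (P : Subgroup G))
    (hy : C.π y ∈ (P : Subgroup G)) (hxv : ex0 P v (C.π x) = 0) (hyv : ex0 P v (C.π y) = 0) :
    mu C T (x * y) = mu C T x * mu C T y := by
  rw [mu, mu, mu, kap_mul X hx hy hxv hyv, ← ee_add]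
  congr 1
  ring

theorem mu_conj (y : H) : mu C T y * conj (mu C T y) = 1 := by
  rw [mu, ee_conj, mul_comm, ee_neg_mul]

/-- The stable function on the Sylow subgroup of the extension. -/
noncomputable def phi (C : Cov P u v H) (T : H) (y : ↥(PH C : Subgroup H)) : ℂ :=
  if ex0 P u (C.π y) = 0 ∧ ex0 P v (C.π y) = 0 then (p : ℂ) * mu C T y else 0

/-- **Stability**. -/
theorem stable_phi (X : Ctx S C T) : Stable (PH C) (phi C T) := by
  intro x y c hc
  have hxP : C.π x ∈ (P : Subgroup G) := x.2
  have hyP : C.π y ∈ (P : Subgroup G) := y.2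
  have hc' : C.π c * C.π x * (C.π c)⁻¹ = C.π y := by
    have := congrArg C.π hc
    simpa using this
  have hmem : C.π c * C.π x * (C.π c)⁻¹ ∈ (P : Subgroup G) := by
    rw [hc']
    exact hyP
  -- the central case
  have hcentral : C.π x = 1 → (y : H) = x := by
    intro h1
    have h2 := C.eq_z _ h1
    rw [← hc, h2, (z_comm C _ c).symm.eq]
    group
  have hkey : ex0 P u (C.π x) = 0 → ex0 P v (C.π x) = 0 → mu C T y = mu C T x := by
    intro hu0 hv0
    by_cases hne : C.π x = 1
    · rw [hcentral hne]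
    rcases conj_eq_or_inv S.hyp hxP hmem with h3 | h3
    · have h4 : C.π c ∈ Subgroup.centralizer ({C.π x} : Set G) := by
        rw [Subgroup.mem_centralizer_iff]
        rintro z rfl
        exact (mul_inv_eq_iff_eq_mul.mp h3).symm
      have h5 := comm_of_A0 X hxP hu0 hv0 hne h4
      have h6 : (y : H) = x := by
        rw [← hc, h5]
        group
      rw [h6]
    · set d := T⁻¹ * c with hd
      have h4 : C.π d ∈ Subgroup.centralizer ({C.π x} : Set G) := by
        rw [Subgroup.mem_centralizer_iff]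
        rintro z rfl
        have h7 := S.inv _ hxP
        have h8 : t⁻¹ * (C.π x)⁻¹ * t = C.π x := by
          rw [← h7]
          group
        have h9 : C.π d = t⁻¹ * C.π c := by
          rw [hd, map_mul, map_inv, X.hT]
        rw [h9]
        calc C.π x * (t⁻¹ * C.π c) = (t⁻¹ * (C.π x)⁻¹ * t) * (t⁻¹ * C.π c) := by rw [h8]
          _ = t⁻¹ * (C.π x)⁻¹ * C.π c := by group
          _ = t⁻¹ * (C.π c * C.π x * (C.π c)⁻¹) * C.π c := by rw [h3]
          _ = _ := by group
      have h5 := comm_of_A0 X hxP hu0 hv0 hne h4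
      have h6 : (y : H) = T * x * T⁻¹ := by
        rw [← hc]
        have h10 : c = T * d := by
          rw [hd]
          group
        rw [h10]
        calc T * d * x * (T * d)⁻¹ = T * (d * x) * d⁻¹ * T⁻¹ := by group
          _ = T * (x * d) * d⁻¹ * T⁻¹ := by rw [h5]
          _ = _ := by group
      rw [h6, mu, mu, kap_iota X hxP]
  have hiff : (ex0 P u (C.π y) = 0 ∧ ex0 P v (C.π y) = 0) ↔
      (ex0 P u (C.π x) = 0 ∧ ex0 P v (C.π x) = 0) := by
    rw [← hc']
    rcases conj_eq_or_inv S.hyp hxP hmem with h3 | h3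
    · rw [h3]
    · rw [h3, ex0_inv X.hu hxP, ex0_inv X.hv hxP, neg_eq_zero, neg_eq_zero]
  simp only [phi]
  by_cases h : ex0 P u (C.π x) = 0 ∧ ex0 P v (C.π x) = 0
  · rw [if_pos h, if_pos (hiff.mpr h), hkey h.1 h.2]
  · rw [if_neg h, if_neg (fun h' => h (hiff.mp h'))]

/-- A lift to the Sylow subgroup. -/
theorem exists_lift (C : Cov P u v H) (b : G) (hb : b ∈ (P : Subgroup G)) :
    ∃ x : (PH C : Subgroup H), C.π x = b := by
  obtain ⟨x, hx⟩ := C.surj b
  exact ⟨⟨x, by
    change C.π x ∈ (P : Subgroup G)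
    rw [hx]
    exact hb⟩, hx⟩

/-- `phi` is a character of the Sylow subgroup of the extension. -/
theorem isGenChar_phi (X : Ctx S C T) :
    IsGeneralizedCharacter (PH C : Subgroup H) (phi C T) := by
  letI : Fintype (PH C : Subgroup H) := Fintype.ofFinite _
  let K := ↥(PH C : Subgroup H)
  have hK : ∀ y : K, C.π y ∈ (P : Subgroup G) := fun y => y.2
  -- the form on `K`
  let f : K →* Multiplicative (ZMod p) :=
    { toFun := fun y => Multiplicative.ofAdd (ex0 P v (C.π y))
      map_one' := by
        change Multiplicative.ofAdd (ex0 P v (C.π (1 : H))) = 1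
        rw [map_one, ex0_one X.hv]
        rfl
      map_mul' := fun x y => by
        change Multiplicative.ofAdd (ex0 P v (C.π ((x : H) * (y : H)))) = _
        rw [map_mul, ex0_mul X.hv (hK x) (hK y)]
        rfl }
  have hfapp : ∀ y : K, f y = 1 ↔ ex0 P v (C.π y) = 0 := fun y => Iff.rfl
  let Lk : Subgroup K := f.ker
  have hLk : ∀ y : K, y ∈ Lk ↔ ex0 P v (C.π y) = 0 := fun y => by
    rw [MonoidHom.mem_ker, hfapp]
  have hsurj : Function.Surjective f := by
    intro i
    obtain ⟨b, -, hb⟩ := X.hs 0 (Multiplicative.toAdd i)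
    obtain ⟨x, hx⟩ := exists_lift C b b.2
    refine ⟨x, ?_⟩
    change Multiplicative.ofAdd (ex0 P v (C.π x)) = i
    rw [hx, ex0_coe, hb]
    rfl
  have hindex : Lk.index = p := by
    change f.ker.index = p
    rw [Subgroup.index_ker, MonoidHom.range_eq_top.mpr hsurj, Subgroup.card_top,
      Nat.card_congr (Multiplicative.toAdd (α := ZMod p)), Nat.card_zmod]
  -- the linear character
  let g : Lk →* ℂ :=
    { toFun := fun y => mu C T (y : K)
      map_one' := by
        have : mu C T 1 = 1 := by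
          rw [mu, kap_apply]
          have e : T * 1 * T⁻¹ * 1 = C.z 0 := by
            rw [z_zero]
            group
          rw [e, C.snd_z, mul_zero, ee_zero]
        exact this
      map_mul' := fun x y => by
        exact mu_mul X (hK x) (hK y) ((hLk _).mp x.2) ((hLk _).mp y.2) }
  have hθ : IsCharacter Lk (fun y : Lk => mu C T (y : K)) := by
    have h1 := isIrrCharacter_of_hom g.toHomUnits
    have h2 : (fun y : Lk => mu C T (y : K)) = fun y => ((g.toHomUnits y : ℂˣ) : ℂ) := by
      funext y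
      exact (MonoidHom.coe_toHomUnits g y).symm
    rw [h2]
    exact isCharacter_of_isIrrCharacter h1
  have hfinal : phi C T = indFun Lk (fun y : Lk => mu C T (y : K)) := by
    funext y
    rw [indFun_apply]
    have hconj : ∀ x : K, ex0 P v (C.π ((x⁻¹ * y * x : K) : H)) = ex0 P v (C.π y) := by
      intro x
      have h1 : ((x⁻¹ * y * x : K) : H) = (x : H)⁻¹ * y * x := rfl
      rw [h1, map_mul, map_mul, map_inv,
        ex0_mul X.hv (Subgroup.mul_mem _ (Subgroup.inv_mem _ (hK x)) (hK y)) (hK x),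
        ex0_mul X.hv (Subgroup.inv_mem _ (hK x)) (hK y), ex0_inv X.hv (hK x)]
      ring
    by_cases hyv : ex0 P v (C.π y) = 0
    · have hy : y ∈ Lk := (hLk y).mpr hyv
      have hmem : ∀ x : K, x⁻¹ * y * x ∈ Lk := fun x => (hLk _).mpr ((hconj x).trans hyv)
      have hval : ∀ x : K, extendByZero Lk (fun y : Lk => mu C T (y : K)) (x⁻¹ * y * x) =
          mu C T y * ee p (C.w * ex0 P u (C.π y) * ex0 P v (C.π x)) := by
        intro x
        rw [extendByZero_of_mem _ _ (hmem x)]
        have h1 : ((x⁻¹ * y * x : K) : H) = (y : H) * C.z (C.w * ex0 P u (C.π y) * ex0 P v (C.π x)) := by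
          have h2 := comm_ex0 C (y : H)⁻¹ (x : H)⁻¹
            (by rw [map_inv]; exact Subgroup.inv_mem _ (hK y))
            (by rw [map_inv]; exact Subgroup.inv_mem _ (hK x))
          simp only [map_inv, ex0_inv X.hu (hK y), ex0_inv X.hv (hK y), ex0_inv X.hu (hK x),
            ex0_inv X.hv (hK x), hyv] at h2
          have h3 : C.w * (-ex0 P u (C.π y) * -ex0 P v (C.π x) - -0 * -ex0 P u (C.π x)) =
              C.w * ex0 P u (C.π y) * ex0 P v (C.π x) := by ring
          rw [h3] at h2
          rw [← h2]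
          change (x : H)⁻¹ * y * x = _
          group
        change mu C T ((x⁻¹ * y * x : K) : H) = _
        rw [h1, mu_mul_z X (hK y)]
      simp_rw [hval]
      rw [← Finset.mul_sum]
      by_cases hyu : ex0 P u (C.π y) = 0
      · have hphi : phi C T y = (p : ℂ) * mu C T y := by
          rw [phi, if_pos ⟨hyu, hyv⟩]
        rw [hphi]
        simp only [hyu, mul_zero, zero_mul, ee_zero, Finset.sum_const, Finset.card_univ,
          nsmul_eq_mul, mul_one]
        have hc : Nat.card K = Nat.card Lk * p := by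
          have h7 := Subgroup.card_mul_index Lk
          rw [hindex] at h7
          exact h7.symm
        rw [← Nat.card_eq_fintype_card, hc]
        have hL : (Nat.card Lk : ℂ) ≠ 0 := Nat.cast_ne_zero.mpr Nat.card_pos.ne'
        push_cast
        field_simp
      · have hphi : phi C T y = 0 := by
          rw [phi, if_neg (fun h => hyu h.1)]
        rw [hphi]
        set c₀ := C.w * ex0 P u (C.π y) with hc₀
        have hc₀ne : c₀ ≠ 0 := mul_ne_zero C.w_ne hyu
        obtain ⟨b, -, hb⟩ := X.hs 0 c₀⁻¹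
        obtain ⟨x₀, hx₀⟩ := exists_lift C b b.2
        have hS : ∑ x : K, ee p (c₀ * ex0 P v (C.π x)) =
            ee p 1 * ∑ x : K, ee p (c₀ * ex0 P v (C.π x)) := by
          conv_lhs => rw [← Equiv.sum_comp (Equiv.mulRight x₀)]
          rw [Finset.mul_sum]
          refine Finset.sum_congr rfl fun x _ => ?_
          have h1 : C.π (((Equiv.mulRight x₀) x : K) : H) = C.π x * C.π x₀ := by
            change C.π ((x : H) * x₀) = _
            rw [map_mul]
          rw [h1, ex0_mul X.hv (hK x) (hK x₀), hx₀, ex0_coe, hb, mul_add, mul_inv_cancel₀ hc₀ne,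
            ee_add, mul_comm]
        have hne1 : ee p 1 ≠ 1 := by
          intro h
          have h2 : ee p 1 = ee p 0 := by rw [h, ee_zero]
          exact one_ne_zero (ee_inj h2)
        have hS0 : ∑ x : K, ee p (c₀ * ex0 P v (C.π x)) = 0 := by
          have h3 : (1 - ee p 1) * ∑ x : K, ee p (c₀ * ex0 P v (C.π x)) = 0 := by
            rw [sub_mul, one_mul, ← hS, sub_self]
          exact (mul_eq_zero.mp h3).resolve_left (sub_ne_zero.mpr hne1.symm)
        rw [hS0, mul_zero, mul_zero]
    · have hphi : phi C T y = 0 := by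
        rw [phi, if_neg (fun h => hyv h.2)]
      rw [hphi]
      have hnm : ∀ x : K, x⁻¹ * y * x ∉ Lk := fun x h => hyv (((hLk _).mp h).symm.trans (hconj x)).symm
      simp_rw [extendByZero_of_not_mem _ _ (hnm _)]
      simp
  rw [hfinal]
  exact isGenChar_of_isCharacter (Cfsg.Agent.Lib.Char.IndRep.isCharacter_indFun Lk hθ)

end Cfsg.Agent.Lib.InvSylow.ChiNu
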