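import Mathlib

/-!
# Central extensions by `ZMod p` from normalized 2-cocycles
-/

set_option autoImplicit false
set_option linter.unusedSectionVars false

namespace Cfsg.Agent.Lib.InvSylow.Cocycle

universe u v

/-- A normalized 2-cocycle with values in `ZMod p`. -/
structure Coc (G : Type u) [Group G] (p : ℕ) where
  F : G → G → ZMod p
  left : ∀ g, F 1 g = 0
  right : ∀ g, F g 1 = 0
  assoc : ∀ a b c, F a b + F (a * b) c = F b c + F a (b * c)

variable {G : Type u} [Group G] {p : ℕ}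

/-- The central extension. -/
@[ext] structure CExt (c : Coc G p) where
  fst : G
  snd : ZMod p

namespace CExt

variable {c : Coc G p}

instance : Mul (CExt c) := ⟨fun x y => ⟨x.fst * y.fst, x.snd + y.snd + c.F x.fst y.fst⟩⟩
instance : One (CExt c) := ⟨⟨1, 0⟩⟩
instance : Inv (CExt c) := ⟨fun x => ⟨x.fst⁻¹, - x.snd - c.F x.fst⁻¹ x.fst⟩⟩

@[simp] theorem mul_fst (x y : CExt c) : (x * y).fst = x.fst * y.fst := rfl
@[simp] theorem mul_snd (x y : CExt c) : (x * y).snd = x.snd + y.snd + c.F x.fst y.fst := rfl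
@[simp] theorem one_fst : (1 : CExt c).fst = 1 := rfl
@[simp] theorem one_snd : (1 : CExt c).snd = 0 := rfl
@[simp] theorem inv_fst (x : CExt c) : (x⁻¹).fst = x.fst⁻¹ := rfl
@[simp] theorem inv_snd (x : CExt c) : (x⁻¹).snd = - x.snd - c.F x.fst⁻¹ x.fst := rfl

instance : Group (CExt c) :=
  Group.ofLeftAxioms
    (fun x y z => by
      ext
      · simp [mul_assoc]
      · simp only [mul_snd, mul_fst]
        linear_combination c.assoc x.fst y.fst z.fst)
    (fun x => by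
      ext
      · simp
      · simp [c.left])
    (fun x => by
      ext
      · simp
      · simp only [mul_snd, inv_snd, inv_fst, one_snd]
        ring)

/-- The projection. -/
def pi : CExt c →* G where
  toFun := fst
  map_one' := rfl
  map_mul' _ _ := rfl

@[simp] theorem pi_apply (x : CExt c) : pi x = x.fst := rfl

theorem pi_surj : Function.Surjective (pi : CExt c →* G) := fun g => ⟨⟨g, 0⟩, rfl⟩

/-- The central elements. -/
def z (i : ZMod p) : CExt c := ⟨1, i⟩

theorem z_add (i j : ZMod p) : (z (i + j) : CExt c) = z i * z j := by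
  ext
  · simp [z]
  · simp [z, c.left]

theorem z_central (i : ZMod p) (h : CExt c) : z i * h = h * z i := by
  ext
  · simp [z]
  · simp [z, c.left, c.right]
    ring

theorem pi_z (i : ZMod p) : pi (z i : CExt c) = 1 := rfl

theorem snd_z (i : ZMod p) : (z i : CExt c).snd = i := rfl

theorem eq_z (y : CExt c) (h : pi y = 1) : y = z y.snd := by
  ext
  · exact h
  · rfl

/-- The underlying equivalence. -/
def equivProd : CExt c ≃ G × ZMod p where
  toFun x := (x.fst, x.snd)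
  invFun x := ⟨x.1, x.2⟩
  left_inv _ := rfl
  right_inv _ := rfl

instance [Finite G] [NeZero p] : Finite (CExt c) := Finite.of_equiv _ equivProd.symm

theorem card_eq [Finite G] [NeZero p] : Nat.card (CExt c) = Nat.card G * p := by
  rw [Nat.card_congr equivProd, Nat.card_prod, Nat.card_zmod]

theorem sum_pi [Fintype G] [NeZero p] [Fintype (CExt c)] (f : G → ℂ) :
    ∑ h : CExt c, f (pi h) = (p : ℂ) * ∑ g : G, f g := by
  classical
  rw [Fintype.sum_equiv equivProd (fun h => f (pi h)) (fun x : G × ZMod p => f x.1) (fun _ => rfl),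
    Fintype.sum_prod_type, Finset.mul_sum]
  refine Finset.sum_congr rfl fun g _ => ?_
  simp only [Finset.sum_const, Finset.card_univ, ZMod.card, nsmul_eq_mul]

/-- The commutator of two elements whose images commute. -/
theorem comm_eq (x y : CExt c) (h : x.fst * y.fst = y.fst * x.fst) :
    x * y * x⁻¹ * y⁻¹ = z (c.F x.fst y.fst - c.F y.fst x.fst) := by
  have h1 : x * y = z (c.F x.fst y.fst - c.F y.fst x.fst) * (y * x) := by
    ext
    · simp [z, h]
    · simp [z, c.left]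
      ring
  calc x * y * x⁻¹ * y⁻¹ = (x * y) * (y * x)⁻¹ := by group
    _ = _ := by rw [h1]; group

end CExt

/-! ### The corestriction of a bilinear cocycle -/

section Core

variable {X : Type v} [Fintype X] [MulAction G X]

/-- The bilinear expression. -/
noncomputable def coreF (θ₁ θ₂ : G → X → ZMod p) (a b : G) : ZMod p :=
  ∑ x : X, θ₁ a (b • x) * θ₂ b x

variable {θ₁ θ₂ : G → X → ZMod p}

theorem theta_one (hθ : ∀ (a b : G) (x : X), θ₁ (a * b) x = θ₁ a (b • x) + θ₁ b x) (x : X) :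
    θ₁ 1 x = 0 := by
  have := hθ 1 1 x
  rw [one_mul, one_smul] at this
  exact left_eq_add.mp this

theorem coreF_assoc (h₁ : ∀ (a b : G) (x : X), θ₁ (a * b) x = θ₁ a (b • x) + θ₁ b x)
    (h₂ : ∀ (a b : G) (x : X), θ₂ (a * b) x = θ₂ a (b • x) + θ₂ b x) (a b c : G) :
    coreF θ₁ θ₂ a b + coreF θ₁ θ₂ (a * b) c = coreF θ₁ θ₂ b c + coreF θ₁ θ₂ a (b * c) := by
  classical
  have e1 : coreF θ₁ θ₂ a b = ∑ x : X, θ₁ a (b • c • x) * θ₂ b (c • x) := by
    unfold coreF
    exact (Equiv.sum_comp (MulAction.toPerm c) (fun x => θ₁ a (b • x) * θ₂ b x)).symm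
  rw [e1]
  unfold coreF
  rw [← Finset.sum_add_distrib, ← Finset.sum_add_distrib]
  refine Finset.sum_congr rfl fun x _ => ?_
  rw [h₁ a b, h₂ b c, mul_smul]
  ring

/-- The cocycle attached to a pair of crossed homomorphisms. -/
noncomputable def coreCoc (h₁ : ∀ (a b : G) (x : X), θ₁ (a * b) x = θ₁ a (b • x) + θ₁ b x)
    (h₂ : ∀ (a b : G) (x : X), θ₂ (a * b) x = θ₂ a (b • x) + θ₂ b x) : Coc G p where
  F := coreF θ₁ θ₂
  left g := by
    unfold coreF
    simp [theta_one h₁]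
  right g := by
    unfold coreF
    simp [theta_one h₂]
  assoc := coreF_assoc h₁ h₂

/-- Telescoping over an invariant set. -/
theorem sum_tele (σ : G) (I : X → ZMod p) (hI : ∀ x, I (σ • x) = I x) (f : X → ZMod p) :
    ∑ x : X, I x * (f (σ • x) - f x) = 0 := by
  classical
  have h1 : ∑ x : X, I x * f (σ • x) = ∑ x : X, I x * f x := by
    have := Equiv.sum_comp (MulAction.toPerm σ) (fun x => I x * f x)
    simp only [MulAction.toPerm_apply, hI] at this
    exact this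
  simp only [mul_sub, Finset.sum_sub_distrib, h1, sub_self]

theorem tier1_alg {R : Type*} [CommRing R] {x₁ x₂ x₃ x₄ y₁ y₂ y₃ y₄ t₁ t₂ s₁ s₂ a₁ a₂ b₁ b₂ : R}
    (ha₁ : a₁ = x₄ - x₃) (ha₂ : a₂ = x₂ - x₁) (hb₁ : b₁ = y₄ - y₃) (hb₂ : b₂ = y₂ - y₁)
    (hs₁ : a₁ + t₁ = s₁ + a₂) (hs₂ : b₁ + t₂ = s₂ + b₂) :
    a₁ * t₂ - s₁ * b₂ =
      ((x₄ * (s₂ - y₄ + y₂) - (s₁ - x₄ + x₂) * y₂ - x₄ * y₂ + x₂ * y₂) -
        (x₃ * (t₂ - y₃ + y₁) - (t₁ - x₃ + x₁) * y₁ - x₃ * y₁ + x₁ * y₁)) +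
      ((x₄ * y₃ - x₃ * y₃) - (x₂ * y₁ - x₁ * y₁)) := by
  have e1 : s₁ = a₁ + t₁ - a₂ := by rw [hs₁]; ring
  have e2 : s₂ = b₁ + t₂ - b₂ := by rw [hs₂]; ring
  subst e1 e2 ha₁ ha₂ hb₁ hb₂
  ring

/-- **The commutator form of the corestricted cocycle.** -/
theorem coreF_comm (h₁ : ∀ (a b : G) (x : X), θ₁ (a * b) x = θ₁ a (b • x) + θ₁ b x)
    (h₂ : ∀ (a b : G) (x : X), θ₂ (a * b) x = θ₂ a (b • x) + θ₂ b x)
    {a b : G} (hab : a * b = b * a) (ω : ZMod p) {A₁ A₂ B₁ B₂ : X → ZMod p}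
    (hA₁ : ∀ x, a • x ≠ x → θ₁ a x = A₁ (a • x) - A₁ x)
    (hA₂ : ∀ x, a • x ≠ x → θ₂ a x = A₂ (a • x) - A₂ x)
    (hB₁ : ∀ x, b • x ≠ x → θ₁ b x = B₁ (b • x) - B₁ x)
    (hB₂ : ∀ x, b • x ≠ x → θ₂ b x = B₂ (b • x) - B₂ x)
    (hfix : ∀ x, a • x = x → b • x = x → θ₁ a x * θ₂ b x - θ₁ b x * θ₂ a x = ω)
    (hcount : ((Nat.card {x : X // a • x = x ∧ b • x = x} : ℕ) : ZMod p) = (Nat.card X : ℕ)) :
    coreF θ₁ θ₂ a b - coreF θ₁ θ₂ b a = (Nat.card X : ZMod p) * ω := by
  classical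
  have hcomm : ∀ x : X, a • b • x = b • a • x := fun x => by
    rw [← mul_smul, hab, mul_smul]
  have rel₁ : ∀ x, θ₁ a (b • x) + θ₁ b x = θ₁ b (a • x) + θ₁ a x := fun x => by
    rw [← h₁, ← h₁, hab]
  have rel₂ : ∀ x, θ₂ a (b • x) + θ₂ b x = θ₂ b (a • x) + θ₂ a x := fun x => by
    rw [← h₂, ← h₂, hab]
  have hiff : ∀ {g h : G} {x : X}, g * h = h * g → (g • h • x = h • x ↔ g • x = x) := by
    intro g h x hgh
    constructor
    · intro h1
      rw [← mul_smul, hgh, mul_smul] at h1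
      exact smul_left_cancel h h1
    · intro h1
      rw [← mul_smul, hgh, mul_smul, h1]
  -- indicator functions
  let I₁ : X → ZMod p := fun x => if a • x = x then 0 else 1
  let I₂ : X → ZMod p := fun x => if a • x = x then (if b • x = x then 0 else 1) else 0
  let I₃ : X → ZMod p := fun x => if a • x = x ∧ b • x = x then 1 else 0
  have hI₁a : ∀ x, I₁ (a • x) = I₁ x := by
    intro x
    simp only [I₁, hiff rfl]
  have hI₁b : ∀ x, I₁ (b • x) = I₁ x := by
    intro x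
    simp only [I₁, hiff hab]
  have hI₂b : ∀ x, I₂ (b • x) = I₂ x := by
    intro x
    simp only [I₂, hiff hab, hiff rfl]
  let τ : X → ZMod p := fun x => θ₁ a (b • x) * θ₂ b x - θ₁ b (a • x) * θ₂ a x
  have hsum : coreF θ₁ θ₂ a b - coreF θ₁ θ₂ b a = ∑ x : X, τ x := by
    unfold coreF
    rw [Finset.sum_sub_distrib]
  -- tier 1
  let Ga : X → ZMod p := fun x => A₁ (b • x) * (θ₂ b x - A₂ (b • x) + A₂ x) -
    (θ₁ b x - A₁ (b • x) + A₁ x) * A₂ x - A₁ (b • x) * A₂ x + A₁ x * A₂ x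
  let Gb : X → ZMod p := fun x => A₁ (a • x) * A₂ x - A₁ x * A₂ x
  have ht1 : ∀ x, I₁ x * τ x = I₁ x * (Ga (a • x) - Ga x) + I₁ x * (Gb (b • x) - Gb x) := by
    intro x
    by_cases hx : a • x = x
    · simp [I₁, hx]
    · have hbx : a • b • x ≠ b • x := fun h => hx ((hiff hab).mp h)
      have := tier1_alg (hA₁ _ hbx) (hA₁ _ hx) (hA₂ _ hbx) (hA₂ _ hx) (rel₁ x) (rel₂ x)
      simp only [Ga, Gb, τ, ← hcomm]
      rw [← mul_add, this]
  have ht1s : ∑ x, I₁ x * τ x = 0 := by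
    simp_rw [ht1]
    rw [Finset.sum_add_distrib, sum_tele a I₁ hI₁a, sum_tele b I₁ hI₁b, add_zero]
  -- tier 2
  let Gc : X → ZMod p := fun x => θ₁ a x * B₂ x - B₁ x * θ₂ a x
  have ht2 : ∀ x, I₂ x * τ x = I₂ x * (Gc (b • x) - Gc x) := by
    intro x
    by_cases hx : a • x = x
    · by_cases hy : b • x = x
      · simp [I₂, hx, hy]
      · congr 1
        have e1 : θ₁ a (b • x) = θ₁ a x := by
          have := rel₁ x
          rw [hx] at this
          exact add_right_cancel (this.trans (add_comm _ _))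
        have e2 : θ₂ a (b • x) = θ₂ a x := by
          have := rel₂ x
          rw [hx] at this
          exact add_right_cancel (this.trans (add_comm _ _))
        simp only [τ, Gc, hx, e1, e2]
        rw [hB₁ x hy, hB₂ x hy]
        ring
    · simp [I₂, hx]
  have ht2s : ∑ x, I₂ x * τ x = 0 := by
    simp_rw [ht2]
    exact sum_tele b I₂ hI₂b _
  -- tier 3
  have ht3 : ∀ x, I₃ x * τ x = I₃ x * ω := by
    intro x
    by_cases hx : a • x = x ∧ b • x = x
    · simp only [I₃, if_pos hx, τ, hx.1, hx.2]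
      rw [hfix x hx.1 hx.2]
    · simp [I₃, if_neg hx]
  have ht3s : ∑ x, I₃ x * τ x = (Nat.card X : ZMod p) * ω := by
    simp_rw [ht3]
    rw [← Finset.sum_mul, ← hcount]
    congr 1
    simp only [I₃]
    rw [Finset.sum_boole, Nat.card_eq_fintype_card, Fintype.card_subtype]
  have hpart : ∀ x, τ x = I₁ x * τ x + I₂ x * τ x + I₃ x * τ x := by
    intro x
    by_cases hx : a • x = x
    · by_cases hy : b • x = x
      · simp [I₁, I₂, I₃, hx, hy]
      · simp [I₁, I₂, I₃, hx, hy]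
    · simp [I₁, I₂, I₃, hx]
  rw [hsum, Finset.sum_congr rfl (fun x _ => hpart x), Finset.sum_add_distrib,
    Finset.sum_add_distrib, ht1s, ht2s, ht3s, zero_add, zero_add]

end Core

end Cfsg.Agent.Lib.InvSylow.Cocycle
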