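import Cfsg.Agent.Lib.InvSylow.Fusion
import Cfsg.Agent.Lib.Char.Complete

/-!
# Counting elements with prescribed `p`-part
-/

set_option autoImplicit false
set_option linter.unusedSectionVars false

namespace Cfsg.Agent.Lib.InvSylow.Count

open Cfsg Cfsg.Agent.Lib.InvSylow.Pow Cfsg.Agent.Lib.InvSylow.Ext
open Cfsg.Agent.Lib.InvSylow.Fusion
open scoped ComplexConjugate

universe u

variable {G : Type u} [Group G] {p N k k' a m : ℕ} {P : Sylow p G}

/-- The standing data for the counting arguments. -/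
structure Setup (P : Sylow p G) (D : PowData p N k k' a m) (t : G) : Prop where
  hyp : InvHyp P
  card_dvd : Nat.card G ∣ N
  inv : ∀ x ∈ (P : Subgroup G), t * x * t⁻¹ = x⁻¹

variable {D : PowData p N k k' a m} {t : G}

section
variable [Finite G] [hp : Fact p.Prime]

theorem Setup.exp (S : Setup P D t) (x : G) : x ^ N = 1 :=
  orderOf_dvd_iff_pow_eq_one.mp ((orderOf_dvd_natCard x).trans S.card_dvd)

theorem Setup.pow_mem (S : Setup P D t) {x : G} (hx : x ∈ (P : Subgroup G)) : x ^ k = x := by
  obtain ⟨n, hn⟩ := P.isPGroup' ⟨x, hx⟩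
  have hn' : x ^ p ^ n = 1 := by
    simpa [Subtype.ext_iff] using hn
  exact D.pow_k_of_pow (S.exp x) hn'

theorem Setup.pow'_mem (S : Setup P D t) {x : G} (hx : x ∈ (P : Subgroup G)) : x ^ k' = 1 := by
  obtain ⟨n, hn⟩ := P.isPGroup' ⟨x, hx⟩
  have hn' : x ^ p ^ n = 1 := by
    simpa [Subtype.ext_iff] using hn
  exact D.pow_k'_of_pow (S.exp x) hn'

theorem Setup.exists_pow_p (S : Setup P D t) {x : G} (hx : x ∈ (P : Subgroup G)) :
    ∃ n, x ^ p ^ n = 1 := by
  obtain ⟨n, hn⟩ := P.isPGroup' ⟨x, hx⟩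
  exact ⟨n, by simpa [Subtype.ext_iff] using hn⟩

/-- The elements with `p`-part `x` correspond to the normal complement in `C(x)`. -/
noncomputable def fibEquiv (S : Setup P D t) {x : G} (hx : x ∈ (P : Subgroup G)) (hx1 : x ≠ 1) :
    {g : G // g ^ k = x} ≃ coreC S.hyp hx hx1 where
  toFun g := by
    have hg : g.1 ^ k = x := g.2
    have h1 : x⁻¹ * g.1 = g.1 ^ k' := by
      have := D.mul_pow_eq (S.exp g.1)
      rw [hg] at this
      rw [inv_mul_eq_iff_eq_mul]
      exact this.symm
    have h2 : x⁻¹ * g.1 ∈ Subgroup.centralizer ({x} : Set G) := by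
      rw [h1, Subgroup.mem_centralizer_iff]
      rintro z rfl
      have := ((Commute.refl g.1).pow_pow k k').eq
      rwa [hg] at this
    refine ⟨⟨x⁻¹ * g.1, h2⟩, mem_coreC S.hyp hx hx1 _ ?_⟩
    have h3 : orderOf (⟨x⁻¹ * g.1, h2⟩ : Subgroup.centralizer ({x} : Set G)) = orderOf (x⁻¹ * g.1) :=
      Subgroup.orderOf_mk _ _
    rw [h3, h1]
    exact D.coprime_order_k' (S.exp g.1)
  invFun v := by
    refine ⟨x * v.1.1, ?_⟩
    obtain ⟨j, hj⟩ := S.exists_pow_p hx
    apply D.mul_coprime_pow_k (S.exp _) (S.exp _) _ hj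
    · have h1 : orderOf v ∣ Nat.card (coreC S.hyp hx hx1) := orderOf_dvd_natCard v
      have h2 : orderOf (v.1.1) = orderOf v := by
        have h3 : orderOf (v.1) = orderOf v := Subgroup.orderOf_coe v
        have h4 : orderOf (v.1.1) = orderOf v.1 := Subgroup.orderOf_coe v.1
        rw [h4, h3]
      rw [h2]
      exact Nat.Coprime.coprime_dvd_left h1 (coreC_coprime S.hyp hx hx1)
    · exact v.1.2 x rfl
  left_inv g := by
    apply Subtype.ext
    simp
  right_inv v := by
    apply Subtype.ext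
    apply Subtype.ext
    simp

theorem card_fib (S : Setup P D t) {x : G} (hx : x ∈ (P : Subgroup G)) (hx1 : x ≠ 1) :
    Nat.card {g : G // g ^ k = x} * Nat.card (P : Subgroup G) =
      Nat.card (Subgroup.centralizer ({x} : Set G)) := by
  rw [Nat.card_congr (fibEquiv S hx hx1), ← (coreC_isComplement S.hyp hx hx1).card_mul_card]
  congr 1
  rw [Sylow.coe_subtype]
  exact (Nat.card_congr (Subgroup.subgroupOfEquivOfLe (le_centralizer S.hyp hx)).toEquiv).symm

theorem card_fib_conj (x d : G) :
    Nat.card {g : G // g ^ k = d * x * d⁻¹} = Nat.card {g : G // g ^ k = x} := by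
  refine Nat.card_congr ⟨fun g => ⟨d⁻¹ * g.1 * d, ?_⟩, fun g => ⟨d * g.1 * d⁻¹, ?_⟩, ?_, ?_⟩
  · have := conj_pow (a := d⁻¹) (b := g.1) (i := k)
    have h2 : d⁻¹ * g.1 * d = d⁻¹ * g.1 * d⁻¹⁻¹ := by simp
    rw [h2, conj_pow, g.2]
    group
  · rw [conj_pow, g.2]
  · intro g
    apply Subtype.ext
    simp [mul_assoc]
  · intro g
    apply Subtype.ext
    simp [mul_assoc]

/-- `|S_x| = |G : P|`. -/
theorem card_conj_fib (S : Setup P D t) {x : G} (hx : x ∈ (P : Subgroup G)) (hx1 : x ≠ 1) :
    Nat.card {g : G // IsConj (g ^ k) x} * Nat.card (P : Subgroup G) = Nat.card G := by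
  classical
  cases nonempty_fintype G
  have h1 : ∀ y : G, IsConj y x → Nat.card {g : G // g ^ k = y} = Nat.card {g : G // g ^ k = x} := by
    intro y hy
    obtain ⟨d, hd⟩ := isConj_iff.mp hy.symm
    rw [← hd]
    exact card_fib_conj x d
  have h2 : Nat.card {g : G // IsConj (g ^ k) x} =
      Nat.card {y : G // IsConj y x} * Nat.card {g : G // g ^ k = x} := by
    simp only [Nat.card_eq_fintype_card, Fintype.card_subtype]
    rw [Finset.card_eq_sum_card_fiberwise (f := fun g => g ^ k)
      (t := Finset.univ.filter (fun y : G => IsConj y x))]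
    · rw [Finset.sum_congr rfl (g := fun _ => (Finset.univ.filter (fun g : G => g ^ k = x)).card)]
      · rw [Finset.sum_const, smul_eq_mul]
      · intro y hy
        have hy' : IsConj y x := (Finset.mem_filter.mp hy).2
        have h3 := h1 y hy'
        simp only [Nat.card_eq_fintype_card, Fintype.card_subtype] at h3
        rw [← h3]
        congr 1
        ext g
        simp only [Finset.mem_filter, Finset.mem_univ, true_and]
        constructor
        · exact fun h => h.2
        · intro h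
          refine ⟨?_, h⟩
          rw [h]
          exact hy'
    · intro g hg
      simp only [Finset.coe_filter, Finset.mem_univ, true_and, Set.mem_ofPred_eq] at hg ⊢
      exact hg
  rw [h2, mul_assoc, card_fib S hx hx1]
  exact Cfsg.Agent.Lib.Char.Complete.card_isConj_mul_card_centralizer x

end

section Sums

open scoped _root_.Classical

variable [Fintype G] [Fintype (P : Subgroup G)] [hp : Fact p.Prime]

/-- The chosen conjugate of the `p`-part. -/
noncomputable abbrev Ib (P : Sylow p G) (k : ℕ) (g : G) : (P : Subgroup G) := sylI P k g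

theorem Ib_spec (S : Setup P D t) (g : G) : ∃ c : G, c * g ^ k * c⁻¹ = Ib P k g :=
  sylI_spec D S.exp P g

theorem isConj_Ib (S : Setup P D t) (g : G) : IsConj (g ^ k) (Ib P k g : G) :=
  isConj_iff.mpr (Ib_spec S g)

theorem Ib_eq_one_iff (S : Setup P D t) (g : G) : Ib P k g = 1 ↔ g ^ k = 1 := by
  obtain ⟨c, hc⟩ := Ib_spec S g
  constructor
  · intro h
    rw [h] at hc
    have : c * g ^ k * c⁻¹ = 1 := by simpa using hc
    have h2 : g ^ k = c⁻¹ * (c * g ^ k * c⁻¹) * c := by group
    rw [h2, this]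
    simp
  · intro h
    apply Subtype.ext
    rw [← hc, h]
    simp

/-- Conjugates of the `p`-part inside `P`. -/
theorem isConj_iff_Ib (S : Setup P D t) (g : G) (x : (P : Subgroup G)) :
    IsConj (g ^ k) (x : G) ↔ x = Ib P k g ∨ x = (Ib P k g)⁻¹ := by
  constructor
  · intro h
    have h1 : IsConj (Ib P k g : G) (x : G) := (isConj_Ib S g).symm.trans h
    obtain ⟨c, hc⟩ := isConj_iff.mp h1
    have h2 : c * (Ib P k g : G) * c⁻¹ ∈ (P : Subgroup G) := by
      rw [hc]
      exact x.2
    rcases conj_eq_or_inv S.hyp (Ib P k g).2 h2 with h3 | h3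
    · left
      apply Subtype.ext
      rw [← hc, h3]
    · right
      apply Subtype.ext
      rw [← hc, h3]
      rfl
  · rintro (rfl | rfl)
    · exact isConj_Ib S g
    · refine (isConj_Ib S g).trans (isConj_iff.mpr ⟨t, ?_⟩)
      exact S.inv _ (Ib P k g).2

/-- Even functions on `P` are stable. -/
theorem stable_of_even (S : Setup P D t) {φ : ↥(P : Subgroup G) → ℂ} (he : ∀ x : (P : Subgroup G), φ x⁻¹ = φ x) : Stable P φ := by
  intro x y c hc
  have h2 : c * (x : G) * c⁻¹ ∈ (P : Subgroup G) := by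
    rw [hc]
    exact y.2
  rcases conj_eq_or_inv S.hyp x.2 h2 with h3 | h3
  · have : y = x := Subtype.ext (by rw [← hc, h3])
    rw [this]
  · have : y = x⁻¹ := Subtype.ext (by rw [← hc, h3]; rfl)
    rw [this, he]

/-- **Integration**. -/
theorem sum_sing (S : Setup P D t) (φ : ↥(P : Subgroup G) → ℂ) (he : ∀ x : (P : Subgroup G), φ x⁻¹ = φ x) :
    (Nat.card G : ℂ) * ∑ x : (P : Subgroup G), (if x = 1 then 0 else φ x) =
      2 * (Nat.card (P : Subgroup G) : ℂ) * ∑ g : G, (if g ^ k = 1 then 0 else φ (Ib P k g)) := by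
  classical
  have hS : ∀ x : (P : Subgroup G), x ≠ 1 → (Nat.card G : ℂ) = (Nat.card (P : Subgroup G) : ℂ) *
      ∑ g : G, (if IsConj (g ^ k) (x : G) then 1 else 0) := by
    intro x hx
    have h1 := card_conj_fib S x.2 (fun h => hx (Subtype.ext h))
    have h2 : (∑ g : G, (if IsConj (g ^ k) (x : G) then (1 : ℂ) else 0)) =
        (Nat.card {g : G // IsConj (g ^ k) (x : G)} : ℂ) := by
      rw [Finset.sum_boole, Nat.card_eq_fintype_card, Fintype.card_subtype]
    rw [h2, mul_comm, ← Nat.cast_mul, h1]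
  have h1 : (Nat.card G : ℂ) * ∑ x : (P : Subgroup G), (if x = 1 then 0 else φ x) =
      (Nat.card (P : Subgroup G) : ℂ) * ∑ g : G, ∑ x : (P : Subgroup G),
        (if x = 1 then 0 else if IsConj (g ^ k) (x : G) then φ x else 0) := by
    rw [Finset.mul_sum, Finset.sum_comm, Finset.mul_sum]
    refine Finset.sum_congr rfl fun x _ => ?_
    by_cases hx : x = 1
    · simp [hx]
    · simp only [if_neg hx]
      have h5 : ∑ g : G, (if IsConj (g ^ k) (x : G) then φ x else 0) =
          (∑ g : G, (if IsConj (g ^ k) (x : G) then (1 : ℂ) else 0)) * φ x := by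
        rw [Finset.sum_mul]
        refine Finset.sum_congr rfl fun g _ => ?_
        split_ifs <;> simp
      rw [h5, ← mul_assoc, ← hS x hx]
  rw [h1, mul_comm 2, mul_assoc]
  congr 1
  rw [Finset.mul_sum]
  refine Finset.sum_congr rfl fun g _ => ?_
  by_cases hg : g ^ k = 1
  · rw [if_pos hg, mul_zero]
    apply Finset.sum_eq_zero
    intro x _
    by_cases hx : x = 1
    · rw [if_pos hx]
    · have hnc : ¬ IsConj (g ^ k) (x : G) := by
        rw [hg]
        intro h
        apply hx
        apply Subtype.ext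
        have := isConj_one_right.mp h
        simpa using this
      rw [if_neg hx, if_neg hnc]
  · rw [if_neg hg]
    set y := Ib P k g with hy
    have hy1 : y ≠ 1 := fun h => hg ((Ib_eq_one_iff S g).mp h)
    have hy2 : y ≠ y⁻¹ := by
      intro h
      apply hy1
      apply Subtype.ext
      apply eq_one_of_mul_self S.hyp y.2
      have h3 := congrArg (Subtype.val) (mul_inv_cancel y)
      rw [← h] at h3
      simpa using h3
    have hy3 : y⁻¹ ≠ 1 := by simpa using hy1
    rw [Finset.sum_eq_add y y⁻¹ hy2]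
    · rw [if_neg hy1, if_neg hy3, if_pos (isConj_Ib S g), if_pos, he]
      · ring
      · exact (isConj_iff_Ib S g _).mpr (Or.inr rfl)
    · intro x _ hx
      by_cases hx1 : x = 1
      · rw [if_pos hx1]
      · rw [if_neg hx1, if_neg]
        intro h
        rcases (isConj_iff_Ib S g x).mp h with h | h
        · exact hx.1 h
        · exact hx.2 h
    · simp
    · simp

/-- The inner product on `G` of extensions. -/
theorem classInner_ext (S : Setup P D t) {φ ψ : ↥(P : Subgroup G) → ℂ} (hφ : ∀ x : (P : Subgroup G), φ x⁻¹ = φ x)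
    (hψ : ∀ x : (P : Subgroup G), ψ x⁻¹ = ψ x) (h1 : φ 1 = 0) :
    classInner (ext P k φ) (ext P k ψ) = (1 / 2 : ℂ) * classInner φ ψ := by
  have hG : (Nat.card G : ℂ) ≠ 0 := Nat.cast_ne_zero.mpr Nat.card_pos.ne'
  have hP : (Nat.card (P : Subgroup G) : ℂ) ≠ 0 := Nat.cast_ne_zero.mpr Nat.card_pos.ne'
  have h := sum_sing S (fun x => φ x * conj (ψ x)) (by
    intro x
    simp only [hφ, hψ])
  have h2 : ∑ g : G, φ (Ib P k g) * conj (ψ (Ib P k g)) =
      ∑ g : G, (if g ^ k = 1 then 0 else φ (Ib P k g) * conj (ψ (Ib P k g))) := by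
    refine Finset.sum_congr rfl fun g _ => ?_
    split_ifs with hg
    · rw [(Ib_eq_one_iff S g).mpr hg, h1, zero_mul]
    · rfl
  have h3 : ∑ x : (P : Subgroup G), (if x = 1 then 0 else φ x * conj (ψ x)) = ∑ x : (P : Subgroup G), φ x * conj (ψ x) := by
    refine Finset.sum_congr rfl fun x _ => ?_
    split_ifs with hx
    · rw [hx, h1, zero_mul]
    · rfl
  rw [h3] at h
  unfold classInner
  simp only [ext]
  rw [h2]
  field_simp
  linear_combination -h

/-- The number of singular elements, weighted by an even function. -/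
theorem sum_sing' (S : Setup P D t) (φ : ↥(P : Subgroup G) → ℂ) (he : ∀ x : (P : Subgroup G), φ x⁻¹ = φ x) :
    ∑ g : G, (if g ^ k = 1 then 0 else φ (Ib P k g)) =
      (Nat.card G : ℂ) * (∑ x : (P : Subgroup G), (if x = 1 then 0 else φ x)) /
        (2 * (Nat.card (P : Subgroup G) : ℂ)) := by
  have hP : (Nat.card (P : Subgroup G) : ℂ) ≠ 0 := Nat.cast_ne_zero.mpr Nat.card_pos.ne'
  have h := sum_sing S φ he
  field_simp
  linear_combination -h

end Sums

end Cfsg.Agent.Lib.InvSylow.Count
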