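import Mathlib

/-!
# Power maps splitting an element into its `p`-part and `p'`-part
-/

set_option autoImplicit false

namespace Cfsg.Agent.Lib.InvSylow.Pow

universe u

/-- `k` and `k'` are the exponents producing the `p`-part and the `p'`-part modulo `N = p ^ a * m`. -/
structure PowData (p N k k' a m : ℕ) : Prop where
  prime : p.Prime
  eq : N = p ^ a * m
  ndvd : ¬ p ∣ m
  k1 : k ≡ 1 [MOD p ^ a]
  k0 : k ≡ 0 [MOD m]
  k'0 : k' ≡ 0 [MOD p ^ a]
  k'1 : k' ≡ 1 [MOD m]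

theorem exists_powData {p N : ℕ} (hp : p.Prime) (hN : N ≠ 0) :
    ∃ k k' a m, PowData p N k k' a m := by
  obtain ⟨a, m, hm, rfl⟩ := Nat.exists_eq_pow_mul_and_not_dvd hN p hp.ne_one
  have hcop : Nat.Coprime (p ^ a) m :=
    Nat.Coprime.pow_left _ ((Nat.Prime.coprime_iff_not_dvd hp).mpr hm)
  obtain ⟨k, hk1, hk0⟩ := Nat.chineseRemainder hcop 1 0
  obtain ⟨k', hk'0, hk'1⟩ := Nat.chineseRemainder hcop 0 1
  exact ⟨k, k', a, m, hp, rfl, hm, hk1, hk0, hk'0, hk'1⟩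

variable {p N k k' a m : ℕ}

namespace PowData

variable (D : PowData p N k k' a m)

include D

theorem coprime : Nat.Coprime (p ^ a) m :=
  Nat.Coprime.pow_left _ ((Nat.Prime.coprime_iff_not_dvd D.prime).mpr D.ndvd)

theorem m_ne_zero : m ≠ 0 := by
  rintro rfl
  exact D.ndvd (dvd_zero p)

theorem add_modEq : k + k' ≡ 1 [MOD N] := by
  rw [D.eq]
  apply (Nat.modEq_and_modEq_iff_modEq_mul D.coprime).mp
  constructor
  · simpa using D.k1.add D.k'0
  · simpa using D.k0.add D.k'1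

variable {K : Type u} [Group K]

theorem mul_pow_eq {x : K} (hx : x ^ N = 1) : x ^ k * x ^ k' = x := by
  rw [← pow_add]
  have h := D.add_modEq
  have h1 : x ^ (k + k') = x ^ ((k + k') % N) := pow_mod_of_pow_eq_one' hx _
  have h2 : x ^ 1 = x ^ (1 % N) := pow_mod_of_pow_eq_one' hx _
  rw [h1, h, ← h2, pow_one]
where
  pow_mod_of_pow_eq_one' {K : Type u} [Group K] {x : K} {N : ℕ} (hx : x ^ N = 1) (n : ℕ) :
      x ^ n = x ^ (n % N) := pow_eq_pow_mod n hx

theorem pow_k_pow {x : K} (hx : x ^ N = 1) : (x ^ k) ^ (p ^ a) = 1 := by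
  have h : N ∣ k * p ^ a := by
    rw [D.eq, mul_comm (p ^ a) m]
    exact Nat.mul_dvd_mul_right ((Nat.modEq_zero_iff_dvd).mp D.k0) _
  obtain ⟨c, hc⟩ := h
  rw [← pow_mul, hc, pow_mul, hx, one_pow]

theorem pow_k'_pow {x : K} (hx : x ^ N = 1) : (x ^ k') ^ m = 1 := by
  have h : N ∣ k' * m := by
    rw [D.eq]
    exact Nat.mul_dvd_mul_right ((Nat.modEq_zero_iff_dvd).mp D.k'0) _
  obtain ⟨c, hc⟩ := h
  rw [← pow_mul, hc, pow_mul, hx, one_pow]

/-- An element with `x ^ (p ^ j) = 1` has `x ^ k = x`, `x ^ k' = 1`. -/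
theorem pow_k_of_pow {x : K} {j : ℕ} (hx : x ^ N = 1) (hj : x ^ p ^ j = 1) : x ^ k = x := by
  have hp := D.prime
  have h1 : orderOf x ∣ p ^ j := orderOf_dvd_of_pow_eq_one hj
  have h2 : orderOf x ∣ N := orderOf_dvd_of_pow_eq_one hx
  have h3 : orderOf x ∣ p ^ a := by
    rw [D.eq] at h2
    have hc : Nat.Coprime (orderOf x) m :=
      Nat.Coprime.coprime_dvd_left h1
        (Nat.Coprime.pow_left _ ((Nat.Prime.coprime_iff_not_dvd hp).mpr D.ndvd))
    exact hc.dvd_of_dvd_mul_right h2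
  have h4 : x ^ p ^ a = 1 := orderOf_dvd_iff_pow_eq_one.mp h3
  have h5 : x ^ k = x ^ (k % p ^ a) := pow_eq_pow_mod k h4
  have h6 : x ^ 1 = x ^ (1 % p ^ a) := pow_eq_pow_mod 1 h4
  rw [h5, D.k1, ← h6, pow_one]

theorem pow_k'_of_pow {x : K} {j : ℕ} (hx : x ^ N = 1) (hj : x ^ p ^ j = 1) : x ^ k' = 1 := by
  have h := D.mul_pow_eq hx
  rw [D.pow_k_of_pow hx hj] at h
  exact mul_eq_left.mp h

/-- An element of order prime to `p` has `x ^ k = 1`, `x ^ k' = x`. -/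
theorem pow_k_of_coprime {x : K} (hx : x ^ N = 1) (hc : Nat.Coprime (orderOf x) p) : x ^ k = 1 := by
  have h2 : orderOf x ∣ N := orderOf_dvd_of_pow_eq_one hx
  have h3 : orderOf x ∣ m := by
    rw [D.eq] at h2
    exact (Nat.Coprime.pow_right _ hc).dvd_of_dvd_mul_left h2
  exact orderOf_dvd_iff_pow_eq_one.mp (h3.trans ((Nat.modEq_zero_iff_dvd).mp D.k0))

theorem pow_k'_of_coprime {x : K} (hx : x ^ N = 1) (hc : Nat.Coprime (orderOf x) p) :
    x ^ k' = x := by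
  have h := D.mul_pow_eq hx
  rw [D.pow_k_of_coprime hx hc, one_mul] at h
  exact h

theorem coprime_order_k' {x : K} (hx : x ^ N = 1) : Nat.Coprime (orderOf (x ^ k')) p := by
  have h1 : orderOf (x ^ k') ∣ m := orderOf_dvd_of_pow_eq_one (D.pow_k'_pow hx)
  exact Nat.Coprime.coprime_dvd_left h1 ((Nat.Prime.coprime_iff_not_dvd D.prime).mpr D.ndvd).symm

theorem pow_k_pow_k {x : K} (hx : x ^ N = 1) : (x ^ k) ^ k = x ^ k := by
  apply D.pow_k_of_pow (j := a)
  · rw [← pow_mul, mul_comm, pow_mul, hx, one_pow]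
  · exact D.pow_k_pow hx

theorem pow_k_pow_k' {x : K} (hx : x ^ N = 1) : (x ^ k) ^ k' = 1 := by
  apply D.pow_k'_of_pow (j := a)
  · rw [← pow_mul, mul_comm, pow_mul, hx, one_pow]
  · exact D.pow_k_pow hx

theorem pow_k'_pow_k {x : K} (hx : x ^ N = 1) : (x ^ k') ^ k = 1 := by
  apply D.pow_k_of_coprime
  · rw [← pow_mul, mul_comm, pow_mul, hx, one_pow]
  · exact D.coprime_order_k' hx

theorem pow_k'_pow_k' {x : K} (hx : x ^ N = 1) : (x ^ k') ^ k' = x ^ k' := by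
  apply D.pow_k'_of_coprime
  · rw [← pow_mul, mul_comm, pow_mul, hx, one_pow]
  · exact D.coprime_order_k' hx

/-- `x ^ k` is a `p`-element (`zpowers`). -/
theorem isPGroup_zpowers {x : K} (hx : x ^ N = 1) : IsPGroup p (Subgroup.zpowers (x ^ k)) := by
  haveI := Fact.mk D.prime
  apply IsPGroup.of_card (n := (orderOf (x ^ k)).factorization p)
  rw [Nat.card_zpowers]
  have h1 : orderOf (x ^ k) ∣ p ^ a := orderOf_dvd_of_pow_eq_one (D.pow_k_pow hx)
  obtain ⟨j, -, hj⟩ := (Nat.dvd_prime_pow D.prime).mp h1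
  rw [hj, D.prime.factorization_pow]
  simp

/-- The order of `x ^ k` is a power of `p`. -/
theorem exists_order_k {x : K} (hx : x ^ N = 1) : ∃ j, orderOf (x ^ k) = p ^ j := by
  have h1 : orderOf (x ^ k) ∣ p ^ a := orderOf_dvd_of_pow_eq_one (D.pow_k_pow hx)
  obtain ⟨j, -, hj⟩ := (Nat.dvd_prime_pow D.prime).mp h1
  exact ⟨j, hj⟩

/-- Power maps of commuting products. -/
theorem mul_coprime_pow_k {x y : K} (hx : x ^ N = 1) (hy : y ^ N = 1) (hxy : Commute x y) {j : ℕ}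
    (hj : x ^ p ^ j = 1) (hc : Nat.Coprime (orderOf y) p) : (x * y) ^ k = x := by
  rw [hxy.mul_pow, D.pow_k_of_pow hx hj, D.pow_k_of_coprime hy hc, mul_one]

theorem mul_coprime_pow_k' {x y : K} (hx : x ^ N = 1) (hy : y ^ N = 1) (hxy : Commute x y) {j : ℕ}
    (hj : x ^ p ^ j = 1) (hc : Nat.Coprime (orderOf y) p) : (x * y) ^ k' = y := by
  rw [hxy.mul_pow, D.pow_k'_of_pow hx hj, D.pow_k'_of_coprime hy hc, one_mul]

end PowData

end Cfsg.Agent.Lib.InvSylow.Pow
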