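import Cfsg.Agent.Lib.Char.Brauer
import Cfsg.Agent.Lib.CharDeep.BrauerChar
import Cfsg.Agent.Lib.InvSylow.Pow

/-!
# Fusion-stable generalized characters of a Sylow subgroup extend to the whole group
-/

set_option autoImplicit false

namespace Cfsg.Agent.Lib.InvSylow.Ext

open Cfsg Cfsg.Agent.Lib.InvSylow.Pow
open scoped Pointwise

universe u

variable {K : Type u} [Group K] {p N k k' a m : ℕ}

/-- A `p`-subgroup is conjugate into a given Sylow subgroup. -/
theorem exists_conj_le [Finite K] [Fact p.Prime] (S : Sylow p K) {R : Subgroup K}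
    (hR : IsPGroup p R) : ∃ c : K, ∀ r ∈ R, c * r * c⁻¹ ∈ S := by
  obtain ⟨Q, hQ⟩ := hR.exists_le_sylow
  obtain ⟨c, hc⟩ := MulAction.exists_smul_eq K Q S
  refine ⟨c, fun r hr => ?_⟩
  have h : ((c • Q : Sylow p K) : Subgroup K) = MulAut.conj c • (Q : Subgroup K) := by
    rw [Sylow.smul_def, Sylow.pointwise_smul_def]
  have h1 : c * r * c⁻¹ ∈ ((c • Q : Sylow p K) : Subgroup K) := by
    rw [h]
    have := Subgroup.smul_mem_pointwise_smul r (MulAut.conj c) (Q : Subgroup K) (hQ hr)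
    simpa [MulAut.smul_def] using this
  rw [hc] at h1
  exact h1

open Classical in
/-- A chosen conjugate of `x ^ k` inside the Sylow subgroup `S`. -/
noncomputable def sylI (S : Sylow p K) (k : ℕ) (x : K) : (S : Subgroup K) :=
  if h : ∃ (c : K) (y : (S : Subgroup K)), c * x ^ k * c⁻¹ = y then h.choose_spec.choose else 1

theorem exists_conj_pow [Finite K] [Fact p.Prime] (D : PowData p N k k' a m)
    (hK : ∀ x : K, x ^ N = 1) (S : Sylow p K) (x : K) :
    ∃ (c : K) (y : (S : Subgroup K)), c * x ^ k * c⁻¹ = y := by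
  obtain ⟨c, hc⟩ := exists_conj_le S (D.isPGroup_zpowers (hK x))
  exact ⟨c, ⟨_, hc _ (Subgroup.mem_zpowers _)⟩, rfl⟩

theorem sylI_spec [Finite K] [Fact p.Prime] (D : PowData p N k k' a m)
    (hK : ∀ x : K, x ^ N = 1) (S : Sylow p K) (x : K) :
    ∃ c : K, c * x ^ k * c⁻¹ = sylI S k x := by
  have h := exists_conj_pow D hK S x
  classical
  rw [sylI, dif_pos h]
  exact ⟨_, h.choose_spec.choose_spec⟩

/-- `φ` is stable: conjugate elements of `S` have equal values. -/
def Stable (S : Sylow p K) (φ : ↥(S : Subgroup K) → ℂ) : Prop :=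
  ∀ (x y : (S : Subgroup K)) (c : K), c * (x : K) * c⁻¹ = y → φ x = φ y

/-- The extension of `φ`. -/
noncomputable def ext (S : Sylow p K) (k : ℕ) (φ : ↥(S : Subgroup K) → ℂ) : K → ℂ :=
  fun x => φ (sylI S k x)

theorem ext_eq [Finite K] [Fact p.Prime] (D : PowData p N k k' a m)
    (hK : ∀ x : K, x ^ N = 1) {S : Sylow p K} {φ : ↥(S : Subgroup K) → ℂ} (hφ : Stable S φ)
    {x c : K} {y : (S : Subgroup K)} (hy : c * x ^ k * c⁻¹ = y) : ext S k φ x = φ y := by
  obtain ⟨d, hd⟩ := sylI_spec D hK S x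
  apply hφ _ _ (c * d⁻¹)
  rw [← hd, ← hy]
  group

theorem isClassFunction_ext [Finite K] [Fact p.Prime] (D : PowData p N k k' a m)
    (hK : ∀ x : K, x ^ N = 1) {S : Sylow p K} {φ : ↥(S : Subgroup K) → ℂ} (hφ : Stable S φ) :
    IsClassFunction K (ext S k φ) := by
  intro g h
  obtain ⟨d, hd⟩ := sylI_spec D hK S g
  rw [ext_eq D hK hφ (x := h * g * h⁻¹) (c := d * h⁻¹) (y := sylI S k g)]
  · rfl
  · rw [← hd, conj_pow]
    group

/-- **Stable extension**: a stable generalized character of a Sylow subgroup extends. -/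
theorem isGenChar_ext [Fintype K] [Fact p.Prime] (D : PowData p N k k' a m)
    (hcard : Nat.card K ∣ N) (hK : ∀ x : K, x ^ N = 1) {S : Sylow p K} {φ : ↥(S : Subgroup K) → ℂ}
    (hφ : Stable S φ) (hgen : IsGeneralizedCharacter (S : Subgroup K) φ) :
    IsGeneralizedCharacter K (ext S k φ) := by
  apply Cfsg.Agent.Lib.Char.Brauer.isGenChar_of_restrict_elementary (isClassFunction_ext D hK hφ)
  intro E q hq hE
  have hcardE : Nat.card E ∣ m * p ^ a := by
    have h1 : Nat.card E ∣ Nat.card K := Subgroup.card_subgroup_dvd_card E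
    rw [mul_comm, ← D.eq]
    exact h1.trans hcard
  obtain ⟨f, hf⟩ := Cfsg.Agent.Lib.CharDeep.BrauerChar.exists_powHom hq hE hcardE
    D.coprime.symm D.k0 D.k1
  let R : Subgroup K := f.range.map E.subtype
  have hR : IsPGroup p R := by
    rintro ⟨r, hr⟩
    obtain ⟨_, ⟨e, rfl⟩, rfl⟩ := hr
    refine ⟨a, Subtype.ext ?_⟩
    simp only [Subgroup.coe_pow, Subgroup.coe_one, Subgroup.coe_subtype, hf, SubgroupClass.coe_pow]
    exact D.pow_k_pow (hK _)
  obtain ⟨c, hc⟩ := exists_conj_le S hR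
  have hmem : ∀ e : E, c * (e : K) ^ k * c⁻¹ ∈ S := by
    intro e
    apply hc
    refine ⟨f e, ⟨e, rfl⟩, ?_⟩
    simp [hf]
  let j : E →* (S : Subgroup K) := MonoidHom.mk' (fun e => ⟨c * (e : K) ^ k * c⁻¹, hmem e⟩) (by
    intro x y
    apply Subtype.ext
    have h1 : ((x * y : E) : K) ^ k = (x : K) ^ k * (y : K) ^ k := by
      have := congrArg (Subtype.val) (map_mul f x y)
      simpa [hf] using this
    simp only [Subgroup.coe_mul]
    rw [show ((x : K) * y) ^ k = (x : K) ^ k * (y : K) ^ k from h1]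
    group)
  have h2 : (fun e : E => ext S k φ e) = φ ∘ j := by
    funext e
    exact ext_eq D hK hφ (x := e) (c := c) (y := j e) rfl
  rw [h2]
  exact Cfsg.Agent.Lib.Char.GenLattice.isGenChar_comp j hgen

end Cfsg.Agent.Lib.InvSylow.Ext
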