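import Cfsg.Agent.Lib.Core.Basic
import Cfsg.Agent.Lib.InvSylow.Ext

/-!
# Fusion in a group whose abelian Sylow subgroup is centralized or inverted by its normalizer
-/

set_option autoImplicit false

namespace Cfsg.Agent.Lib.InvSylow.Fusion

open Cfsg Cfsg.Agent.Lib.InvSylow.Pow Cfsg.Agent.Lib.InvSylow.Ext

universe u

variable {G : Type u} [Group G] {p : ℕ}

/-- The standing hypotheses on the Sylow subgroup. -/
structure InvHyp (P : Sylow p G) : Prop where
  comm : ∀ x ∈ (P : Subgroup G), ∀ y ∈ (P : Subgroup G), x * y = y * x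
  sign : ∀ n ∈ Subgroup.normalizer ((P : Subgroup G) : Set G),
    (∀ x ∈ (P : Subgroup G), n * x * n⁻¹ = x) ∨ (∀ x ∈ (P : Subgroup G), n * x * n⁻¹ = x⁻¹)
  odd : p ≠ 2

variable {P : Sylow p G}

theorem eq_one_of_mul_self (hP : InvHyp P) [Fact p.Prime] {x : G} (hx : x ∈ (P : Subgroup G))
    (h : x * x = 1) : x = 1 := by
  obtain ⟨n, hn⟩ := P.isPGroup' ⟨x, hx⟩
  have hn' : x ^ p ^ n = 1 := by
    simpa [Subtype.ext_iff] using hn
  have h1 : orderOf x ∣ p ^ n := orderOf_dvd_of_pow_eq_one hn'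
  have h2 : orderOf x ∣ 2 := orderOf_dvd_of_pow_eq_one (by rw [pow_two, h])
  have hcop : Nat.Coprime (p ^ n) 2 := by
    apply Nat.Coprime.pow_left
    exact (Nat.coprime_primes (Fact.out) Nat.prime_two).mpr hP.odd
  have h3 : orderOf x ∣ 1 := by
    have := Nat.dvd_gcd h1 h2
    rwa [hcop] at this
  exact orderOf_eq_one_iff.mp (Nat.dvd_one.mp h3)

theorem ne_inv (hP : InvHyp P) [Fact p.Prime] {x : G} (hx : x ∈ (P : Subgroup G)) (h1 : x ≠ 1) :
    x ≠ x⁻¹ := by
  intro h
  apply h1
  apply eq_one_of_mul_self hP hx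
  nth_rewrite 2 [h]
  simp

variable [Finite G] [hp : Fact p.Prime]

/-- Control of fusion of two elements by the normalizer. -/
theorem exists_normalizer (hP : InvHyp P) {a b c : G} (ha : a ∈ (P : Subgroup G))
    (hb : b ∈ (P : Subgroup G)) (hca : c * a * c⁻¹ ∈ (P : Subgroup G))
    (hcb : c * b * c⁻¹ ∈ (P : Subgroup G)) :
    ∃ n ∈ Subgroup.normalizer ((P : Subgroup G) : Set G),
      n * a * n⁻¹ = c * a * c⁻¹ ∧ n * b * n⁻¹ = c * b * c⁻¹ := by
  let C : Subgroup G := Subgroup.centralizer ({a, b} : Set G)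
  have h1 : (P : Subgroup G) ≤ C := by
    intro x hx
    rw [Subgroup.mem_centralizer_iff]
    rintro y (rfl | rfl)
    · exact hP.comm _ ha _ hx
    · exact hP.comm _ hb _ hx
  have hQ : ∀ x ∈ ((c⁻¹ • P : Sylow p G) : Subgroup G), c * x * c⁻¹ ∈ (P : Subgroup G) := by
    intro x hx
    rw [Sylow.smul_def, Sylow.pointwise_smul_def, Subgroup.mem_pointwise_smul_iff_inv_smul_mem] at hx
    simpa [MulAut.smul_def] using hx
  have h2 : ((c⁻¹ • P : Sylow p G) : Subgroup G) ≤ C := by
    intro x hx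
    have hx' := hQ x hx
    rw [Subgroup.mem_centralizer_iff]
    rintro y (rfl | rfl)
    · have := hP.comm _ hca _ hx'
      have h3 : c * (y * x) * c⁻¹ = c * (x * y) * c⁻¹ := by
        calc c * (y * x) * c⁻¹ = (c * y * c⁻¹) * (c * x * c⁻¹) := by group
          _ = (c * x * c⁻¹) * (c * y * c⁻¹) := this
          _ = _ := by group
      exact mul_left_cancel (mul_right_cancel h3)
    · have := hP.comm _ hcb _ hx'
      have h3 : c * (y * x) * c⁻¹ = c * (x * y) * c⁻¹ := by
        calc c * (y * x) * c⁻¹ = (c * y * c⁻¹) * (c * x * c⁻¹) := by group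
          _ = (c * x * c⁻¹) * (c * y * c⁻¹) := this
          _ = _ := by group
      exact mul_left_cancel (mul_right_cancel h3)
  obtain ⟨d, hd⟩ := MulAction.exists_smul_eq C (P.subtype h1) ((c⁻¹ • P).subtype h2)
  rw [Sylow.smul_subtype] at hd
  have h3 : (d : G) • P = c⁻¹ • P := Sylow.subtype_injective hd
  have hn : (c * (d : G)) • P = P := by
    rw [mul_smul, h3, smul_inv_smul]
  refine ⟨c * d, Sylow.smul_eq_iff_mem_normalizer.mp hn, ?_, ?_⟩
  · have hda : a * (d : G) = d * a := d.2 a (Or.inl rfl)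
    calc c * d * a * (c * d)⁻¹ = c * ((d : G) * a) * (d : G)⁻¹ * c⁻¹ := by group
      _ = c * (a * (d : G)) * (d : G)⁻¹ * c⁻¹ := by rw [hda]
      _ = c * a * c⁻¹ := by group
  · have hdb : b * (d : G) = d * b := d.2 b (Or.inr rfl)
    calc c * d * b * (c * d)⁻¹ = c * ((d : G) * b) * (d : G)⁻¹ * c⁻¹ := by group
      _ = c * (b * (d : G)) * (d : G)⁻¹ * c⁻¹ := by rw [hdb]
      _ = c * b * c⁻¹ := by group

/-- The fusion of two elements has a uniform sign. -/
theorem conj_sign (hP : InvHyp P) {a b c : G} (ha : a ∈ (P : Subgroup G))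
    (hb : b ∈ (P : Subgroup G)) (hca : c * a * c⁻¹ ∈ (P : Subgroup G))
    (hcb : c * b * c⁻¹ ∈ (P : Subgroup G)) :
    (c * a * c⁻¹ = a ∧ c * b * c⁻¹ = b) ∨ (c * a * c⁻¹ = a⁻¹ ∧ c * b * c⁻¹ = b⁻¹) := by
  obtain ⟨n, hn, h1, h2⟩ := exists_normalizer hP ha hb hca hcb
  rcases hP.sign n hn with h | h
  · left
    rw [← h1, ← h2]
    exact ⟨h a ha, h b hb⟩
  · right
    rw [← h1, ← h2]
    exact ⟨h a ha, h b hb⟩

theorem conj_eq_or_inv (hP : InvHyp P) {a c : G} (ha : a ∈ (P : Subgroup G))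
    (hca : c * a * c⁻¹ ∈ (P : Subgroup G)) : c * a * c⁻¹ = a ∨ c * a * c⁻¹ = a⁻¹ := by
  rcases conj_sign hP ha ha hca hca with h | h
  · exact Or.inl h.1
  · exact Or.inr h.1

section Centralizer

variable (x : G)

/-- `P` as a Sylow subgroup of the centralizer of `x ∈ P`. -/
theorem le_centralizer (hP : InvHyp P) {x : G} (hx : x ∈ (P : Subgroup G)) :
    (P : Subgroup G) ≤ Subgroup.centralizer ({x} : Set G) := by
  intro y hy
  rw [Subgroup.mem_centralizer_iff]
  rintro z rfl
  exact hP.comm _ hx _ hy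

theorem normalizer_le (hP : InvHyp P) {x : G} (hx : x ∈ (P : Subgroup G)) (hx1 : x ≠ 1) :
    Subgroup.normalizer
        (((P.subtype (le_centralizer hP hx)) : Subgroup (Subgroup.centralizer ({x} : Set G))) :
          Set (Subgroup.centralizer ({x} : Set G))) ≤
      Subgroup.centralizer
        (((P.subtype (le_centralizer hP hx)) : Subgroup (Subgroup.centralizer ({x} : Set G))) :
          Set (Subgroup.centralizer ({x} : Set G))) := by
  intro y hy
  have hcx : (y : G) * x * (y : G)⁻¹ = x := by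
    have := y.2 x rfl
    rw [← this]
    group
  have hyn : (y : G) ∈ Subgroup.normalizer ((P : Subgroup G) : Set G) := by
    have h2 : y • (P.subtype (le_centralizer hP hx)) = P.subtype (le_centralizer hP hx) :=
      Sylow.smul_eq_iff_mem_normalizer.mpr hy
    rw [Sylow.smul_subtype] at h2
    exact Sylow.smul_eq_iff_mem_normalizer.mp (Sylow.subtype_injective h2)
  rcases hP.sign _ hyn with h | h
  · rw [Subgroup.mem_centralizer_iff]
    rintro ⟨z, hz⟩ hz'
    apply Subtype.ext
    have hz2 : z ∈ (P : Subgroup G) := by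
      have : (⟨z, hz⟩ : Subgroup.centralizer ({x} : Set G)) ∈
          ((P.subtype (le_centralizer hP hx) : Sylow p _) : Subgroup _) := hz'
      rw [Sylow.coe_subtype] at this
      exact Subgroup.mem_subgroupOf.mp this
    have h3 := h z hz2
    change z * (y : G) = y * z
    exact (mul_inv_eq_iff_eq_mul.mp h3).symm
  · exfalso
    have h3 := h x hx
    rw [hcx] at h3
    exact ne_inv hP hx hx1 h3

/-- The normal complement in the centralizer. -/
noncomputable def coreC (hP : InvHyp P) {x : G} (hx : x ∈ (P : Subgroup G)) (hx1 : x ≠ 1) :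
    Subgroup (Subgroup.centralizer ({x} : Set G)) :=
  (MonoidHom.transferSylow (P.subtype (le_centralizer hP hx)) (normalizer_le hP hx hx1)).ker

theorem coreC_isComplement (hP : InvHyp P) {x : G} (hx : x ∈ (P : Subgroup G)) (hx1 : x ≠ 1) :
    Subgroup.IsComplement' (coreC hP hx hx1)
      ((P.subtype (le_centralizer hP hx) : Sylow p _) : Subgroup _) :=
  MonoidHom.ker_transferSylow_isComplement' _ _

theorem coreC_coprime (hP : InvHyp P) {x : G} (hx : x ∈ (P : Subgroup G)) (hx1 : x ≠ 1) :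
    (Nat.card (coreC hP hx hx1)).Coprime p :=
  ((Nat.Prime.coprime_iff_not_dvd hp.out).mpr
    (MonoidHom.not_dvd_card_ker_transferSylow _ _)).symm

/-- A `p'`-element of the centralizer lies in the normal complement. -/
theorem mem_coreC (hP : InvHyp P) {x : G} (hx : x ∈ (P : Subgroup G)) (hx1 : x ≠ 1)
    (v : Subgroup.centralizer ({x} : Set G)) (hv : Nat.Coprime (orderOf v) p) :
    v ∈ coreC hP hx hx1 := by
  rw [coreC, MonoidHom.mem_ker]
  set y := MonoidHom.transferSylow (P.subtype (le_centralizer hP hx)) (normalizer_le hP hx hx1) v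
    with hy
  have h1 : orderOf y ∣ orderOf v := orderOf_map_dvd _ v
  obtain ⟨n, hn⟩ := (P.subtype (le_centralizer hP hx)).isPGroup' y
  have h2 : orderOf y ∣ p ^ n := orderOf_dvd_of_pow_eq_one (by exact_mod_cast hn)
  have h3 : orderOf y ∣ 1 := by
    have h4 : Nat.Coprime (orderOf v) (p ^ n) := Nat.Coprime.pow_right _ hv
    have := Nat.dvd_gcd h1 h2
    rwa [h4] at this
  exact orderOf_eq_one_iff.mp (Nat.dvd_one.mp h3)

/-- `p'`-elements of the centralizer lie in the `p'`-core of the centralizer. -/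
theorem mem_pPrimeCore (hP : InvHyp P) {x : G} (hx : x ∈ (P : Subgroup G)) (hx1 : x ≠ 1)
    (v : Subgroup.centralizer ({x} : Set G)) (hv : Nat.Coprime (orderOf v) p) :
    v ∈ pPrimeCore p (Subgroup.centralizer ({x} : Set G)) := by
  have h1 : (coreC hP hx hx1).Normal := MonoidHom.normal_ker _
  exact Cfsg.Agent.Lib.Core.Basic.le_pPrimeCore h1 (coreC_coprime hP hx hx1) (mem_coreC hP hx hx1 v hv)

/-- Decomposition of an element of `C(x)`. -/
theorem exists_decomp (hP : InvHyp P) {x : G} (hx : x ∈ (P : Subgroup G)) (hx1 : x ≠ 1)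
    {y : G} (hy : y ∈ Subgroup.centralizer ({x} : Set G)) :
    ∃ v w : G, y = v * w ∧ w ∈ (P : Subgroup G) ∧ v ∈ Subgroup.centralizer ({x} : Set G) ∧
      Nat.Coprime (orderOf v) p := by
  have hc := coreC_isComplement hP hx hx1
  obtain ⟨⟨v, w⟩, hvw⟩ := (Subgroup.isComplement'_def.mp hc).existsUnique ⟨y, hy⟩ |>.exists
  refine ⟨v.1.1, w.1.1, ?_, ?_, v.1.2, ?_⟩
  · exact (congrArg Subtype.val hvw).symm
  · have key : ∀ z : Subgroup.centralizer ({x} : Set G),
        z ∈ ((P.subtype (le_centralizer hP hx) : Sylow p _) : Subgroup _) →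
        (z : G) ∈ (P : Subgroup G) := fun z hz => by
      rw [Sylow.coe_subtype] at hz
      exact Subgroup.mem_subgroupOf.mp hz
    exact key _ w.2
  · have h1 : orderOf v ∣ Nat.card (coreC hP hx hx1) := orderOf_dvd_natCard v
    have h2 : orderOf (v.1.1) = orderOf v := by
      have h3 : orderOf (v.1) = orderOf v := Subgroup.orderOf_coe v
      have h4 : orderOf (v.1.1) = orderOf v.1 := Subgroup.orderOf_coe v.1
      rw [h4, h3]
    rw [h2]
    exact Nat.Coprime.coprime_dvd_left h1 (coreC_coprime hP hx hx1)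

end Centralizer

end Cfsg.Agent.Lib.InvSylow.Fusion
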