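import Cfsg.Agent.Lib.InvSylow.Cocycle
import Cfsg.Agent.Lib.InvSylow.Fusion

/-!
# The central extension of `G` with prescribed commutator form on the Sylow subgroup
-/

set_option autoImplicit false
set_option linter.unusedSectionVars false

namespace Cfsg.Agent.Lib.InvSylow.Cover

open Cfsg.Agent.Lib.InvSylow.Cocycle Cfsg.Agent.Lib.InvSylow.Fusion
open scoped _root_.Classical

universe u

variable {G : Type u} [Group G] {p : ℕ} {P : Sylow p G}

/-- Additive forms on a group: powers. -/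
theorem add_zpow {A : Type*} [Group A] {w : A → ZMod p} (hw : ∀ x y, w (x * y) = w x + w y)
    (x : A) (d : ℤ) : w (x ^ d) = (d : ZMod p) * w x := by
  let W : A →* Multiplicative (ZMod p) :=
    { toFun := fun x => Multiplicative.ofAdd (w x)
      map_one' := by
        have := hw 1 1
        rw [mul_one] at this
        have h0 : w 1 = 0 := left_eq_add.mp this
        rw [h0]
        rfl
      map_mul' := fun x y => by
        rw [hw]
        rfl }
  have h := map_zpow W x d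
  have h2 : w (x ^ d) = (W x ^ d).toAdd := by
    rw [← h]
    rfl
  rw [h2, toAdd_zpow, zsmul_eq_mul]
  rfl

theorem add_inv {A : Type*} [Group A] {w : A → ZMod p} (hw : ∀ x y, w (x * y) = w x + w y)
    (x : A) : w x⁻¹ = - w x := by
  have h := add_zpow hw x (-1)
  simpa using h

/-- The representative of a coset. -/
noncomputable def qq (P : Sylow p G) (c : G ⧸ (P : Subgroup G)) : G := Quotient.out c

theorem qq_spec (c : G ⧸ (P : Subgroup G)) : ((qq P c : G) : G ⧸ (P : Subgroup G)) = c :=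
  QuotientGroup.out_eq' c

theorem hh_mem (g : G) (c : G ⧸ (P : Subgroup G)) :
    (qq P (g • c))⁻¹ * (g * qq P c) ∈ (P : Subgroup G) := by
  have h : (((g * qq P c : G)) : G ⧸ (P : Subgroup G)) = g • ((qq P c : G) : G ⧸ (P : Subgroup G)) :=
    rfl
  rw [← QuotientGroup.eq, qq_spec, h, qq_spec]

/-- The cocycle of the coset action. -/
noncomputable def hh (g : G) (c : G ⧸ (P : Subgroup G)) : (P : Subgroup G) :=
  ⟨(qq P (g • c))⁻¹ * (g * qq P c), hh_mem g c⟩

theorem hh_coe (g : G) (c : G ⧸ (P : Subgroup G)) :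
    (hh g c : G) = (qq P (g • c))⁻¹ * (g * qq P c) := rfl

theorem hh_mul (g₁ g₂ : G) (c : G ⧸ (P : Subgroup G)) : hh (g₁ * g₂) c = hh g₁ (g₂ • c) * hh g₂ c := by
  apply Subtype.ext
  simp only [Subgroup.coe_mul, hh_coe, mul_smul]
  group

/-- The crossed homomorphism attached to an additive form on `P`. -/
noncomputable def th (w : ↥(P : Subgroup G) → ZMod p) (g : G) (c : G ⧸ (P : Subgroup G)) : ZMod p :=
  w (hh g c)

theorem th_mul {w : ↥(P : Subgroup G) → ZMod p} (hw : ∀ x y, w (x * y) = w x + w y)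
    (g₁ g₂ : G) (c : G ⧸ (P : Subgroup G)) : th w (g₁ * g₂) c = th w g₁ (g₂ • c) + th w g₂ c := by
  simp only [th, hh_mul, hw]

theorem hh_fix (g : G) {x : G ⧸ (P : Subgroup G)} (hx : g • x = x) :
    (hh g x : G) = (qq P x)⁻¹ * g * ((qq P x)⁻¹)⁻¹ := by
  rw [hh_coe, hx]
  group

variable [Finite G] [hp : Fact p.Prime]

theorem dvd_of_fix {g : G} (hg : g ∈ (P : Subgroup G)) {y : G ⧸ (P : Subgroup G)} {d : ℤ}
    (hfix : g ^ d • y = y) (hne : g • y ≠ y) : (p : ℤ) ∣ d := by
  by_contra hnd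
  obtain ⟨n, hn⟩ := P.isPGroup' ⟨g, hg⟩
  have hn' : g ^ p ^ n = 1 := by
    simpa [Subtype.ext_iff] using hn
  have hprime : Prime (p : ℤ) := Nat.prime_iff_prime_int.mp hp.out
  have hcop : IsCoprime d ((p : ℤ) ^ n) :=
    IsCoprime.pow_right ((hprime.irreducible.coprime_iff_not_dvd).mpr hnd).symm
  obtain ⟨α, β, hαβ⟩ := hcop
  apply hne
  have hs : g ^ d ∈ MulAction.stabilizer G y := hfix
  have h1 : g = (g ^ d) ^ α := by
    have h2 : g ^ (α * d + β * (p : ℤ) ^ n) = g := by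
      rw [hαβ, zpow_one]
    nth_rewrite 1 [← h2]
    rw [zpow_add, mul_comm α d, zpow_mul, mul_comm β, zpow_mul]
    have h3 : g ^ ((p : ℤ) ^ n) = 1 := by
      exact_mod_cast hn'
    rw [h3, one_zpow, mul_one]
  have h4 : (g ^ d) ^ α ∈ MulAction.stabilizer G y := Subgroup.zpow_mem _ hs α
  rw [← h1] at h4
  exact h4

/-- A power fixing a point not fixed by `g` has vanishing form. -/
theorem th_fix_zero (hP : InvHyp P) {w : ↥(P : Subgroup G) → ZMod p}
    (hw : ∀ x y, w (x * y) = w x + w y) {g : G} (hg : g ∈ (P : Subgroup G))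
    {y : G ⧸ (P : Subgroup G)} {d : ℤ} (hfix : g ^ d • y = y) (hne : g • y ≠ y) :
    th w (g ^ d) y = 0 := by
  have hdvd := dvd_of_fix hg hfix hne
  have hd0 : (d : ZMod p) = 0 := (ZMod.intCast_zmod_eq_zero_iff_dvd d p).mpr hdvd
  have hz : g ^ d ∈ (P : Subgroup G) := Subgroup.zpow_mem _ hg d
  have h1 := hh_fix (g ^ d) hfix
  have h2 : w ⟨g ^ d, hz⟩ = 0 := by
    have h3 : (⟨g ^ d, hz⟩ : (P : Subgroup G)) = (⟨g, hg⟩ : (P : Subgroup G)) ^ d := by
      apply Subtype.ext
      simp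
    rw [h3, add_zpow hw, hd0, zero_mul]
  have h4 : (qq P y)⁻¹ * g ^ d * ((qq P y)⁻¹)⁻¹ ∈ (P : Subgroup G) := by
    rw [← h1]
    exact (hh (g ^ d) y).2
  rcases conj_eq_or_inv hP hz h4 with h5 | h5
  · have h6 : hh (g ^ d) y = ⟨g ^ d, hz⟩ := Subtype.ext (h1.trans h5)
    rw [th, h6, h2]
  · have h6 : hh (g ^ d) y = (⟨g ^ d, hz⟩ : (P : Subgroup G))⁻¹ := Subtype.ext (h1.trans h5)
    rw [th, h6, add_inv hw, h2, neg_zero]

/-- **Potential lemma.** -/
theorem exists_pot (hP : InvHyp P) {w : ↥(P : Subgroup G) → ZMod p}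
    (hw : ∀ x y, w (x * y) = w x + w y) {g : G} (hg : g ∈ (P : Subgroup G)) :
    ∃ Pot : G ⧸ (P : Subgroup G) → ZMod p, ∀ c, g • c ≠ c → th w g c = Pot (g • c) - Pot c := by
  let s := MulAction.orbitRel (Subgroup.zpowers g) (G ⧸ (P : Subgroup G))
  let r : G ⧸ (P : Subgroup G) → G ⧸ (P : Subgroup G) := fun c => (Quotient.mk s c).out
  have hr : ∀ c, ∃ n : ℤ, g ^ n • r c = c := by
    intro c
    have h1 : s (r c) c := Quotient.mk_out (s := s) c
    have h2 : r c ∈ MulAction.orbit (Subgroup.zpowers g) c := MulAction.orbitRel_apply.mp h1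
    obtain ⟨z, hz⟩ := h2
    obtain ⟨e, he⟩ := z.2
    refine ⟨-e, ?_⟩
    have h3 : g ^ e • c = r c := by
      have h4 : (z : G) • c = r c := hz
      rwa [← he] at h4
    rw [← h3, smul_smul, zpow_neg, inv_mul_cancel, one_smul]
  choose n hn using hr
  have hrg : ∀ c, r (g • c) = r c := by
    intro c
    have h1 : s (g • c) c := by
      refine MulAction.orbitRel_apply.mpr ⟨⟨g, Subgroup.mem_zpowers g⟩, rfl⟩
    simp only [r]
    rw [Quotient.sound h1]
  refine ⟨fun c => th w (g ^ n c) (r c), fun c hc => ?_⟩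
  -- the two exponents
  have h1 : g ^ n (g • c) • r c = g • c := by
    have := hn (g • c)
    rwa [hrg] at this
  have h2 : g ^ n c • r c = c := hn c
  simp only [hrg]
  set y := g • c with hy
  have hyne : g • y ≠ y := fun h => hc (smul_left_cancel g h)
  set d : ℤ := (n c + 1) - n y with hd
  have h3 : g ^ (n c + 1) = g ^ d * g ^ n y := by
    rw [← zpow_add, hd]
    congr 1
    ring
  have h4 : g ^ d • y = y := by
    calc g ^ d • y = g ^ d • g ^ n y • r c := by rw [h1]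
      _ = g ^ (n c + 1) • r c := by rw [h3, mul_smul]
      _ = g • g ^ n c • r c := by rw [zpow_add, zpow_one, mul_comm_of_zpow, mul_smul]
      _ = y := by rw [h2]
  have h5 : th w (g ^ (n c + 1)) (r c) = th w g c + th w (g ^ n c) (r c) := by
    rw [zpow_add, zpow_one, mul_comm_of_zpow, th_mul hw, h2]
  have h6 : th w (g ^ (n c + 1)) (r c) = th w (g ^ n y) (r c) := by
    rw [h3, th_mul hw, h1, th_fix_zero hP hw hg h4 hyne, zero_add]
  rw [h6] at h5
  rw [h5]
  ring
where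
  mul_comm_of_zpow {G : Type u} [Group G] {g : G} {n : ℤ} : g ^ n * g = g * g ^ n :=
    (Commute.zpow_self g n).eq

/-- Both elements fix the point. -/
theorem th_fix_form (hP : InvHyp P) {u v : ↥(P : Subgroup G) → ZMod p}
    (hu : ∀ x y, u (x * y) = u x + u y) (hv : ∀ x y, v (x * y) = v x + v y)
    {a b : G} (ha : a ∈ (P : Subgroup G)) (hb : b ∈ (P : Subgroup G))
    {x : G ⧸ (P : Subgroup G)} (hax : a • x = x) (hbx : b • x = x) :
    th u a x * th v b x - th u b x * th v a x =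
      u ⟨a, ha⟩ * v ⟨b, hb⟩ - u ⟨b, hb⟩ * v ⟨a, ha⟩ := by
  have h1 := hh_fix a hax
  have h2 := hh_fix b hbx
  have h3 : (qq P x)⁻¹ * a * ((qq P x)⁻¹)⁻¹ ∈ (P : Subgroup G) := by
    rw [← h1]
    exact (hh a x).2
  have h4 : (qq P x)⁻¹ * b * ((qq P x)⁻¹)⁻¹ ∈ (P : Subgroup G) := by
    rw [← h2]
    exact (hh b x).2
  rcases conj_sign hP ha hb h3 h4 with ⟨h5, h6⟩ | ⟨h5, h6⟩
  · have e1 : hh a x = ⟨a, ha⟩ := Subtype.ext (h1.trans h5)
    have e2 : hh b x = ⟨b, hb⟩ := Subtype.ext (h2.trans h6)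
    simp only [th, e1, e2]
  · have e1 : hh a x = (⟨a, ha⟩ : (P : Subgroup G))⁻¹ := Subtype.ext (h1.trans h5)
    have e2 : hh b x = (⟨b, hb⟩ : (P : Subgroup G))⁻¹ := Subtype.ext (h2.trans h6)
    simp only [th, e1, e2, add_inv hu, add_inv hv]
    ring

/-- The number of common fixed points. -/
theorem card_common_fixed {a b : G} (ha : a ∈ (P : Subgroup G)) (hb : b ∈ (P : Subgroup G)) :
    ((Nat.card {x : G ⧸ (P : Subgroup G) // a • x = x ∧ b • x = x} : ℕ) : ZMod p) =
      (Nat.card (G ⧸ (P : Subgroup G)) : ℕ) := by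
  let R : Subgroup G := Subgroup.closure ({a, b} : Set G)
  have hle : R ≤ (P : Subgroup G) := by
    rw [Subgroup.closure_le]
    rintro y (rfl | rfl)
    · exact ha
    · exact hb
  have hR : IsPGroup p R := P.isPGroup'.to_le hle
  have h1 := hR.card_modEq_card_fixedPoints (G ⧸ (P : Subgroup G))
  have h2 : Nat.card (MulAction.fixedPoints R (G ⧸ (P : Subgroup G))) =
      Nat.card {x : G ⧸ (P : Subgroup G) // a • x = x ∧ b • x = x} := by
    apply Nat.card_congr
    apply Equiv.subtypeEquivRight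
    intro x
    constructor
    · intro h
      have hax := h ⟨a, Subgroup.subset_closure (Or.inl rfl)⟩
      have hbx := h ⟨b, Subgroup.subset_closure (Or.inr rfl)⟩
      exact ⟨hax, hbx⟩
    · rintro ⟨hax, hbx⟩ ⟨z, hz⟩
      have h3 : R ≤ MulAction.stabilizer G x := by
        rw [Subgroup.closure_le]
        rintro y (rfl | rfl)
        · exact hax
        · exact hbx
      exact h3 hz
  rw [h2] at h1
  exact ((ZMod.natCast_eq_natCast_iff _ _ _).mpr h1).symm

/-- The data of the central extension. -/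
structure Cov (P : Sylow p G) (u v : ↥(P : Subgroup G) → ZMod p) (H : Type u) [Group H] where
  π : H →* G
  surj : Function.Surjective π
  z : ZMod p → H
  z_add : ∀ i j, z (i + j) = z i * z j
  z_central : ∀ i h, z i * h = h * z i
  π_z : ∀ i, π (z i) = 1
  snd : H → ZMod p
  snd_z : ∀ i, snd (z i) = i
  eq_z : ∀ y, π y = 1 → y = z (snd y)
  card_eq : Nat.card H = Nat.card G * p
  sum_pi : ∀ [Fintype G] [Fintype H] (f : G → ℂ), ∑ h : H, f (π h) = (p : ℂ) * ∑ g : G, f g
  w : ZMod p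
  w_ne : w ≠ 0
  comm : ∀ (x y : H) (hx : π x ∈ (P : Subgroup G)) (hy : π y ∈ (P : Subgroup G)),
    x * y * x⁻¹ * y⁻¹ = z (w * (u ⟨π x, hx⟩ * v ⟨π y, hy⟩ - v ⟨π x, hx⟩ * u ⟨π y, hy⟩))

/-- Existence of the central extension. -/
theorem exists_cov (hP : InvHyp P) {u v : ↥(P : Subgroup G) → ZMod p}
    (hu : ∀ x y, u (x * y) = u x + u y) (hv : ∀ x y, v (x * y) = v x + v y) :
    ∃ (H : Type u) (_ : Group H) (_ : Finite H), Nonempty (Cov P u v H) := by
  haveI : NeZero p := ⟨hp.out.ne_zero⟩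
  letI : Fintype (G ⧸ (P : Subgroup G)) := Fintype.ofFinite _
  let c : Coc G p := coreCoc (θ₁ := th u) (θ₂ := th v) (th_mul hu) (th_mul hv)
  refine ⟨CExt c, inferInstance, inferInstance, ⟨?_⟩⟩
  refine
    { π := CExt.pi
      surj := CExt.pi_surj
      z := CExt.z
      z_add := CExt.z_add
      z_central := CExt.z_central
      π_z := CExt.pi_z
      snd := CExt.snd
      snd_z := CExt.snd_z
      eq_z := CExt.eq_z
      card_eq := CExt.card_eq
      sum_pi := fun f => CExt.sum_pi f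
      w := (Nat.card (G ⧸ (P : Subgroup G)) : ZMod p)
      w_ne := ?_
      comm := ?_ }
  · intro h
    rw [ZMod.natCast_eq_zero_iff] at h
    exact P.not_dvd_index h
  · intro x y hx hy
    have hab : x.fst * y.fst = y.fst * x.fst := hP.comm _ hx _ hy
    rw [CExt.comm_eq x y hab]
    congr 1
    obtain ⟨A₁, hA₁⟩ := exists_pot hP hu hx
    obtain ⟨A₂, hA₂⟩ := exists_pot hP hv hx
    obtain ⟨B₁, hB₁⟩ := exists_pot hP hu hy
    obtain ⟨B₂, hB₂⟩ := exists_pot hP hv hy
    have := coreF_comm (th_mul hu) (th_mul hv) hab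
      (u ⟨x.fst, hx⟩ * v ⟨y.fst, hy⟩ - u ⟨y.fst, hy⟩ * v ⟨x.fst, hx⟩) hA₁ hA₂ hB₁ hB₂
      (fun z hz1 hz2 => th_fix_form hP hu hv hx hy hz1 hz2) (card_common_fixed hx hy)
    have e : c.F = coreF (th u) (th v) := rfl
    rw [e, this]
    simp only [CExt.pi_apply]
    ring

end Cfsg.Agent.Lib.InvSylow.Cover
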