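import Cfsg.Agent.Lib.Char.GenLattice
import Cfsg.Agent.Lib.Char.Linear

/-!
# A star lemma for generalized characters of norm two
-/

set_option autoImplicit false
set_option linter.unusedSectionVars false

namespace Cfsg.Agent.Lib.InvSylow.Star

open Cfsg
open Cfsg.Agent.Lib.Char.Basic Cfsg.Agent.Lib.Char.Ortho Cfsg.Agent.Lib.Char.Complete
open Cfsg.Agent.Lib.Char.GenLattice
open scoped ComplexConjugate

universe u v

section Int

variable {ι : Type v} [Fintype ι] [DecidableEq ι]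

/-- An integer vector of norm two. -/
theorem exists_two (m : ι → ℤ) (h : ∑ l, m l ^ 2 = 2) :
    ∃ i j, i ≠ j ∧ (m i = 1 ∨ m i = -1) ∧ (m j = 1 ∨ m j = -1) ∧ ∀ l, l ≠ i → l ≠ j → m l = 0 := by
  have hsq : ∀ j, m j ^ 2 ≤ 2 := fun j => by
    rw [← h]
    exact Finset.single_le_sum (f := fun k => m k ^ 2) (fun _ _ => sq_nonneg _) (Finset.mem_univ j)
  have hone : ∀ j, m j ≠ 0 → m j = 1 ∨ m j = -1 := by
    intro j hj
    have h1 := hsq j
    have h3 : -2 < m j := by nlinarith [sq_nonneg (m j + 2), sq_nonneg (m j)]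
    have h4 : m j < 2 := by nlinarith [sq_nonneg (m j - 2), sq_nonneg (m j)]
    omega
  have hsq1 : ∀ j, m j ≠ 0 → m j ^ 2 = 1 := fun j hj => by
    rcases hone j hj with h | h <;> rw [h] <;> norm_num
  have hex : ∃ i, m i ≠ 0 := by
    by_contra hall
    push Not at hall
    simp [hall] at h
  obtain ⟨i, hi⟩ := hex
  have hex2 : ∃ i', i' ≠ i ∧ m i' ≠ 0 := by
    by_contra hall
    push Not at hall
    have h1 : ∑ j, m j ^ 2 = m i ^ 2 := by
      rw [Finset.sum_eq_single i]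
      · intro j _ hj
        rw [hall j hj]
        norm_num
      · intro hh
        exact absurd (Finset.mem_univ _) hh
    rw [h1, hsq1 i hi] at h
    omega
  obtain ⟨i', hii', hi'⟩ := hex2
  refine ⟨i, i', hii'.symm, hone i hi, hone i' hi', ?_⟩
  intro j hj hj'
  by_contra hne
  have h1 : m i ^ 2 + m i' ^ 2 + m j ^ 2 ≤ ∑ k, m k ^ 2 := by
    have := Finset.sum_le_sum_of_subset_of_nonneg (f := fun k => m k ^ 2) (s := {i, i', j})
      (t := Finset.univ) (Finset.subset_univ _) (fun _ _ _ => sq_nonneg _)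
    rw [Finset.sum_insert, Finset.sum_pair hj'.symm] at this
    · rw [add_assoc]
      exact this
    · simp only [Finset.mem_insert, Finset.mem_singleton, not_or]
      exact ⟨hii'.symm, hj.symm⟩
  rw [hsq1 i hi, hsq1 i' hi', hsq1 j hne, h] at h1
  omega

theorem entry (m : ι → ℤ) (h : ∑ l, m l ^ 2 = 2) (l : ι) : m l = 0 ∨ m l = 1 ∨ m l = -1 := by
  obtain ⟨i, j, -, hi, hj, ho⟩ := exists_two m h
  by_cases h1 : l = i
  · subst h1
    exact Or.inr hi
  by_cases h2 : l = j
  · subst h2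
    exact Or.inr hj
  exact Or.inl (ho l h1 h2)

theorem sum_mul_of_two (m n : ι → ℤ) {i j : ι} (hij : i ≠ j) (ho : ∀ l, l ≠ i → l ≠ j → m l = 0) :
    ∑ l, m l * n l = m i * n i + m j * n j := by
  rw [Finset.sum_eq_add i j hij]
  · intro c _ hc
    rw [ho c hc.1 hc.2, zero_mul]
  · simp
  · simp

/-- Two norm-two vectors with inner product one share exactly one coordinate, with equal entries. -/
theorem inter_one {m n : ι → ℤ} (hm : ∑ l, m l ^ 2 = 2) (hn : ∑ l, n l ^ 2 = 2)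
    (h : ∑ l, m l * n l = 1) :
    ∃ l, m l ≠ 0 ∧ n l ≠ 0 ∧ m l = n l ∧ ∀ l', m l' ≠ 0 → n l' ≠ 0 → l' = l := by
  obtain ⟨i, j, hij, hi, hj, ho⟩ := exists_two m hm
  rw [sum_mul_of_two m n hij ho] at h
  have hni := entry n hn i
  have hnj := entry n hn j
  have hmo : ∀ l', m l' ≠ 0 → l' = i ∨ l' = j := by
    intro l' hl'
    by_contra hc
    push Not at hc
    exact hl' (ho l' hc.1 hc.2)
  rcases hi with hi | hi <;> rcases hj with hj | hj <;>
    rcases hni with hni | hni | hni <;> rcases hnj with hnj | hnj | hnj <;>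
    rw [hi, hj, hni, hnj] at h <;> norm_num at h
  all_goals first
    | (refine ⟨j, by omega, by omega, by omega, ?_⟩
       intro l' hl' hl''
       rcases hmo l' hl' with rfl | rfl
       · exact absurd hni hl''
       · rfl)
    | (refine ⟨i, by omega, by omega, by omega, ?_⟩
       intro l' hl' hl''
       rcases hmo l' hl' with rfl | rfl
       · rfl
       · exact absurd hnj hl'')

/-- Lemma Q: a vector meeting three vectors through `a`, pairwise meeting only at `a`, contains `a`. -/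
theorem mem_of_three {x y z w : ι → ℤ} {a : ι}
    (hw : ∑ l, w l ^ 2 = 2)
    (hx : ∑ l, x l ^ 2 = 2) (hy : ∑ l, y l ^ 2 = 2) (hz : ∑ l, z l ^ 2 = 2)
    (hxy : ∀ l', x l' ≠ 0 → y l' ≠ 0 → l' = a)
    (hxz : ∀ l', x l' ≠ 0 → z l' ≠ 0 → l' = a)
    (hyz : ∀ l', y l' ≠ 0 → z l' ≠ 0 → l' = a)
    (hwx : ∑ l, w l * x l = 1) (hwy : ∑ l, w l * y l = 1) (hwz : ∑ l, w l * z l = 1) :
    w a ≠ 0 := by
  intro h0
  obtain ⟨lx, h1x, h2x, -, -⟩ := inter_one hw hx hwx
  obtain ⟨ly, h1y, h2y, -, -⟩ := inter_one hw hy hwy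
  obtain ⟨lz, h1z, h2z, -, -⟩ := inter_one hw hz hwz
  obtain ⟨i, j, hij, hi, hj, ho⟩ := exists_two w hw
  have hmo : ∀ l', w l' ≠ 0 → l' = i ∨ l' = j := by
    intro l' hl'
    by_contra hc
    push Not at hc
    exact hl' (ho l' hc.1 hc.2)
  have hxy' : lx ≠ ly := by
    rintro rfl
    have := hxy lx h2x h2y
    rw [this] at h1x
    exact h1x h0
  have hxz' : lx ≠ lz := by
    rintro rfl
    have := hxz lx h2x h2z
    rw [this] at h1x
    exact h1x h0
  have hyz' : ly ≠ lz := by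
    rintro rfl
    have := hyz ly h2y h2z
    rw [this] at h1y
    exact h1y h0
  rcases hmo lx h1x with rfl | rfl <;> rcases hmo ly h1y with rfl | rfl <;>
    rcases hmo lz h1z with rfl | rfl <;> simp_all

end Int

section Main

open scoped _root_.Classical

variable {G : Type u} [Group G] [Fintype G]

/-- The inner product of integer combinations. -/
theorem classInner_int_combination [Fintype (IrrCharacter G)] (m n : IrrCharacter G → ℤ) :
    classInner (∑ j, m j • (j : G → ℂ)) (∑ j, n j • (j : G → ℂ)) =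
      ((∑ j, m j * n j : ℤ) : ℂ) := by
  rw [classInner_sum_right]
  push_cast
  refine Finset.sum_congr rfl fun j _ => ?_
  rw [classInner_zsmul_right, classInner_of_int_combination]
  ring

/-- **Star lemma.** -/
theorem star {I : Type*} (S : I → G → ℂ) (hgen : ∀ i, IsGeneralizedCharacter G (S i))
    (hnorm : ∀ i, classInner (S i) (S i) = 2)
    (hone : ∀ i, classInner (S i) (fun _ => (1 : ℂ)) = 0)
    (R : I → I → Prop) (hR : ∀ i j, R i j → classInner (S i) (S j) = 1)
    (hnR : ∀ i j, ¬ R i j → S i = S j)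
    (a₁ a₂ a₃ a₄ : I) (h12 : R a₁ a₂) (h13 : R a₁ a₃) (h14 : R a₁ a₄) (h23 : R a₂ a₃)
    (h24 : R a₂ a₄) (h34 : R a₃ a₄) :
    ∃ c : G → ℂ, (IsIrrCharacter G c ∨ IsIrrCharacter G (-c)) ∧
      classInner c (fun _ => (1 : ℂ)) = 0 ∧
      ∀ i, (IsIrrCharacter G (S i - c) ∨ IsIrrCharacter G (-(S i - c))) ∧
        classInner (S i) c = 1 ∧ classInner (S i - c) c = 0 := by
  haveI := finite_irrCharacter (G := G)
  letI : Fintype (IrrCharacter G) := Fintype.ofFinite _
  -- coefficient vectors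
  have hex : ∀ i, ∃ m : IrrCharacter G → ℤ, (∀ l : IrrCharacter G, classInner (S i) (l : G → ℂ) = m l) ∧
      S i = ∑ l, m l • (l : G → ℂ) ∧ ∑ l, m l ^ 2 = 2 := by
    intro i
    obtain ⟨m, h1, h2, h3⟩ := classInner_self_eq_sum_sq (hgen i)
    refine ⟨m, h1, h2, ?_⟩
    rw [hnorm i] at h3
    exact_mod_cast h3.symm
  choose m hm1 hm2 hm3 using hex
  have hip : ∀ i j, classInner (S i) (S j) = ((∑ l, m i l * m j l : ℤ) : ℂ) := by
    intro i j
    conv_lhs => rw [hm2 i, hm2 j]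
    exact classInner_int_combination _ _
  have hRint : ∀ i j, R i j → ∑ l, m i l * m j l = 1 := by
    intro i j h
    have := hR i j h
    rw [hip] at this
    exact_mod_cast this
  have hmeq : ∀ i j, ¬ R i j → m i = m j := by
    intro i j h
    funext l
    have h1 := hm1 i l
    rw [hnR i j h, hm1 j l] at h1
    exact_mod_cast h1.symm
  have hcomm : ∀ i j, ∑ l, m i l * m j l = ∑ l, m j l * m i l := fun i j =>
    Finset.sum_congr rfl fun l _ => mul_comm _ _
  -- three vectors through a common point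
  obtain ⟨x, y, z, a, hxa, hya, hza, hRxy, hRxz, hRyz, huxy, huxz, huyz⟩ :
      ∃ (x y z : I) (a : IrrCharacter G), m x a ≠ 0 ∧ m y a ≠ 0 ∧ m z a ≠ 0 ∧ R x y ∧ R x z ∧ R y z ∧
        (∀ l', m x l' ≠ 0 → m y l' ≠ 0 → l' = a) ∧ (∀ l', m x l' ≠ 0 → m z l' ≠ 0 → l' = a) ∧
        (∀ l', m y l' ≠ 0 → m z l' ≠ 0 → l' = a) := by
    obtain ⟨i, j, hij, hi, hj, ho⟩ := exists_two (m a₁) (hm3 a₁)
    have hmo : ∀ l', m a₁ l' ≠ 0 → l' = i ∨ l' = j := by
      intro l' hl'
      by_contra hc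
      push Not at hc
      exact hl' (ho l' hc.1 hc.2)
    obtain ⟨l2, h1a, h1b, -, hu2⟩ := inter_one (hm3 a₁) (hm3 a₂) (hRint _ _ h12)
    obtain ⟨l3, h2a, h2b, -, hu3⟩ := inter_one (hm3 a₁) (hm3 a₃) (hRint _ _ h13)
    obtain ⟨l4, h3a, h3b, -, hu4⟩ := inter_one (hm3 a₁) (hm3 a₄) (hRint _ _ h14)
    obtain ⟨l23, -, -, -, hu23⟩ := inter_one (hm3 a₂) (hm3 a₃) (hRint _ _ h23)
    obtain ⟨l24, -, -, -, hu24⟩ := inter_one (hm3 a₂) (hm3 a₄) (hRint _ _ h24)
    obtain ⟨l34, -, -, -, hu34⟩ := inter_one (hm3 a₃) (hm3 a₄) (hRint _ _ h34)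
    have case23 : l2 = l3 → _ := fun h => (⟨a₁, a₂, a₃, l2, h1a, h1b, (h ▸ h2b : m a₃ l2 ≠ 0), h12, h13, h23,
        hu2, fun l' h1 h2 => by rw [hu3 l' h1 h2, h],
        fun l' h1 h2 => by
          rw [hu23 l' h1 h2, ← hu23 l2 h1b (h ▸ h2b)]⟩ :
        ∃ (x y z : I) (a : IrrCharacter G), m x a ≠ 0 ∧ m y a ≠ 0 ∧ m z a ≠ 0 ∧ R x y ∧ R x z ∧ R y z ∧
        (∀ l', m x l' ≠ 0 → m y l' ≠ 0 → l' = a) ∧ (∀ l', m x l' ≠ 0 → m z l' ≠ 0 → l' = a) ∧
        (∀ l', m y l' ≠ 0 → m z l' ≠ 0 → l' = a))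
    have case24 : l2 = l4 → _ := fun h => (⟨a₁, a₂, a₄, l2, h1a, h1b, (h ▸ h3b : m a₄ l2 ≠ 0), h12, h14, h24,
        hu2, fun l' h1 h2 => by rw [hu4 l' h1 h2, h],
        fun l' h1 h2 => by
          rw [hu24 l' h1 h2, ← hu24 l2 h1b (h ▸ h3b)]⟩ :
        ∃ (x y z : I) (a : IrrCharacter G), m x a ≠ 0 ∧ m y a ≠ 0 ∧ m z a ≠ 0 ∧ R x y ∧ R x z ∧ R y z ∧
        (∀ l', m x l' ≠ 0 → m y l' ≠ 0 → l' = a) ∧ (∀ l', m x l' ≠ 0 → m z l' ≠ 0 → l' = a) ∧
        (∀ l', m y l' ≠ 0 → m z l' ≠ 0 → l' = a))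
    have case34 : l3 = l4 → _ := fun h => (⟨a₁, a₃, a₄, l3, h2a, h2b, (h ▸ h3b : m a₄ l3 ≠ 0), h13, h14, h34,
        hu3, fun l' h1 h2 => by rw [hu4 l' h1 h2, h],
        fun l' h1 h2 => by
          rw [hu34 l' h1 h2, ← hu34 l3 h2b (h ▸ h3b)]⟩ :
        ∃ (x y z : I) (a : IrrCharacter G), m x a ≠ 0 ∧ m y a ≠ 0 ∧ m z a ≠ 0 ∧ R x y ∧ R x z ∧ R y z ∧
        (∀ l', m x l' ≠ 0 → m y l' ≠ 0 → l' = a) ∧ (∀ l', m x l' ≠ 0 → m z l' ≠ 0 → l' = a) ∧
        (∀ l', m y l' ≠ 0 → m z l' ≠ 0 → l' = a))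
    rcases hmo l2 h1a with e2 | e2 <;> rcases hmo l3 h2a with e3 | e3 <;>
      rcases hmo l4 h3a with e4 | e4
    · exact case23 (e2.trans e3.symm)
    · exact case23 (e2.trans e3.symm)
    · exact case24 (e2.trans e4.symm)
    · exact case34 (e3.trans e4.symm)
    · exact case34 (e3.trans e4.symm)
    · exact case24 (e2.trans e4.symm)
    · exact case23 (e2.trans e3.symm)
    · exact case23 (e2.trans e3.symm)
  -- all vectors pass through `a`
  have hall : ∀ i, m i a ≠ 0 := by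
    intro i
    by_cases h1 : R i x
    · by_cases h2 : R i y
      · by_cases h3 : R i z
        · exact mem_of_three (hm3 i) (hm3 x) (hm3 y) (hm3 z) huxy huxz huyz (hRint _ _ h1)
            (hRint _ _ h2) (hRint _ _ h3)
        · rw [hmeq i z h3]
          exact hza
      · rw [hmeq i y h2]
        exact hya
    · rw [hmeq i x h1]
      exact hxa
  -- the common sign
  have hsign : ∀ i, m i a = m x a := by
    intro i
    by_cases h1 : R i x
    · obtain ⟨l, h2, h3, h4, h5⟩ := inter_one (hm3 i) (hm3 x) (hRint _ _ h1)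
      rw [h5 a (hall i) hxa]
      exact h4
    · rw [hmeq i x h1]
  have hδ : m x a = 1 ∨ m x a = -1 := by
    rcases entry (m x) (hm3 x) a with h | h
    · exact absurd h hxa
    · exact h
  set δ : ℤ := m x a with hδdef
  have hδ2 : ((δ : ℂ)) * δ = 1 := by
    rcases hδ with h | h <;> rw [h] <;> norm_num
  refine ⟨δ • (a : G → ℂ), ?_, ?_, ?_⟩
  · rcases hδ with h | h
    · left
      rw [h, one_smul]
      exact a.2
    · right
      rw [h, neg_smul, one_smul, neg_neg]
      exact a.2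
  · rw [classInner_zsmul_left]
    have h1 : classInner (a : G → ℂ) (fun _ => (1 : ℂ)) = 0 := by
      apply classInner_eq_zero_of_isIrr_of_ne a.2 (Cfsg.Agent.Lib.Char.Linear.isIrrCharacter_of_deg_one isCharacter_one rfl)
      intro hne
      have h2 := hm1 x a
      have h3 := hone x
      rw [← hne] at h3
      rw [h3] at h2
      apply hxa
      exact_mod_cast h2.symm
    rw [h1, mul_zero]
  · intro i
    have h1 : classInner (S i) (δ • (a : G → ℂ)) = 1 := by
      rw [classInner_zsmul_right, hm1 i a, hsign i]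
      exact hδ2
    have h0 : classInner (a : G → ℂ) (a : G → ℂ) = 1 := classInner_self_of_isIrr a.2
    have h00 : classInner (δ • (a : G → ℂ)) (δ • (a : G → ℂ)) = 1 := by
      rw [classInner_zsmul_left, classInner_zsmul_right, h0, mul_one]
      exact hδ2
    refine ⟨?_, h1, ?_⟩
    · obtain ⟨i₀, j₀, hij, hi, hj, ho⟩ := exists_two (m i) (hm3 i)
      have hsum : S i = m i i₀ • (i₀ : G → ℂ) + m i j₀ • (j₀ : G → ℂ) := by
        conv_lhs => rw [hm2 i]
        rw [Finset.sum_eq_add i₀ j₀ hij]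
        · intro c _ hc
          rw [ho c hc.1 hc.2, zero_smul]
        · simp
        · simp
      have hmo : a = i₀ ∨ a = j₀ := by
        by_contra hc
        push Not at hc
        exact hall i (ho a hc.1 hc.2)
      rcases hmo with rfl | rfl
      · have h3 : S i - δ • (a : G → ℂ) = m i j₀ • (j₀ : G → ℂ) := by
          rw [hsum, ← hsign i]
          abel
        rw [h3]
        rcases hj with h | h
        · left
          rw [h, one_smul]
          exact j₀.2
        · right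
          rw [h, neg_smul, one_smul, neg_neg]
          exact j₀.2
      · have h3 : S i - δ • (a : G → ℂ) = m i i₀ • (i₀ : G → ℂ) := by
          rw [hsum, ← hsign i]
          abel
        rw [h3]
        rcases hi with h | h
        · left
          rw [h, one_smul]
          exact i₀.2
        · right
          rw [h, neg_smul, one_smul, neg_neg]
          exact i₀.2
    · rw [classInner_sub_left, h1, h00, sub_self]

end Main

end Cfsg.Agent.Lib.InvSylow.Star
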