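import Cfsg.Agent.Lib.InvSylow.Count
import Cfsg.Agent.Lib.InvSylow.Star
import Cfsg.Agent.Lib.Char.Linear

/-!
# The virtual characters `λ + λ̄ - 2` of an abelian group of odd order and their extensions
-/

set_option autoImplicit false
set_option linter.unusedSectionVars false

namespace Cfsg.Agent.Lib.InvSylow.Tau

open Cfsg
open Cfsg.Agent.Lib.Char.Basic Cfsg.Agent.Lib.Char.Ortho Cfsg.Agent.Lib.Char.Complete
open Cfsg.Agent.Lib.Char.GenLattice Cfsg.Agent.Lib.Char.Linear
open Cfsg.Agent.Lib.InvSylow.Pow Cfsg.Agent.Lib.InvSylow.Ext Cfsg.Agent.Lib.InvSylow.Fusion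
open Cfsg.Agent.Lib.InvSylow.Count
open scoped ComplexConjugate _root_.Classical

universe u

section Abelian

variable {A : Type u} [Group A] [Fintype A]

/-- The trivial character as a function. -/
noncomputable abbrev one (A : Type u) : A → ℂ := fun _ => 1

theorem isIrr_one : IsIrrCharacter A (one A) := isIrrCharacter_of_deg_one isCharacter_one rfl

/-- The dual function. -/
noncomputable def bar (χ : A → ℂ) : A → ℂ := fun x => χ x⁻¹

/-- `λ + λ̄ - 2`. -/
noncomputable def fl (χ : A → ℂ) : A → ℂ := fun x => χ x + χ x⁻¹ - 2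

variable (hc : ∀ a b : A, a * b = b * a) {χ ψ : A → ℂ}

include hc

theorem irr_at_one (hχ : IsIrrCharacter A χ) : χ 1 = 1 := isIrr_deg_one_of_comm hc hχ

theorem irr_mul (hχ : IsIrrCharacter A χ) (a b : A) : χ (a * b) = χ a * χ b :=
  deg_one_mul (isCharacter_of_isIrrCharacter hχ) (irr_at_one hc hχ) a b

theorem irr_inv_mul (hχ : IsIrrCharacter A χ) (a : A) : χ a⁻¹ * χ a = 1 := by
  rw [← irr_mul hc hχ, inv_mul_cancel, irr_at_one hc hχ]

theorem isIrr_bar (hχ : IsIrrCharacter A χ) : IsIrrCharacter A (bar χ) :=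
  isIrrCharacter_of_deg_one (isCharacter_inv (isCharacter_of_isIrrCharacter hχ))
    (by
      change χ 1⁻¹ = 1
      rw [inv_one]
      exact irr_at_one hc hχ)

omit hc in
theorem bar_bar (χ : A → ℂ) : bar (bar χ) = χ := by
  funext x
  simp [bar]

omit hc in
theorem bar_one : bar (one A) = one A := rfl

omit hc in
theorem bar_ne_one (h : χ ≠ one A) : bar χ ≠ one A := by
  intro h2
  apply h
  rw [← bar_bar χ, h2, bar_one]

omit hc in
theorem fl_bar (χ : A → ℂ) : fl (bar χ) = fl χ := by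
  funext x
  simp only [fl, bar, inv_inv]
  ring

omit hc in
theorem fl_inv (χ : A → ℂ) (x : A) : fl χ x⁻¹ = fl χ x := by
  simp only [fl, inv_inv]
  ring

theorem fl_at_one (hχ : IsIrrCharacter A χ) : fl χ 1 = 0 := by
  simp only [fl, inv_one, irr_at_one hc hχ]
  norm_num

omit hc in
theorem fl_eq (χ : A → ℂ) : fl χ = χ + bar χ - (2 : ℕ) • one A := by
  funext x
  simp [fl, bar]

theorem isGenChar_fl (hχ : IsIrrCharacter A χ) : IsGeneralizedCharacter A (fl χ) := by
  rw [fl_eq]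
  exact isGenChar_sub (isGenChar_add (isGenChar_of_isIrr hχ) (isGenChar_of_isIrr (isIrr_bar hc hχ)))
    (isGenChar_nsmul isGenChar_one 2)

/-- The inner product of two functions `fl`. -/
theorem classInner_fl (hχ : IsIrrCharacter A χ) (hψ : IsIrrCharacter A ψ) (hχ1 : χ ≠ one A)
    (hψ1 : ψ ≠ one A) :
    classInner (fl χ) (fl ψ) = (if χ = ψ then 1 else 0) + (if χ = bar ψ then 1 else 0) +
      (if bar χ = ψ then 1 else 0) + (if bar χ = bar ψ then 1 else 0) + 4 := by
  have h1 := isIrr_one (A := A)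
  have hbχ := isIrr_bar hc hχ
  have hbψ := isIrr_bar hc hψ
  rw [fl_eq, fl_eq]
  simp only [classInner_sub_left, classInner_sub_right, classInner_add_left, classInner_add_right,
    classInner_nsmul_left, classInner_nsmul_right]
  rw [classInner_irr hχ hψ, classInner_irr hχ hbψ, classInner_irr hχ h1, classInner_irr hbχ hψ,
    classInner_irr hbχ hbψ, classInner_irr hbχ h1, classInner_irr h1 hψ, classInner_irr h1 hbψ,
    classInner_self_of_isIrr h1, if_neg hχ1, if_neg (bar_ne_one hχ1), if_neg hψ1.symm,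
    if_neg (bar_ne_one hψ1).symm]
  push_cast
  ring

theorem classInner_fl_one (hχ : IsIrrCharacter A χ) (hχ1 : χ ≠ one A) :
    classInner (fl χ) (one A) = -2 := by
  have h1 := isIrr_one (A := A)
  rw [fl_eq]
  simp only [classInner_sub_left, classInner_add_left, classInner_nsmul_left]
  rw [classInner_irr hχ h1, classInner_irr (isIrr_bar hc hχ) h1, classInner_self_of_isIrr h1,
    if_neg hχ1, if_neg (bar_ne_one hχ1)]
  push_cast
  ring

/-- Odd order: only the trivial character is real. -/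
theorem bar_ne_self (hodd : Odd (Nat.card A)) (hχ : IsIrrCharacter A χ) (hχ1 : χ ≠ one A) :
    bar χ ≠ χ := by
  intro h
  apply hχ1
  funext x
  have h1 : χ x * χ x = 1 := by
    have h2 := irr_inv_mul hc hχ x
    have h3 : χ x⁻¹ = χ x := congrFun h x
    rwa [h3] at h2
  have h4 : ∀ n : ℕ, χ (x ^ n) = χ x ^ n := by
    intro n
    induction n with
    | zero => simp [irr_at_one hc hχ]
    | succ n ih => rw [pow_succ, irr_mul hc hχ, ih, pow_succ]
  obtain ⟨n, hn⟩ := hodd
  have h5 : χ x ^ Nat.card A = 1 := by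
    rw [← h4, pow_card_eq_one', irr_at_one hc hχ]
  rw [hn, pow_succ, pow_mul, pow_two, h1, one_pow, one_mul] at h5
  exact h5

theorem classInner_fl_self (hodd : Odd (Nat.card A)) (hχ : IsIrrCharacter A χ) (hχ1 : χ ≠ one A) :
    classInner (fl χ) (fl χ) = 6 := by
  rw [classInner_fl hc hχ hχ hχ1 hχ1, if_pos rfl, if_pos rfl,
    if_neg (bar_ne_self hc hodd hχ hχ1).symm, if_neg (bar_ne_self hc hodd hχ hχ1)]
  norm_num

theorem bar_inj (h : bar χ = bar ψ) : χ = ψ := by
  rw [← bar_bar χ, h, bar_bar]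

theorem classInner_fl_ne (hχ : IsIrrCharacter A χ) (hψ : IsIrrCharacter A ψ) (hχ1 : χ ≠ one A)
    (hψ1 : ψ ≠ one A) (h1 : ψ ≠ χ) (h2 : ψ ≠ bar χ) :
    classInner (fl χ) (fl ψ) = 4 := by
  have e1 : χ ≠ ψ := h1.symm
  have e2 : χ ≠ bar ψ := fun h => h2 (by rw [h, bar_bar])
  have e3 : bar χ ≠ ψ := h2.symm
  have e4 : bar χ ≠ bar ψ := fun h => h1 (bar_inj hc h).symm
  rw [classInner_fl hc hχ hψ hχ1 hψ1, if_neg e1, if_neg e2, if_neg e3, if_neg e4]
  norm_num

variable [Fintype (IrrCharacter A)]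

/-- Column orthogonality for an abelian group. -/
theorem sum_irr (x : A) :
    ∑ χ : IrrCharacter A, (χ : A → ℂ) x = if x = 1 then (Nat.card A : ℂ) else 0 := by
  have h := sum_irr_mul_conj x (1 : A)
  have h2 : ∀ χ : IrrCharacter A, (χ : A → ℂ) x * conj ((χ : A → ℂ) 1) = (χ : A → ℂ) x := by
    intro χ
    rw [irr_at_one hc χ.2]
    simp
  simp_rw [h2] at h
  rw [h]
  by_cases hx : x = 1
  · subst hx
    have h4 : Subgroup.centralizer ({(1 : A)} : Set A) = ⊤ := by
      ext y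
      simp [Subgroup.mem_centralizer_iff]
    rw [if_pos (IsConj.refl _), if_pos rfl, h4, Subgroup.card_top]
  · rw [if_neg hx, if_neg]
    intro h3
    exact hx (isConj_one_right.mp h3.symm)

theorem card_irr : (Fintype.card (IrrCharacter A) : ℂ) = Nat.card A := by
  have h := sum_irr hc (1 : A)
  rw [if_pos rfl] at h
  rw [← h]
  have h2 : ∀ χ : IrrCharacter A, (χ : A → ℂ) 1 = 1 := fun χ => irr_at_one hc χ.2
  simp [h2, Finset.card_univ]

/-- Sum over all characters of `fl`. -/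
theorem sum_fl (x : A) :
    ∑ χ : IrrCharacter A, fl (χ : A → ℂ) x = if x = 1 then 0 else -2 * (Nat.card A : ℂ) := by
  simp only [fl]
  rw [Finset.sum_sub_distrib, Finset.sum_add_distrib, sum_irr hc, sum_irr hc, Finset.sum_const,
    nsmul_eq_mul, Finset.card_univ, card_irr hc]
  by_cases hx : x = 1
  · simp [hx]
    ring
  · have hx' : x⁻¹ ≠ 1 := by simpa using hx
    rw [if_neg hx, if_neg hx, if_neg hx']
    ring

/-- Weighted sum over all characters of `fl`. -/
theorem sum_fl_weighted (x₀ x : A) (hx₀ : x₀ ≠ 1) :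
    ∑ χ : IrrCharacter A, (χ : A → ℂ) x₀⁻¹ * fl (χ : A → ℂ) x =
      (if x = x₀ then (Nat.card A : ℂ) else 0) + (if x = x₀⁻¹ then (Nat.card A : ℂ) else 0) := by
  have h1 : ∀ χ : IrrCharacter A, (χ : A → ℂ) x₀⁻¹ * fl (χ : A → ℂ) x =
      (χ : A → ℂ) (x₀⁻¹ * x) + (χ : A → ℂ) (x₀⁻¹ * x⁻¹) - 2 * (χ : A → ℂ) x₀⁻¹ := by
    intro χ
    rw [irr_mul hc χ.2, irr_mul hc χ.2]
    simp only [fl]
    ring
  simp_rw [h1]
  rw [Finset.sum_sub_distrib, Finset.sum_add_distrib, sum_irr hc, sum_irr hc, ← Finset.mul_sum,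
    sum_irr hc]
  have hx₀' : x₀⁻¹ ≠ 1 := by simpa using hx₀
  rw [if_neg hx₀', mul_zero, sub_zero]
  have e1 : x₀⁻¹ * x = 1 ↔ x = x₀ := by
    rw [inv_mul_eq_one, eq_comm]
  have e2 : x₀⁻¹ * x⁻¹ = 1 ↔ x = x₀⁻¹ := by
    rw [← mul_inv_rev, inv_eq_one, mul_eq_one_iff_eq_inv]
  simp only [e1, e2]

/-- The sum without the trivial character. -/
theorem sum_ne_one_irr (x : A) (hx : x ≠ 1) :
    ∑ χ : IrrCharacter A, (if (χ : A → ℂ) = one A then 0 else (χ : A → ℂ) x) = -1 := by
  have h := sum_irr hc x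
  rw [if_neg hx] at h
  have h1 : ∀ χ : IrrCharacter A, (if (χ : A → ℂ) = one A then 0 else (χ : A → ℂ) x) =
      (χ : A → ℂ) x - (if (χ : A → ℂ) = one A then 1 else 0) := by
    intro χ
    split_ifs with h2
    · rw [h2]
      simp
    · simp
  simp_rw [h1]
  rw [Finset.sum_sub_distrib, h, zero_sub, neg_inj]
  rw [Finset.sum_eq_single (⟨one A, isIrr_one⟩ : IrrCharacter A)]
  · simp
  · intro b _ hb
    rw [if_neg]
    intro h3
    exact hb (Subtype.ext h3)
  · simp

/-- Number of nontrivial characters. -/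
theorem card_ne_one :
    ∑ χ : IrrCharacter A, (if (χ : A → ℂ) = one A then (0 : ℂ) else 1) = (Nat.card A : ℂ) - 1 := by
  have h := card_irr hc (A := A)
  have h1 : ∀ χ : IrrCharacter A, (if (χ : A → ℂ) = one A then (0 : ℂ) else 1) =
      1 - (if (χ : A → ℂ) = one A then 1 else 0) := by
    intro χ
    split_ifs <;> simp
  simp_rw [h1]
  rw [Finset.sum_sub_distrib, Finset.sum_const, Finset.card_univ, nsmul_eq_mul, h, mul_one]
  congr 1
  rw [Finset.sum_eq_single (⟨one A, isIrr_one⟩ : IrrCharacter A)]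
  · simp
  · intro b _ hb
    rw [if_neg]
    intro h3
    exact hb (Subtype.ext h3)
  · simp

end Abelian

section Forms

variable {A : Type u} [Group A] {p : ℕ} [hp : Fact p.Prime]

/-- The additive character of `ZMod p`. -/
noncomputable abbrev ee (p : ℕ) [Fact p.Prime] (i : ZMod p) : ℂ := (ZMod.stdAddChar i : ℂ)

theorem ee_add (i j : ZMod p) : ee p (i + j) = ee p i * ee p j := AddChar.map_add_eq_mul _ _ _

theorem ee_zero : ee p 0 = 1 := AddChar.map_zero_eq_one _

theorem ee_inj {i j : ZMod p} (h : ee p i = ee p j) : i = j := ZMod.injective_stdAddChar h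

theorem ee_neg_mul (i : ZMod p) : ee p (-i) * ee p i = 1 := by
  rw [← ee_add, neg_add_cancel, ee_zero]

theorem ee_conj (i : ZMod p) : conj (ee p i) = ee p (-i) := by
  simp only [ee]
  rw [AddChar.map_neg_eq_conj]

/-- The linear function attached to a pair of homomorphisms. -/
noncomputable def lamF (u v : A → ZMod p) (i j : ZMod p) : A → ℂ :=
  fun x => ee p (i * u x + j * v x)

variable {u v : A → ZMod p}

theorem add_one_eq (hu : ∀ x y, u (x * y) = u x + u y) : u 1 = 0 := by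
  have := hu 1 1
  rw [mul_one] at this
  exact left_eq_add.mp this

theorem add_inv_eq (hu : ∀ x y, u (x * y) = u x + u y) (x : A) : u x⁻¹ = - u x := by
  have := hu x⁻¹ x
  rw [inv_mul_cancel, add_one_eq hu] at this
  exact eq_neg_of_add_eq_zero_left this.symm

theorem isIrr_lamF (hu : ∀ x y, u (x * y) = u x + u y) (hv : ∀ x y, v (x * y) = v x + v y)
    (i j : ZMod p) : IsIrrCharacter A (lamF u v i j) := by
  let f : A →* ℂ :=
    { toFun := lamF u v i j
      map_one' := by simp [lamF, add_one_eq hu, add_one_eq hv, ee_zero]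
      map_mul' := fun x y => by
        simp only [lamF, hu, hv]
        rw [← ee_add]
        congr 1
        ring }
  have := isIrrCharacter_of_hom f.toHomUnits
  convert this using 1
  funext x
  exact (MonoidHom.coe_toHomUnits f x).symm

theorem bar_lamF (hu : ∀ x y, u (x * y) = u x + u y) (hv : ∀ x y, v (x * y) = v x + v y)
    (i j : ZMod p) : bar (lamF u v i j) = lamF u v (-i) (-j) := by
  funext x
  simp only [bar, lamF, add_inv_eq hu, add_inv_eq hv]
  congr 1
  ring

theorem lamF_zero : lamF u v (0 : ZMod p) 0 = one A := by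
  funext x
  simp [lamF, ee_zero]

theorem lamF_inj (hs : ∀ s t : ZMod p, ∃ x, u x = s ∧ v x = t) {i j i' j' : ZMod p}
    (h : lamF u v i j = lamF u v i' j') : i = i' ∧ j = j' := by
  constructor
  · obtain ⟨x, hx1, hx2⟩ := hs 1 0
    have := ee_inj (congrFun h x)
    simpa [hx1, hx2] using this
  · obtain ⟨x, hx1, hx2⟩ := hs 0 1
    have := ee_inj (congrFun h x)
    simpa [hx1, hx2] using this

end Forms

section GLevel

variable {G : Type u} [Group G] [Fintype G] {p N k k' a m : ℕ} [hp : Fact p.Prime] {P : Sylow p G}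
variable [Fintype (P : Subgroup G)] {D : PowData p N k k' a m} {t : G}

theorem comm_of_setup (S : Setup P D t) : ∀ x y : (P : Subgroup G), x * y = y * x := fun x y =>
  Subtype.ext (S.hyp.comm x x.2 y y.2)

theorem odd_of_setup (S : Setup P D t) : Odd (Nat.card (P : Subgroup G)) := by
  obtain ⟨n, hn⟩ := (IsPGroup.iff_card.mp P.isPGroup')
  rw [hn]
  exact Odd.pow (hp.out.odd_of_ne_two S.hyp.odd)

/-- The extension of `λ + λ̄ - 2`. -/
noncomputable def Phi (P : Sylow p G) (k : ℕ) (χ : ↥(P : Subgroup G) → ℂ) : G → ℂ :=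
  ext P k (fl χ)

theorem Phi_apply (P : Sylow p G) (k : ℕ) (χ : ↥(P : Subgroup G) → ℂ) (g : G) :
    Phi P k χ g = fl χ (Ib P k g) := rfl

theorem isGenChar_Phi (S : Setup P D t) {χ : ↥(P : Subgroup G) → ℂ}
    (hχ : IsIrrCharacter (P : Subgroup G) χ) : IsGeneralizedCharacter G (Phi P k χ) :=
  isGenChar_ext D S.card_dvd S.exp (stable_of_even S (fl_inv χ))
    (isGenChar_fl (comm_of_setup S) hχ)

theorem isClassFunction_Phi (S : Setup P D t) (χ : ↥(P : Subgroup G) → ℂ) :
    IsClassFunction G (Phi P k χ) :=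
  isClassFunction_ext D S.exp (stable_of_even S (fl_inv χ))

theorem ext_one (P : Sylow p G) (k : ℕ) : ext P k (one _) = one G := rfl

theorem classInner_Phi_one (S : Setup P D t) {χ : ↥(P : Subgroup G) → ℂ}
    (hχ : IsIrrCharacter (P : Subgroup G) χ) (hχ1 : χ ≠ one _) :
    classInner (Phi P k χ) (one G) = -1 := by
  have h := classInner_ext S (fl_inv χ) (ψ := one _) (fun _ => rfl)
    (fl_at_one (comm_of_setup S) hχ)
  rw [ext_one, classInner_fl_one (comm_of_setup S) hχ hχ1] at h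
  rw [Phi, h]
  norm_num

theorem classInner_Phi_self (S : Setup P D t) {χ : ↥(P : Subgroup G) → ℂ}
    (hχ : IsIrrCharacter (P : Subgroup G) χ) (hχ1 : χ ≠ one _) :
    classInner (Phi P k χ) (Phi P k χ) = 3 := by
  have hc := comm_of_setup S
  have h := classInner_ext S (fl_inv χ) (fl_inv χ) (fl_at_one hc hχ)
  rw [classInner_fl_self hc (odd_of_setup S) hχ hχ1] at h
  rw [Phi, h]
  norm_num

theorem classInner_Phi_ne (S : Setup P D t) {χ ψ : ↥(P : Subgroup G) → ℂ}
    (hχ : IsIrrCharacter (P : Subgroup G) χ) (hψ : IsIrrCharacter (P : Subgroup G) ψ)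
    (hχ1 : χ ≠ one _) (hψ1 : ψ ≠ one _) (h1 : ψ ≠ χ) (h2 : ψ ≠ bar χ) :
    classInner (Phi P k χ) (Phi P k ψ) = 2 := by
  have hc := comm_of_setup S
  have h := classInner_ext S (fl_inv χ) (fl_inv ψ) (fl_at_one hc hχ)
  rw [classInner_fl_ne hc hχ hψ hχ1 hψ1 h1 h2] at h
  rw [Phi, Phi, h]
  norm_num

theorem classInner_one_self : classInner (one G) (one G) = 1 :=
  classInner_self_of_isIrr isIrr_one

/-- `Φ_χ + 1`. -/
noncomputable def Sf (P : Sylow p G) (k : ℕ) (χ : ↥(P : Subgroup G) → ℂ) : G → ℂ :=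
  Phi P k χ + one G

/-- The star decomposition. -/
theorem exists_star (S : Setup P D t) {u v : ↥(P : Subgroup G) → ZMod p}
    (hu : ∀ x y, u (x * y) = u x + u y) (hv : ∀ x y, v (x * y) = v x + v y)
    (hs : ∀ s t : ZMod p, ∃ x, u x = s ∧ v x = t) :
    ∃ c : G → ℂ, (IsIrrCharacter G c ∨ IsIrrCharacter G (-c)) ∧
      classInner c (one G) = 0 ∧
      ∀ χ : ↥(P : Subgroup G) → ℂ, IsIrrCharacter (P : Subgroup G) χ → χ ≠ one _ →
        (IsIrrCharacter G (Sf P k χ - c) ∨ IsIrrCharacter G (-(Sf P k χ - c))) ∧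
          classInner (Sf P k χ) c = 1 ∧ classInner (Sf P k χ - c) c = 0 := by
  have hc := comm_of_setup S
  let I := {χ : ↥(P : Subgroup G) → ℂ // IsIrrCharacter (P : Subgroup G) χ ∧ χ ≠ one _}
  let R : I → I → Prop := fun χ ψ => ψ.1 ≠ χ.1 ∧ ψ.1 ≠ bar χ.1
  have hoP : ∀ χ : I, classInner (one G) (Phi P k χ.1) = -1 := by
    intro χ
    rw [← classInner_conj, classInner_Phi_one S χ.2.1 χ.2.2]
    simp
  have h2 : (2 : ZMod p) ≠ 0 := by
    intro h
    have h3 : ((2 : ℕ) : ZMod p) = 0 := by exact_mod_cast h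
    rw [ZMod.natCast_eq_zero_iff] at h3
    exact S.hyp.odd ((Nat.prime_dvd_prime_iff_eq hp.out Nat.prime_two).mp h3)
  have h0 : (1 : ZMod p) ≠ 0 := one_ne_zero
  have h1 : (1 : ZMod p) ≠ -1 := by
    intro e
    apply h2
    linear_combination e
  have h3 : (0 : ZMod p) ≠ -1 := by
    intro e
    apply h0
    linear_combination e
  have hne : ∀ i j : ZMod p, ¬ (i = 0 ∧ j = 0) → lamF u v i j ≠ one _ := by
    intro i j hij h
    rw [← lamF_zero (u := u) (v := v)] at h
    exact hij (lamF_inj hs h)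
  let mk : ∀ i j : ZMod p, ¬ (i = 0 ∧ j = 0) → I := fun i j hij =>
    ⟨lamF u v i j, isIrr_lamF hu hv i j, hne i j hij⟩
  have hRl : ∀ (i j i' j' : ZMod p) (h h' : _), ¬ (i' = i ∧ j' = j) → ¬ (i' = -i ∧ j' = -j) →
      R (mk i j h) (mk i' j' h') := by
    intro i j i' j' h h' e1 e2
    refine ⟨fun e => e1 (lamF_inj hs e), fun e => ?_⟩
    change lamF u v i' j' = bar (lamF u v i j) at e
    rw [bar_lamF hu hv] at e
    exact e2 (lamF_inj hs e)
  have n10 : ¬ ((1 : ZMod p) = 0 ∧ (0 : ZMod p) = 0) := by simp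
  have n01 : ¬ ((0 : ZMod p) = 0 ∧ (1 : ZMod p) = 0) := by simp
  have n11 : ¬ ((1 : ZMod p) = 0 ∧ (1 : ZMod p) = 0) := by simp
  have n1m : ¬ ((1 : ZMod p) = 0 ∧ (-1 : ZMod p) = 0) := by simp
  obtain ⟨c, hc1, hc2, hc3⟩ := Cfsg.Agent.Lib.InvSylow.Star.star (G := G)
    (fun χ : I => Sf P k χ.1)
    (fun χ => isGenChar_add (isGenChar_Phi S χ.2.1) isGenChar_one)
    (fun χ => by
      simp only [Sf, classInner_add_left, classInner_add_right]
      rw [classInner_Phi_self S χ.2.1 χ.2.2, classInner_Phi_one S χ.2.1 χ.2.2, hoP χ,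
        classInner_one_self]
      norm_num)
    (fun χ => by
      simp only [Sf, classInner_add_left]
      rw [classInner_Phi_one S χ.2.1 χ.2.2]
      have := classInner_one_self (G := G)
      rw [show classInner (one G) (fun _ => (1 : ℂ)) = classInner (one G) (one G) from rfl, this]
      norm_num)
    R
    (fun χ ψ hR => by
      simp only [Sf, classInner_add_left, classInner_add_right]
      rw [classInner_Phi_ne S χ.2.1 ψ.2.1 χ.2.2 ψ.2.2 hR.1 hR.2, classInner_Phi_one S χ.2.1 χ.2.2,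
        hoP ψ, classInner_one_self]
      norm_num)
    (fun χ ψ hR => by
      have hor : ψ.1 = χ.1 ∨ ψ.1 = bar χ.1 := by
        by_contra hcon
        push Not at hcon
        exact hR hcon
      rcases hor with h | h
      · simp only [Sf, h]
      · simp only [Sf, h, Phi, fl_bar])
    (mk 1 0 n10) (mk 0 1 n01) (mk 1 1 n11) (mk 1 (-1) n1m)
    (hRl 1 0 0 1 n10 n01 (by simp) (by simp [h3.symm]))
    (hRl 1 0 1 1 n10 n11 (by simp) (by simp [h1]))
    (hRl 1 0 1 (-1) n10 n1m (by simp [h3]) (by simp [h1]))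
    (hRl 0 1 1 1 n01 n11 (by simp) (by simp))
    (hRl 0 1 1 (-1) n01 n1m (by simp) (by simp [h3]))
    (hRl 1 1 1 (-1) n11 n1m (by simp [h1.symm]) (by simp [h1]))
  exact ⟨c, hc1, hc2, fun χ hχ hχ1 => hc3 ⟨χ, hχ, hχ1⟩⟩

end GLevel

end Cfsg.Agent.Lib.InvSylow.Tau
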