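import Cfsg.Agent.Lib.InvSylow.Cover
import Cfsg.Agent.Lib.InvSylow.Tau

/-!
# Group theory in the central extension
-/

set_option autoImplicit false
set_option linter.unusedSectionVars false

namespace Cfsg.Agent.Lib.InvSylow.CoverP

open Cfsg.Agent.Lib.InvSylow.Pow Cfsg.Agent.Lib.InvSylow.Fusion Cfsg.Agent.Lib.InvSylow.Count
open Cfsg.Agent.Lib.InvSylow.Cover
open scoped _root_.Classical

universe u

variable {G H : Type u} [Group G] [Group H] {p N k k' a m : ℕ} {P : Sylow p G}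
variable [Finite G] [hp : Fact p.Prime]
variable {D : PowData p N k k' a m} {t : G} {u v : ↥(P : Subgroup G) → ZMod p}

/-- Extension by zero of a form. -/
noncomputable def ex0 (P : Sylow p G) (u : ↥(P : Subgroup G) → ZMod p) (g : G) : ZMod p :=
  if h : g ∈ (P : Subgroup G) then u ⟨g, h⟩ else 0

theorem ex0_coe (P : Sylow p G) (u : ↥(P : Subgroup G) → ZMod p) (x : (P : Subgroup G)) :
    ex0 P u (x : G) = u x := by
  rw [ex0, dif_pos x.2]

theorem ex0_mul (hu : ∀ x y, u (x * y) = u x + u y) {g g' : G} (hg : g ∈ (P : Subgroup G))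
    (hg' : g' ∈ (P : Subgroup G)) : ex0 P u (g * g') = ex0 P u g + ex0 P u g' := by
  rw [ex0, ex0, ex0, dif_pos hg, dif_pos hg', dif_pos (Subgroup.mul_mem _ hg hg'), ← hu]
  rfl

theorem ex0_one (hu : ∀ x y, u (x * y) = u x + u y) : ex0 P u 1 = 0 := by
  have h := ex0_mul hu (P.one_mem) (P.one_mem)
  rw [mul_one] at h
  exact left_eq_add.mp h

theorem ex0_inv (hu : ∀ x y, u (x * y) = u x + u y) {g : G} (hg : g ∈ (P : Subgroup G)) :
    ex0 P u g⁻¹ = - ex0 P u g := by
  have h := ex0_mul hu (Subgroup.inv_mem _ hg) hg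
  rw [inv_mul_cancel, ex0_one hu] at h
  exact eq_neg_of_add_eq_zero_left h.symm

/-- The standing hypotheses at the level of the extension. -/
structure Ctx (S : Setup P D t) (C : Cov P u v H) (T : H) : Prop where
  hu : ∀ x y, u (x * y) = u x + u y
  hv : ∀ x y, v (x * y) = v x + v y
  hs : ∀ s t : ZMod p, ∃ x, u x = s ∧ v x = t
  hNH : Nat.card H ∣ N
  hT : C.π T = t
  hTc : Nat.Coprime (orderOf T) p

section

variable {C : Cov P u v H}

theorem z_zero (C : Cov P u v H) : C.z 0 = 1 := by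
  have h := C.z_add 0 0
  rw [add_zero] at h
  exact left_eq_mul.mp h

theorem z_nat (C : Cov P u v H) (i : ZMod p) (n : ℕ) : C.z i ^ n = C.z ((n : ZMod p) * i) := by
  induction n with
  | zero => simp [z_zero]
  | succ n ih =>
    rw [pow_succ, ih, ← C.z_add]
    congr 1
    push_cast
    ring

theorem z_inj (C : Cov P u v H) {i j : ZMod p} (h : C.z i = C.z j) : i = j := by
  rw [← C.snd_z i, h, C.snd_z]

theorem z_comm (C : Cov P u v H) (i : ZMod p) (h : H) : Commute (C.z i) h := C.z_central i h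

theorem z_inv (C : Cov P u v H) (i : ZMod p) : (C.z i)⁻¹ = C.z (-i) := by
  rw [inv_eq_iff_mul_eq_one, ← C.z_add, add_neg_cancel, z_zero]

/-- A form of the commutator formula in terms of the extension by zero. -/
theorem comm_ex0 (C : Cov P u v H) (x y : H) (hx : C.π x ∈ (P : Subgroup G))
    (hy : C.π y ∈ (P : Subgroup G)) :
    x * y * x⁻¹ * y⁻¹ = C.z (C.w * (ex0 P u (C.π x) * ex0 P v (C.π y) -
      ex0 P v (C.π x) * ex0 P u (C.π y))) := by
  rw [C.comm x y hx hy, ex0, ex0, ex0, ex0, dif_pos hx, dif_pos hx, dif_pos hy, dif_pos hy]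

theorem commute_of_form (C : Cov P u v H) {x y : H} (hx : C.π x ∈ (P : Subgroup G))
    (hy : C.π y ∈ (P : Subgroup G))
    (h : ex0 P u (C.π x) * ex0 P v (C.π y) - ex0 P v (C.π x) * ex0 P u (C.π y) = 0) :
    x * y = y * x := by
  have h1 := comm_ex0 C x y hx hy
  rw [h, mul_zero, z_zero] at h1
  calc x * y = (x * y * x⁻¹ * y⁻¹) * (y * x) := by group
    _ = y * x := by rw [h1, one_mul]

/-- Elements with commuting images and one of order prime to `p` commute. -/
theorem commute_of_coprime (C : Cov P u v H) {d x : H} (hdx : C.π d * C.π x = C.π x * C.π d)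
    (hd : Nat.Coprime (orderOf d) p) : d * x = x * d := by
  have h1 : C.π (d * x * d⁻¹ * x⁻¹) = 1 := by
    simp only [map_mul, map_inv, hdx]
    group
  set i := C.snd (d * x * d⁻¹ * x⁻¹) with hi
  have h2 : d * x * d⁻¹ = C.z i * x := by
    have := C.eq_z _ h1
    rw [← hi] at this
    rw [← this]
    group
  have h3 : ∀ n : ℕ, d ^ n * x * (d ^ n)⁻¹ = C.z ((n : ZMod p) * i) * x := by
    intro n
    induction n with
    | zero => simp [z_zero]
    | succ n ih =>
      have e : d ^ (n + 1) * x * (d ^ (n + 1))⁻¹ = d ^ n * (d * x * d⁻¹) * (d ^ n)⁻¹ := by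
        rw [pow_succ]
        group
      have e2 : d ^ n * (C.z i * x) * (d ^ n)⁻¹ = C.z i * (d ^ n * x * (d ^ n)⁻¹) := by
        calc d ^ n * (C.z i * x) * (d ^ n)⁻¹ = (d ^ n * C.z i) * x * (d ^ n)⁻¹ := by group
          _ = (C.z i * d ^ n) * x * (d ^ n)⁻¹ := by rw [(z_comm C i (d ^ n)).eq]
          _ = _ := by group
      rw [e, h2, e2, ih, ← mul_assoc, ← C.z_add]
      congr 2
      push_cast
      ring
  have h4 := h3 (orderOf d)
  rw [pow_orderOf_eq_one, one_mul, inv_one, mul_one] at h4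
  have h5 : C.z (((orderOf d : ℕ) : ZMod p) * i) = 1 := by
    exact (mul_eq_right.mp h4.symm)
  have h6 : ((orderOf d : ℕ) : ZMod p) * i = 0 := by
    apply z_inj C
    rw [h5, z_zero]
  have h7 : ((orderOf d : ℕ) : ZMod p) ≠ 0 := by
    intro h
    rw [ZMod.natCast_eq_zero_iff] at h
    have := Nat.eq_one_of_dvd_coprimes hd h (dvd_refl p)
    exact hp.out.one_lt.ne' this
  have h8 : i = 0 := (mul_eq_zero.mp h6).resolve_left h7
  rw [h8, z_zero, one_mul] at h2
  calc d * x = d * x * d⁻¹ * d := by group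
    _ = x * d := by rw [h2]

/-- A lift of an element of order prime to `p` of order prime to `p`. -/
theorem exists_lift_coprime (C : Cov P u v H) (hN : ∀ x : H, x ^ N = 1) (hG : ∀ x : G, x ^ N = 1)
    (D : PowData p N k k' a m) {g : G} (hg : Nat.Coprime (orderOf g) p) :
    ∃ s : H, C.π s = g ∧ Nat.Coprime (orderOf s) p := by
  obtain ⟨s, hs⟩ := C.surj g
  refine ⟨s ^ k', ?_, D.coprime_order_k' (hN s)⟩
  rw [map_pow, hs, D.pow_k'_of_coprime (hG g) hg]

end

section Ctx

variable {S : Setup P D t} {C : Cov P u v H} {T : H} (X : Ctx S C T)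

variable [Finite H]

include X

theorem exp_H (x : H) : x ^ N = 1 :=
  orderOf_dvd_iff_pow_eq_one.mp ((orderOf_dvd_natCard x).trans X.hNH)

theorem pi_T_mem {x : H} (hx : C.π x ∈ (P : Subgroup G)) : C.π (T * x * T⁻¹) = (C.π x)⁻¹ := by
  simp only [map_mul, map_inv, X.hT]
  exact S.inv _ hx

theorem pi_T_mem' {x : H} (hx : C.π x ∈ (P : Subgroup G)) : C.π (T * x * T⁻¹) ∈ (P : Subgroup G) := by
  rw [pi_T_mem X hx]
  exact Subgroup.inv_mem _ hx

/-- `T²` centralizes the preimage of `P`. -/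
theorem T_sq_comm {x : H} (hx : C.π x ∈ (P : Subgroup G)) : T * T * x = x * (T * T) := by
  apply commute_of_coprime C
  · simp only [map_mul, X.hT]
    have h1 := S.inv _ hx
    have h2 := S.inv _ (Subgroup.inv_mem _ hx)
    rw [inv_inv, ← h1] at h2
    have h3 : t * (t * C.π x * t⁻¹) * t⁻¹ * (t * t) = C.π x * (t * t) := by rw [h2]
    calc t * t * C.π x = t * (t * C.π x * t⁻¹) * t⁻¹ * (t * t) := by group
      _ = C.π x * (t * t) := h3
  · have h1 : orderOf (T * T) ∣ orderOf T := by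
      rw [← pow_two]
      exact orderOf_pow_dvd 2
    exact Nat.Coprime.coprime_dvd_left h1 X.hTc

/-- **Lemma R.** -/
theorem comm_of_A0 {x d : H} (hx : C.π x ∈ (P : Subgroup G)) (hu0 : ex0 P u (C.π x) = 0)
    (hv0 : ex0 P v (C.π x) = 0) (hne : C.π x ≠ 1)
    (hd : C.π d ∈ Subgroup.centralizer ({C.π x} : Set G)) : d * x = x * d := by
  obtain ⟨v₀, w₀, hdec, hw₀, hv₀, hc⟩ := exists_decomp S.hyp hx hne hd
  obtain ⟨s, hs1, hs2⟩ := exists_lift_coprime C (exp_H X) S.exp D hc
  obtain ⟨w₁, hw₁⟩ := C.surj w₀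
  have h1 : C.π ((s * w₁)⁻¹ * d) = 1 := by
    simp only [map_mul, map_inv, hs1, hw₁, hdec]
    group
  have h2 : d = s * w₁ * C.z (C.snd ((s * w₁)⁻¹ * d)) := by
    rw [← C.eq_z _ h1]
    group
  have hsc : Commute s x := by
    apply commute_of_coprime C _ hs2
    rw [hs1]
    exact (hv₀ (C.π x) rfl).symm
  have hwc : Commute w₁ x := by
    apply commute_of_form C (by rw [hw₁]; exact hw₀) hx
    rw [hu0, hv0]
    ring
  have hzc := z_comm C (C.snd ((s * w₁)⁻¹ * d)) x
  have : Commute d x := by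
    rw [h2]
    exact (hsc.mul_left hwc).mul_left hzc
  exact this

/-- The value of `T x T⁻¹ x`. -/
noncomputable def kap (C : Cov P u v H) (T y : H) : ZMod p := C.snd (T * y * T⁻¹ * y)

omit X in
theorem kap_apply (C : Cov P u v H) (T y : H) : kap C T y = C.snd (T * y * T⁻¹ * y) := rfl

theorem kap_spec {y : H} (hy : C.π y ∈ (P : Subgroup G)) : T * y * T⁻¹ * y = C.z (kap C T y) := by
  apply C.eq_z
  rw [map_mul, pi_T_mem X hy, inv_mul_cancel]

theorem kap_iota {y : H} (hy : C.π y ∈ (P : Subgroup G)) : kap C T (T * y * T⁻¹) = kap C T y := by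
  have h1 : T * (T * y * T⁻¹) * T⁻¹ * (T * y * T⁻¹) = T * y * T⁻¹ * y := by
    have h2 := T_sq_comm X hy
    have h3 := kap_spec X hy
    have h4 : T * (T * y * T⁻¹) * T⁻¹ = y := by
      calc T * (T * y * T⁻¹) * T⁻¹ = (T * T * y) * (T * T)⁻¹ := by group
        _ = y := by rw [h2]; group
    rw [h4]
    -- `y` commutes with the central element
    have h6 := (z_comm C (kap C T y) y).eq
    rw [← h3] at h6
    calc y * (T * y * T⁻¹) = y * (T * y * T⁻¹ * y) * y⁻¹ := by group
      _ = (T * y * T⁻¹ * y) * y * y⁻¹ := by rw [← h6]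
      _ = _ := by group
  rw [kap_apply, h1, kap_apply]

theorem kap_mul_z {y : H} (hy : C.π y ∈ (P : Subgroup G)) (i : ZMod p) :
    kap C T (y * C.z i) = kap C T y + 2 * i := by
  have h1 : T * (y * C.z i) * T⁻¹ * (y * C.z i) = C.z (kap C T y + 2 * i) := by
    have e : 2 * i = i + i := two_mul i
    rw [e, ← add_assoc, C.z_add, C.z_add, ← kap_spec X hy]
    have h2 := (z_comm C i y).eq
    have h3 := (z_comm C i T⁻¹).eq
    have h4 := (z_comm C i (T * y * T⁻¹ * y)).eq
    calc T * (y * C.z i) * T⁻¹ * (y * C.z i)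
        = T * y * (C.z i * T⁻¹) * (y * C.z i) := by group
      _ = T * y * (T⁻¹ * C.z i) * (y * C.z i) := by rw [h3]
      _ = T * y * T⁻¹ * (C.z i * y) * C.z i := by group
      _ = T * y * T⁻¹ * (y * C.z i) * C.z i := by rw [h2]
      _ = _ := by group
  rw [kap_apply, h1, C.snd_z]

theorem kap_z (i : ZMod p) : kap C T (C.z i) = 2 * i := by
  have h := kap_mul_z X (y := 1) (by rw [map_one]; exact P.one_mem) i
  rw [one_mul] at h
  rw [h]
  have h1 : kap C T 1 = 0 := by
    rw [kap_apply]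
    have e : T * 1 * T⁻¹ * 1 = C.z 0 := by
      rw [z_zero]
      group
    rw [e, C.snd_z]
  rw [h1, zero_add]

/-- If an element of the extension inverts `x` over `A₀`, then `kap` vanishes at `x`. -/
theorem kap_eq_zero_of_inverted {x w : H} (hx : C.π x ∈ (P : Subgroup G)) (hu0 : ex0 P u (C.π x) = 0)
    (hv0 : ex0 P v (C.π x) = 0) (hne : C.π x ≠ 1) (hw : w * x * w⁻¹ = x⁻¹) : kap C T x = 0 := by
  set d := T⁻¹ * w with hd
  have h1 : C.π d ∈ Subgroup.centralizer ({C.π x} : Set G) := by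
    rw [Subgroup.mem_centralizer_iff]
    rintro y rfl
    have h2 : C.π w * C.π x * (C.π w)⁻¹ = (C.π x)⁻¹ := by
      have := congrArg C.π hw
      simpa using this
    have h3 := S.inv _ hx
    have h4 : t⁻¹ * (C.π x)⁻¹ * t = C.π x := by
      rw [← h3]
      group
    have h5 : C.π d = t⁻¹ * C.π w := by
      rw [hd, map_mul, map_inv, X.hT]
    rw [h5]
    calc C.π x * (t⁻¹ * C.π w) = (t⁻¹ * (C.π x)⁻¹ * t) * (t⁻¹ * C.π w) := by rw [h4]
      _ = t⁻¹ * (C.π x)⁻¹ * C.π w := by group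
      _ = t⁻¹ * (C.π w * C.π x * (C.π w)⁻¹) * C.π w := by rw [h2]
      _ = _ := by group
  have h2 := comm_of_A0 X hx hu0 hv0 hne h1
  have h3 : T * x * T⁻¹ = x⁻¹ := by
    rw [← hw]
    have h4 : w = T * d := by
      rw [hd]
      group
    rw [h4]
    calc T * x * T⁻¹ = T * (d * x * d⁻¹) * T⁻¹ := by
          rw [h2]
          group
      _ = _ := by group
  rw [kap_apply, h3, inv_mul_cancel]
  have e : (1 : H) = C.z 0 := (z_zero C).symm
  rw [e, C.snd_z]

/-- Additivity of `kap` on the isotropic part. -/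
theorem kap_mul {x y : H} (hx : C.π x ∈ (P : Subgroup G)) (hy : C.π y ∈ (P : Subgroup G))
    (hxv : ex0 P v (C.π x) = 0) (hyv : ex0 P v (C.π y) = 0) :
    kap C T (x * y) = kap C T x + kap C T y := by
  have hc : x * (T * y * T⁻¹) = (T * y * T⁻¹) * x := by
    apply commute_of_form C hx (pi_T_mem' X hy)
    rw [pi_T_mem X hy, ex0_inv X.hv hy, hyv, hxv]
    ring
  have h1 : T * (x * y) * T⁻¹ * (x * y) = C.z (kap C T x + kap C T y) := by
    rw [C.z_add, ← kap_spec X hx, ← kap_spec X hy]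
    calc T * (x * y) * T⁻¹ * (x * y) = (T * x * T⁻¹) * ((T * y * T⁻¹) * x) * y := by group
      _ = (T * x * T⁻¹) * (x * (T * y * T⁻¹)) * y := by rw [hc]
      _ = _ := by group
  rw [kap_apply, h1, C.snd_z]

end Ctx

end Cfsg.Agent.Lib.InvSylow.CoverP
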