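import Cfsg.Agent.Lib.InvSylow.Tau
import Cfsg.Agent.Lib.Blocks.General
import Cfsg.Agent.Lib.BlockH.Basic

/-!
# The common constituent `ε'` of the characters `Φ_λ + 1`, and its values on singular elements
-/

set_option autoImplicit false
set_option linter.unusedSectionVars false

namespace Cfsg.Agent.Lib.InvSylow.Values

open Cfsg
open Cfsg.Agent.Lib.Char.Basic Cfsg.Agent.Lib.Char.Ortho Cfsg.Agent.Lib.Char.Complete
open Cfsg.Agent.Lib.Char.GenLattice Cfsg.Agent.Lib.Char.Linear
open Cfsg.Agent.Lib.InvSylow.Pow Cfsg.Agent.Lib.InvSylow.Ext Cfsg.Agent.Lib.InvSylow.Fusion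
open Cfsg.Agent.Lib.InvSylow.Count Cfsg.Agent.Lib.InvSylow.Tau
open scoped ComplexConjugate _root_.Classical

universe u

variable {G : Type u} [Group G] [Fintype G] {p N k k' a m : ℕ} [hp : Fact p.Prime] {P : Sylow p G}
variable [Fintype (P : Subgroup G)] {D : PowData p N k k' a m} {t : G}

theorem reg_iff (S : Setup P D t) (g : G) : ¬ p ∣ orderOf g ↔ g ^ k = 1 := by
  constructor
  · intro h
    exact D.pow_k_of_coprime (S.exp g) ((Nat.Prime.coprime_iff_not_dvd hp.out).mpr h).symm
  · intro h hd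
    have h1 := D.mul_pow_eq (S.exp g)
    rw [h, one_mul] at h1
    have h2 := D.coprime_order_k' (S.exp g)
    rw [h1] at h2
    have := Nat.eq_one_of_dvd_coprimes h2 hd (dvd_refl p)
    exact hp.out.one_lt.ne' this

/-- `ε`-free computation: the sum of `c` over the singular elements. -/
theorem sum_sing_conj (S : Setup P D t) {c : G → ℂ}
    (hc : ∀ χ : ↥(P : Subgroup G) → ℂ, IsIrrCharacter (P : Subgroup G) χ → χ ≠ one _ →
      classInner (Phi P k χ) c = 1) :
    -2 * (Nat.card (P : Subgroup G) : ℂ) * ∑ g : G, (if g ^ k = 1 then 0 else conj (c g)) =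
      (Nat.card G : ℂ) * ((Nat.card (P : Subgroup G) : ℂ) - 1) := by
  haveI := finite_irrCharacter (G := (P : Subgroup G))
  letI : Fintype (IrrCharacter (P : Subgroup G)) := Fintype.ofFinite _
  have hcm := comm_of_setup S
  have hG : (Nat.card G : ℂ) ≠ 0 := Nat.cast_ne_zero.mpr Nat.card_pos.ne'
  -- the total function
  have h1 : classInner (∑ χ : IrrCharacter (P : Subgroup G), Phi P k (χ : ↥(P : Subgroup G) → ℂ)) c =
      (Nat.card (P : Subgroup G) : ℂ) - 1 := by
    rw [classInner_sum_left, ← card_ne_one hcm]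
    refine Finset.sum_congr rfl fun χ _ => ?_
    by_cases h : (χ : ↥(P : Subgroup G) → ℂ) = one _
    · rw [if_pos h, h]
      have h2 : Phi P k (one (P : Subgroup G)) = 0 := by
        funext g
        simp [Phi_apply, fl]
        norm_num
      rw [h2, classInner_zero_left]
    · rw [if_neg h]
      exact hc _ χ.2 h
  have h2 : (∑ χ : IrrCharacter (P : Subgroup G), Phi P k (χ : ↥(P : Subgroup G) → ℂ)) =
      fun g => if g ^ k = 1 then 0 else -2 * (Nat.card (P : Subgroup G) : ℂ) := by
    funext g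
    rw [Finset.sum_apply]
    simp only [Phi_apply]
    rw [sum_fl hcm]
    by_cases hg : g ^ k = 1
    · rw [if_pos hg, if_pos ((Ib_eq_one_iff S g).mpr hg)]
    · rw [if_neg hg, if_neg (fun h => hg ((Ib_eq_one_iff S g).mp h))]
  rw [h2] at h1
  unfold classInner at h1
  rw [← h1, ← mul_assoc, mul_inv_cancel₀ hG, one_mul, Finset.mul_sum]
  refine Finset.sum_congr rfl fun g _ => ?_
  change _ = (if g ^ k = 1 then 0 else -2 * (Nat.card (P : Subgroup G) : ℂ)) * conj (c g)
  by_cases hg : g ^ k = 1
  · rw [if_pos hg, if_pos hg, mul_zero, zero_mul]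
  · rw [if_neg hg, if_neg hg]

/-- If `c` is constant on the classes `S_x`, then its value on `P#` is `-1`. -/
theorem value_eq (S : Setup P D t) {c : G → ℂ}
    (hc : ∀ χ : ↥(P : Subgroup G) → ℂ, IsIrrCharacter (P : Subgroup G) χ → χ ≠ one _ →
      classInner (Phi P k χ) c = 1)
    (hcl : IsClassFunction G c)
    (hconst : ∀ g : G, g ^ k ≠ 1 → c g = c (Ib P k g)) (x₀ : (P : Subgroup G)) (hx₀ : x₀ ≠ 1) :
    c x₀ = -1 := by
  haveI := finite_irrCharacter (G := (P : Subgroup G))
  letI : Fintype (IrrCharacter (P : Subgroup G)) := Fintype.ofFinite _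
  have hcm := comm_of_setup S
  have hG : (Nat.card G : ℂ) ≠ 0 := Nat.cast_ne_zero.mpr Nat.card_pos.ne'
  have hPc : (Nat.card (P : Subgroup G) : ℂ) ≠ 0 := Nat.cast_ne_zero.mpr Nat.card_pos.ne'
  have h1 : classInner (∑ χ : IrrCharacter (P : Subgroup G),
      ((χ : ↥(P : Subgroup G) → ℂ) x₀⁻¹) • Phi P k (χ : ↥(P : Subgroup G) → ℂ)) c = -1 := by
    rw [classInner_sum_left, ← sum_ne_one_irr hcm x₀⁻¹ (by simpa using hx₀)]
    refine Finset.sum_congr rfl fun χ _ => ?_
    rw [classInner_smul_left]
    by_cases h : (χ : ↥(P : Subgroup G) → ℂ) = one _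
    · rw [if_pos h, h]
      have h2 : Phi P k (one (P : Subgroup G)) = 0 := by
        funext g
        simp [Phi_apply, fl]
        norm_num
      rw [h2, classInner_zero_left, mul_zero]
    · rw [if_neg h, hc _ χ.2 h, mul_one]
  have hne : (x₀ : G) ≠ 1 := fun h => hx₀ (Subtype.ext h)
  have hne' : x₀ ≠ x₀⁻¹ := by
    intro h
    have := congrArg Subtype.val h
    exact ne_inv S.hyp x₀.2 hne this
  have h2 : (∑ χ : IrrCharacter (P : Subgroup G),
      ((χ : ↥(P : Subgroup G) → ℂ) x₀⁻¹) • Phi P k (χ : ↥(P : Subgroup G) → ℂ)) =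
      fun g => if IsConj (g ^ k) (x₀ : G) then (Nat.card (P : Subgroup G) : ℂ) else 0 := by
    funext g
    rw [Finset.sum_apply]
    simp only [Pi.smul_apply, smul_eq_mul, Phi_apply]
    rw [sum_fl_weighted hcm x₀ _ hx₀]
    have e0 := isConj_iff_Ib S g x₀
    have e1 : Ib P k g = x₀⁻¹ ↔ x₀ = (Ib P k g)⁻¹ := by
      constructor
      · intro h
        rw [h, inv_inv]
      · intro h
        rw [h, inv_inv]
    by_cases h3 : x₀ = Ib P k g
    · have h4 : Ib P k g ≠ x₀⁻¹ := by
        rw [← h3]
        exact hne'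
      rw [if_pos h3.symm, if_neg h4, if_pos (e0.mpr (Or.inl h3)), add_zero]
    · rw [if_neg (Ne.symm h3)]
      by_cases h4 : x₀ = (Ib P k g)⁻¹
      · rw [if_pos (e1.mpr h4), if_pos (e0.mpr (Or.inr h4)), zero_add]
      · rw [if_neg (fun h => h4 (e1.mp h)), if_neg (fun h => by
          rcases e0.mp h with h5 | h5
          · exact h3 h5
          · exact h4 h5), add_zero]
  rw [h2] at h1
  have h3 : ∀ g : G, (if IsConj (g ^ k) (x₀ : G) then (Nat.card (P : Subgroup G) : ℂ) else 0) *
      conj (c g) = (if IsConj (g ^ k) (x₀ : G) then 1 else 0) *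
        ((Nat.card (P : Subgroup G) : ℂ) * conj (c x₀)) := by
    intro g
    split_ifs with h
    · have h4 : g ^ k ≠ 1 := by
        intro h5
        rw [h5] at h
        exact hne (isConj_one_right.mp h)
      rw [hconst g h4]
      rcases (isConj_iff_Ib S g x₀).mp h with h5 | h5
      · rw [← h5, one_mul]
      · have h6 : c (Ib P k g) = c x₀ := by
          have h7 : (x₀ : G) = t * (Ib P k g : G) * t⁻¹ := by
            rw [S.inv _ (Ib P k g).2, h5]
            rfl
          rw [h7, hcl]
        rw [h6, one_mul]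
    · simp
  unfold classInner at h1
  simp_rw [h3] at h1
  rw [← Finset.sum_mul, Finset.sum_boole] at h1
  have h4 := card_conj_fib S x₀.2 hne
  have h5 : ((Finset.univ.filter (fun g : G => IsConj (g ^ k) (x₀ : G))).card : ℂ) *
      (Nat.card (P : Subgroup G) : ℂ) = Nat.card G := by
    rw [← h4, Nat.cast_mul, Nat.card_eq_fintype_card (α := {g : G // IsConj (g ^ k) (x₀ : G)}),
      Fintype.card_subtype]
  have h6 : conj (c x₀) = -1 := by
    calc conj (c x₀) = (Nat.card G : ℂ)⁻¹ * (((Finset.univ.filter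
          (fun g : G => IsConj (g ^ k) (x₀ : G))).card : ℂ) * (Nat.card (P : Subgroup G) : ℂ)) *
          conj (c x₀) := by rw [h5, inv_mul_cancel₀ hG, one_mul]
      _ = -1 := by
        rw [← h1]
        ring
  have h7 := congrArg (starRingEnd ℂ) h6
  rw [Complex.conj_conj] at h7
  rw [h7]
  simp

/-- The block argument: an irreducible character which does not vanish on the singular elements in
total is constant on sections. -/
theorem const_of_irr (S : Setup P D t) {χ : G → ℂ} (hχ : IsIrrCharacter G χ)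
    (h0 : ∑ g : G, χ g = 0) (hs : ∑ g : G, (if g ^ k = 1 then 0 else χ g) ≠ 0)
    (g : G) (hg : g ^ k ≠ 1) : χ g = χ (Ib P k g) := by
  haveI := finite_irrCharacter (G := G)
  letI : Fintype (IrrCharacter G) := Fintype.ofFinite _
  obtain ⟨M, hM⟩ := Cfsg.Agent.Lib.BlockH.Basic.exists_isPModular (hp.out)
  haveI : M.IsPrime := hM.2.1.isPrime
  have hcl := isClassFunction_of_isIrrCharacter hχ
  -- `χ` lies in the principal block
  have hmem : (⟨χ, hχ⟩ : IrrCharacter G) ∈ principalBlock M G := by
    by_contra hn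
    have hns : ¬ SameBlock M χ (fun _ : G => (1 : ℂ)) := fun h =>
      hn (Cfsg.Agent.Lib.Blocks.Central.sameBlock_symm h)
    have h1 := Cfsg.Agent.Lib.Blocks.Weak.sum_regular_eq_zero (G := G) hM
      (χ := ⟨χ, hχ⟩) (ψ := Cfsg.Agent.Lib.Blocks.Third.oneI G) hns
    apply hs
    have h2 : ∑ g : G, (if g ^ k = 1 then 0 else χ g) = ∑ g : G, χ g -
        ∑ x : G, (if ¬ p ∣ orderOf x then χ x * conj (1 : ℂ) else 0) := by
      rw [← Finset.sum_sub_distrib]
      refine Finset.sum_congr rfl fun g _ => ?_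
      by_cases h3 : g ^ k = 1
      · rw [if_pos h3, if_pos ((reg_iff S g).mpr h3)]
        simp
      · rw [if_neg h3, if_neg (fun h => h3 ((reg_iff S g).mp h))]
        simp
    rw [h2, h0, zero_sub, neg_eq_zero]
    exact h1
  obtain ⟨c, hc⟩ := Ib_spec S g
  set x := Ib P k g with hx
  have hx1 : (x : G) ≠ 1 := by
    intro h
    apply hg
    have h3 : g ^ k = c⁻¹ * (c * g ^ k * c⁻¹) * c := by group
    rw [h3, hc, h]
    simp
  set g' := c * g * c⁻¹ with hg'
  have hg'k : g' ^ k = x := by
    rw [hg', conj_pow, hc]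
  set v := g' ^ k' with hv
  have hdec : g' = (x : G) * v := by
    have := D.mul_pow_eq (S.exp g')
    rw [hg'k] at this
    exact this.symm
  have hvC : v ∈ Subgroup.centralizer ({(x : G)} : Set G) := by
    rw [Subgroup.mem_centralizer_iff]
    rintro z rfl
    rw [hv, ← hg'k]
    exact ((Commute.refl g').pow_pow k k').eq
  have hvc : Nat.Coprime (orderOf (⟨v, hvC⟩ : Subgroup.centralizer ({(x : G)} : Set G))) p := by
    rw [Subgroup.orderOf_mk]
    exact D.coprime_order_k' (S.exp g')
  have hxo : ∃ j, orderOf (x : G) = p ^ j := by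
    have h1 := D.exists_order_k (S.exp g')
    rwa [hg'k] at h1
  have hz := Cfsg.Agent.Lib.Blocks.General.zstar (G := G) (M := M) (p := p) hM hxo
    (v := ⟨v, hvC⟩) (mem_pPrimeCore S.hyp x.2 hx1 _ hvc) hmem
  have e1 : χ g = χ g' := by
    rw [hg', hcl]
  rw [e1, hdec]
  exact hz

/-- **The exceptional constituent**. -/
theorem exists_eps (S : Setup P D t) {u v : ↥(P : Subgroup G) → ZMod p}
    (hu : ∀ x y, u (x * y) = u x + u y) (hv : ∀ x y, v (x * y) = v x + v y)
    (hs : ∀ s t : ZMod p, ∃ x, u x = s ∧ v x = t) :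
    ∃ ε : G → ℂ, (IsIrrCharacter G ε ∨ IsIrrCharacter G (-ε)) ∧
      classInner ε (one G) = 0 ∧ (∀ g : G, g ^ k ≠ 1 → ε g = 1) ∧
      ∀ χ : ↥(P : Subgroup G) → ℂ, IsIrrCharacter (P : Subgroup G) χ → χ ≠ one _ →
        (IsIrrCharacter G (Phi P k χ + one G + ε) ∨ IsIrrCharacter G (-(Phi P k χ + one G + ε))) := by
  obtain ⟨c, hc1, hc2, hc3⟩ := exists_star S hu hv hs
  have hG : (Nat.card G : ℂ) ≠ 0 := Nat.cast_ne_zero.mpr Nat.card_pos.ne'
  have hPc : (Nat.card (P : Subgroup G) : ℂ) ≠ 0 := Nat.cast_ne_zero.mpr Nat.card_pos.ne'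
  -- inner products with `Φ`
  have hone : classInner (one G) c = 0 := by
    rw [← classInner_conj, hc2]
    simp
  have hPhi : ∀ χ : ↥(P : Subgroup G) → ℂ, IsIrrCharacter (P : Subgroup G) χ → χ ≠ one _ →
      classInner (Phi P k χ) c = 1 := by
    intro χ hχ hχ1
    have h := (hc3 χ hχ hχ1).2.1
    rw [Sf, classInner_add_left, hone, add_zero] at h
    exact h
  -- sum of `c` over all elements is zero
  have hsum0 : ∑ g : G, c g = 0 := by
    unfold classInner at hc2
    simp only [one, map_one, mul_one] at hc2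
    exact (mul_eq_zero.mp hc2).resolve_left (inv_ne_zero hG)
  -- the sum over singular elements is nonzero
  have hP1 : (Nat.card (P : Subgroup G) : ℂ) ≠ 1 := by
    obtain ⟨x, hx1, -⟩ := hs 1 0
    intro h
    have h1 : Nat.card (P : Subgroup G) = 1 := by exact_mod_cast h
    have h2 : Subsingleton (P : Subgroup G) := (Nat.card_eq_one_iff_unique.mp h1).1
    rw [Subsingleton.elim x 1, add_one_eq hu] at hx1
    exact zero_ne_one hx1
  have hsing : ∑ g : G, (if g ^ k = 1 then 0 else c g) ≠ 0 := by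
    intro h
    have h1 := sum_sing_conj S hPhi
    have h2 : ∑ g : G, (if g ^ k = 1 then 0 else conj (c g)) = 0 := by
      have h3 := congrArg (starRingEnd ℂ) h
      rw [map_zero, map_sum] at h3
      refine Eq.trans (Finset.sum_congr rfl fun g _ => ?_) h3
      split_ifs <;> simp
    rw [h2, mul_zero] at h1
    have h3 := mul_eq_zero.mp h1.symm
    rcases h3 with h3 | h3
    · exact hG h3
    · exact hP1 (sub_eq_zero.mp h3)
  -- constancy
  have hconst : ∀ g : G, g ^ k ≠ 1 → c g = c (Ib P k g) := by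
    intro g hg
    rcases hc1 with h | h
    · exact const_of_irr S h hsum0 hsing g hg
    · have e : ∀ x, (-c) x = - c x := fun _ => rfl
      have h1 := const_of_irr S h (by simp [e, Finset.sum_neg_distrib, hsum0])
        (by
          simp only [e]
          intro h2
          apply hsing
          have h3 : ∀ g : G, (if g ^ k = 1 then 0 else - c g) = - (if g ^ k = 1 then 0 else c g) := by
            intro g
            split_ifs <;> simp
          simp_rw [h3] at h2
          rw [Finset.sum_neg_distrib] at h2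
          exact neg_eq_zero.mp h2) g hg
      simpa [e] using h1
  have hcl : IsClassFunction G c := by
    rcases hc1 with h | h
    · exact isClassFunction_of_isIrrCharacter h
    · have := isClassFunction_of_isIrrCharacter h
      intro g x
      have h2 := this g x
      simpa using h2
  have hval := value_eq S hPhi hcl hconst
  refine ⟨-c, ?_, ?_, ?_, ?_⟩
  · rcases hc1 with h | h
    · right
      rwa [neg_neg]
    · left
      exact h
  · rw [classInner_neg_left, hc2, neg_zero]
  · intro g hg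
    have h1 : Ib P k g ≠ 1 := fun h => hg ((Ib_eq_one_iff S g).mp h)
    change - c g = 1
    rw [hconst g hg, hval _ h1, neg_neg]
  · intro χ hχ hχ1
    have h := (hc3 χ hχ hχ1).1
    have e : Phi P k χ + one G + -c = Sf P k χ - c := by
      rw [Sf, sub_eq_add_neg]
    rw [e]
    exact h

end Cfsg.Agent.Lib.InvSylow.Values
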