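import Cfsg.Agent.Lib.InvSylow.Xi
import Cfsg.Agent.Lib.InvSylow.Values
import Cfsg.Agent.Lib.BlockT.CharSum

/-!
# The double-coset identity forcing the exceptional character to be linear
-/

set_option autoImplicit false
set_option linter.unusedSectionVars false

namespace Cfsg.Agent.Lib.InvSylow.Final

open Cfsg
open Cfsg.Agent.Lib.Char.Basic Cfsg.Agent.Lib.Char.Ortho Cfsg.Agent.Lib.Char.Complete
open Cfsg.Agent.Lib.Char.GenLattice
open Cfsg.Agent.Lib.InvSylow.Pow Cfsg.Agent.Lib.InvSylow.Ext Cfsg.Agent.Lib.InvSylow.Fusion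
open Cfsg.Agent.Lib.InvSylow.Count Cfsg.Agent.Lib.InvSylow.Tau
open Cfsg.Agent.Lib.InvSylow.Cover Cfsg.Agent.Lib.InvSylow.CoverP
open Cfsg.Agent.Lib.InvSylow.ChiNu Cfsg.Agent.Lib.InvSylow.LemmaK
open Cfsg.Agent.Lib.InvSylow.Xi
open scoped ComplexConjugate _root_.Classical

universe u

/-- The final computation. -/
theorem alg {A Q q r s e a T0 T1 J J0 c : ℂ} (hA : A ≠ 0) (hQ : Q ≠ 0) (hq : q ≠ 0)
    (he : e ≠ 0) (he1 : 1 + e ≠ 0) (hr : r = (q - 1) / 2) (hs : s = (q + 1) / 2)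
    (hq1 : q ≠ 1) (hqm : q ≠ -1)
    (E1 : T0 + J = A) (E2 : (T1 + J) * e = A * a ^ 2)
    (E3 : (T0 + T1 + c) * (1 + e) = A * (1 + a) ^ 2)
    (E4 : (Q - 1) * c = -2 * J) (E5 : (q ^ 2 - 1) * c + 2 * J = 2 * q ^ 2 * J0)
    (E6 : (s * T0 + r * T1 + q * J0) * (s + r * e) = A * (s + r * a) ^ 2) :
    e = 1 ∨ a = e := by
  have hT0 : T0 = A - J := by linear_combination E1
  have hT1 : T1 = A * a ^ 2 / e - J := by
    field_simp
    linear_combination E2
  set Δ : ℂ := (e - a) ^ 2 / (e * (1 + e)) with hΔ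
  have hc : c = - A * Δ + 2 * J := by
    have h : c = A * (1 + a) ^ 2 / (1 + e) - T0 - T1 := by
      field_simp
      linear_combination E3
    rw [h, hT0, hT1, hΔ]
    field_simp
    ring
  have hJ : J = (Q - 1) * A * Δ / (2 * Q) := by
    field_simp
    rw [hc] at E4
    linear_combination E4
  have hJ0 : q * J0 = A * Δ * (Q - q ^ 2) / (2 * q * Q) := by
    field_simp
    rw [hc, hJ] at E5
    field_simp at E5
    linear_combination (-1 : ℂ) * E5
  have h1 : s * T0 + r * T1 + q * J0 = A * (s + r * a ^ 2 / e) - A * Δ * (q ^ 2 - 1) / (2 * q) := by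
    rw [hJ0, hT0, hT1, hJ, hr, hs]
    field_simp
    ring
  rw [h1] at E6
  have hkey : A * (r * s) * (e - a) ^ 2 * (e - 1) / (e * q * (1 + e)) = 0 := by
    have h2 : A * (r * s) * (e - a) ^ 2 * (e - 1) / (e * q * (1 + e)) =
        (A * (s + r * a ^ 2 / e) - A * Δ * (q ^ 2 - 1) / (2 * q)) * (s + r * e) -
          A * (s + r * a) ^ 2 := by
      rw [hΔ, hr, hs]
      field_simp
      ring
    rw [h2, E6, sub_self]
  have hrne : r ≠ 0 := by
    rw [hr]
    intro h
    apply hq1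
    field_simp at h
    linear_combination h
  have hsne : s ≠ 0 := by
    rw [hs]
    intro h
    apply hqm
    field_simp at h
    linear_combination h
  have h3 : (e - a) ^ 2 * (e - 1) = 0 := by
    have h4 := (div_eq_zero_iff.mp hkey).resolve_right (by
      exact mul_ne_zero (mul_ne_zero he hq) he1)
    have h5 : A * (r * s) ≠ 0 := mul_ne_zero hA (mul_ne_zero hrne hsne)
    have h6 : A * (r * s) * ((e - a) ^ 2 * (e - 1)) = 0 := by
      rw [← h4]
      ring
    exact (mul_eq_zero.mp h6).resolve_left h5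
  rcases mul_eq_zero.mp h3 with h4 | h4
  · right
    have := pow_eq_zero_iff (two_ne_zero) |>.mp h4
    linear_combination -this
  · left
    linear_combination h4

section Generic

variable {K : Type u} [Group K] [Fintype K]

/-- The double conjugation sum. -/
noncomputable def M (j : K) (F : K → ℂ) : ℂ :=
  ∑ s : K, ∑ w : K, F (s * j * s⁻¹ * (w * j * w⁻¹))

theorem M_congr (j : K) {F F' : K → ℂ} (h : ∀ g, F g = F' g) : M j F = M j F' := by
  unfold M
  simp_rw [h]

theorem M_add (j : K) (F F' : K → ℂ) : M j (fun g => F g + F' g) = M j F + M j F' := by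
  unfold M
  simp_rw [Finset.sum_add_distrib]

theorem M_mul (j : K) (c : ℂ) (F : K → ℂ) : M j (fun g => c * F g) = c * M j F := by
  unfold M
  simp_rw [← Finset.mul_sum]

theorem M_sum {ι : Type*} [Fintype ι] (j : K) (F : ι → K → ℂ) :
    M j (fun g => ∑ i, F i g) = ∑ i, M j (F i) := by
  unfold M
  rw [Finset.sum_comm (s := Finset.univ (α := ι))]
  refine Finset.sum_congr rfl fun s _ => ?_
  rw [Finset.sum_comm]

theorem M_one (j : K) : M j (fun _ => 1) = (Fintype.card K : ℂ) ^ 2 := by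
  unfold M
  simp [sq]

/-- The identity for a signed irreducible character. -/
theorem M_irr {χ : K → ℂ} (hχ : IsIrrCharacter K χ) (a : K) :
    M a χ * χ 1 = (Fintype.card K : ℂ) ^ 2 * χ a ^ 2 := by
  have hcl := isClassFunction_of_isIrrCharacter hχ
  unfold M
  rw [Finset.sum_mul]
  have h : ∀ s : K, (∑ w : K, χ (s * a * s⁻¹ * (w * a * w⁻¹))) * χ 1 =
      (Fintype.card K : ℂ) * χ a * χ a := by
    intro s
    have h1 := Cfsg.Agent.Lib.BlockT.CharSum.sum_conj hχ (s * a * s⁻¹) a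
    rw [h1, hcl]
  simp_rw [h]
  simp
  ring

theorem M_signed {χ : K → ℂ} (hχ : IsIrrCharacter K χ ∨ IsIrrCharacter K (-χ)) (a : K) :
    M a χ * χ 1 = (Fintype.card K : ℂ) ^ 2 * χ a ^ 2 := by
  rcases hχ with h | h
  · exact M_irr h a
  · have h1 := M_irr h a
    have h2 : M a (-χ) = - M a χ := by
      unfold M
      simp [Finset.sum_neg_distrib]
    rw [h2] at h1
    simp only [Pi.neg_apply] at h1
    linear_combination h1

theorem signed_one_ne {χ : K → ℂ} (hχ : IsIrrCharacter K χ ∨ IsIrrCharacter K (-χ)) : χ 1 ≠ 0 := by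
  rcases hχ with h | h
  · exact irr_one_ne_zero h
  · have := irr_one_ne_zero h
    simpa using this

end Generic

variable {G H : Type u} [Group G] [Group H] {p N k k' a m : ℕ} {P : Sylow p G}
variable [Fintype G] [Fintype H] [Fintype (P : Subgroup G)] [hp : Fact p.Prime]
variable {D : PowData p N k k' a m} {t : G} {u v : ↥(P : Subgroup G) → ZMod p}
variable {S : Setup P D t} {C : Cov P u v H} {T : H}

/-- The values of `θ_λ`. -/
theorem theta_val (S : Setup P D t) {ε : G → ℂ} (hε1 : ∀ g : G, g ^ k ≠ 1 → ε g = 1)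
    {χ : ↥(P : Subgroup G) → ℂ} (hχ : IsIrrCharacter (P : Subgroup G) χ) (g : G) :
    (Phi P k χ + one G + ε) g =
      if g ^ k = 1 then 1 + ε g else χ (Ib P k g) + bar χ (Ib P k g) := by
  have hc := comm_of_setup S
  simp only [Pi.add_apply, Phi_apply, one]
  by_cases hg : g ^ k = 1
  · rw [if_pos hg, (Ib_eq_one_iff S g).mpr hg, fl_at_one hc hχ, zero_add]
  · rw [if_neg hg, hε1 g hg, fl, bar]
    ring

/-- The sum of `λ + λ̄` over the singular elements of a double-conjugation family. -/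
noncomputable def LL (P : Sylow p G) (k : ℕ) (j : G) (χ : ↥(P : Subgroup G) → ℂ) : ℂ :=
  M j (fun g => if g ^ k = 1 then 0 else χ (Ib P k g) + bar χ (Ib P k g))

/-- Regular count. -/
noncomputable def T0 (k : ℕ) (j : G) : ℂ := M j (fun g => if g ^ k = 1 then 1 else 0)

/-- Regular `ε`-sum. -/
noncomputable def T1 (k : ℕ) (j : G) (ε : G → ℂ) : ℂ := M j (fun g => if g ^ k = 1 then ε g else 0)

/-- Singular count. -/
noncomputable def JJ (k : ℕ) (j : G) : ℂ := M j (fun g => if g ^ k = 1 then 0 else 1)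

/-- Singular count in `A₀`. -/
noncomputable def J0 (P : Sylow p G) (k : ℕ) (u v : ↥(P : Subgroup G) → ZMod p) (j : G) : ℂ :=
  M j (fun g => if g ^ k = 1 then 0 else if A0 P u v (Ib P k g) then 1 else 0)

theorem E1 (j : G) : T0 k j + JJ k j = (Fintype.card G : ℂ) ^ 2 := by
  rw [T0, JJ, ← M_add, ← M_one]
  apply M_congr
  intro g
  split_ifs <;> simp

theorem E2 {ε : G → ℂ} (hε : IsIrrCharacter G ε ∨ IsIrrCharacter G (-ε))
    (hε1 : ∀ g : G, g ^ k ≠ 1 → ε g = 1) (j : G) :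
    (T1 k j ε + JJ k j) * ε 1 = (Fintype.card G : ℂ) ^ 2 * ε j ^ 2 := by
  rw [← M_signed hε j, T1, JJ, ← M_add]
  congr 1
  apply M_congr
  intro g
  by_cases hg : g ^ k = 1
  · simp [hg]
  · simp [hg, hε1 g hg]

theorem E3 (S : Setup P D t) {ε : G → ℂ} (hε1 : ∀ g : G, g ^ k ≠ 1 → ε g = 1)
    {χ : ↥(P : Subgroup G) → ℂ} (hχ : IsIrrCharacter (P : Subgroup G) χ)
    (hθ : IsIrrCharacter G (Phi P k χ + one G + ε) ∨ IsIrrCharacter G (-(Phi P k χ + one G + ε)))
    {j : G} (hj : j ^ k = 1) :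
    (T0 k j + T1 k j ε + LL P k j χ) * (1 + ε 1) = (Fintype.card G : ℂ) ^ 2 * (1 + ε j) ^ 2 := by
  have h := M_signed hθ j
  rw [theta_val S hε1 hχ, theta_val S hε1 hχ, if_pos hj, if_pos (one_pow k)] at h
  rw [← h, T0, T1, LL, ← M_add, ← M_add]
  congr 1
  apply M_congr
  intro g
  rw [theta_val S hε1 hχ]
  by_cases hg : g ^ k = 1
  · simp [hg]
  · simp [hg]

theorem E4 (S : Setup P D t) (j : G) [Fintype (IrrCharacter (P : Subgroup G))] :
    ∑ χ : IrrCharacter (P : Subgroup G),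
      (if (χ : ↥(P : Subgroup G) → ℂ) = one _ then 0 else LL P k j (χ : ↥(P : Subgroup G) → ℂ)) =
      -2 * JJ k j := by
  have hc := comm_of_setup S
  have h1 : ∀ χ : IrrCharacter (P : Subgroup G),
      (if (χ : ↥(P : Subgroup G) → ℂ) = one _ then 0 else LL P k j (χ : ↥(P : Subgroup G) → ℂ)) =
      M j (fun g => if (χ : ↥(P : Subgroup G) → ℂ) = one _ then 0 else
        if g ^ k = 1 then 0 else (χ : ↥(P : Subgroup G) → ℂ) (Ib P k g) +
          bar (χ : ↥(P : Subgroup G) → ℂ) (Ib P k g)) := by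
    intro χ
    by_cases h : (χ : ↥(P : Subgroup G) → ℂ) = one _
    · simp [h, M]
    · simp [h, LL]
  simp_rw [h1]
  rw [← M_sum, JJ, ← M_mul]
  apply M_congr
  intro g
  by_cases hg : g ^ k = 1
  · simp [hg]
  · have hne : Ib P k g ≠ 1 := fun h => hg ((Ib_eq_one_iff S g).mp h)
    have h2 : ∀ χ : IrrCharacter (P : Subgroup G),
        (if (χ : ↥(P : Subgroup G) → ℂ) = one _ then (0 : ℂ) else
        if g ^ k = 1 then 0 else (χ : ↥(P : Subgroup G) → ℂ) (Ib P k g) +
          bar (χ : ↥(P : Subgroup G) → ℂ) (Ib P k g)) =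
        (if (χ : ↥(P : Subgroup G) → ℂ) = one _ then 0 else (χ : ↥(P : Subgroup G) → ℂ) (Ib P k g)) +
        (if (χ : ↥(P : Subgroup G) → ℂ) = one _ then 0 else (χ : ↥(P : Subgroup G) → ℂ) (Ib P k g)⁻¹) := by
      intro χ
      by_cases h : (χ : ↥(P : Subgroup G) → ℂ) = one _
      · simp [h]
      · simp [h, hg, bar]
    simp_rw [h2]
    rw [Finset.sum_add_distrib, sum_ne_one_irr hc _ hne, sum_ne_one_irr hc _ (by simpa using hne)]
    simp [hg]
    norm_num

theorem E5 (X : Ctx S C T) (j : G) :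
    ∑ i : ZMod p, ∑ l : ZMod p, LL P k j (lamF u v i l) = 2 * (p : ℂ) ^ 2 * J0 P k u v j := by
  have h1 : ∀ i l : ZMod p, LL P k j (lamF u v i l) = M j (fun g => if g ^ k = 1 then 0 else
      lamF u v i l (Ib P k g) + lamF u v i l (Ib P k g)⁻¹) := fun i l => rfl
  simp_rw [h1]
  have h2 : ∀ i : ZMod p, ∑ l : ZMod p, M j (fun g => if g ^ k = 1 then 0 else
      lamF u v i l (Ib P k g) + lamF u v i l (Ib P k g)⁻¹) =
      M j (fun g => ∑ l : ZMod p, if g ^ k = 1 then 0 else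
      lamF u v i l (Ib P k g) + lamF u v i l (Ib P k g)⁻¹) := fun i => (M_sum j _).symm
  simp_rw [h2]
  rw [← M_sum, J0, ← M_mul]
  apply M_congr
  intro g
  by_cases hg : g ^ k = 1
  · simp [hg]
  · simp only [hg, if_false]
    simp_rw [Finset.sum_add_distrib]
    rw [sum_lam X, sum_lam X]
    have h3 : A0 P u v ((Ib P k g)⁻¹ : (P : Subgroup G)) ↔ A0 P u v (Ib P k g : G) := by
      simp only [A0, InvMemClass.coe_inv, ex0_inv X.hu (Ib P k g).2, ex0_inv X.hv (Ib P k g).2,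
        neg_eq_zero]
    by_cases h4 : A0 P u v (Ib P k g : G)
    · rw [if_pos h4, if_pos (h3.mpr h4)]
      ring
    · rw [if_neg h4, if_neg (fun h => h4 (h3.mp h))]
      ring

/-- The sum of `L` on the forms in terms of the common value. -/
theorem E5' (X : Ctx S C T) (j : G) {c : ℂ}
    (hc : ∀ i l : ZMod p, ¬ (i = 0 ∧ l = 0) → LL P k j (lamF u v i l) = c) :
    ((p : ℂ) ^ 2 - 1) * c + 2 * JJ k j = 2 * (p : ℂ) ^ 2 * J0 P k u v j := by
  rw [← E5 X j]
  have h0 : LL P k j (lamF u v (0 : ZMod p) 0) = 2 * JJ k j := by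
    rw [lamF_zero, LL, JJ, ← M_mul]
    apply M_congr
    intro g
    by_cases hg : g ^ k = 1
    · simp [hg]
    · simp [hg, bar]
      norm_num
  have h1 : ∀ i l : ZMod p, LL P k j (lamF u v i l) =
      c + (if i = 0 ∧ l = 0 then (2 * JJ k j - c) else 0) := by
    intro i l
    by_cases h : i = 0 ∧ l = 0
    · rw [if_pos h, h.1, h.2, h0]
      ring
    · rw [if_neg h, hc i l h, add_zero]
  simp_rw [h1, Finset.sum_add_distrib, Finset.sum_const]
  rw [Finset.sum_eq_single 0, Finset.sum_eq_single 0]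
  · simp [ZMod.card]
    ring
  · intro l _ hl
    simp [hl]
  · simp
  · intro i _ hi
    simp [hi]
  · simp

/-- The double sum for `ξ`. -/
theorem M_xi (X : Ctx S C T) {ε : G → ℂ} (hε1 : ∀ g : G, g ^ k ≠ 1 → ε g = 1) {j : G} {jh : H}
    (hπ : C.π jh = j) (hj : jh * jh = 1) :
    M jh (xi C T k ε) = (p : ℂ) ^ 2 * M j (Xi1 P k u v ε) := by
  unfold M
  have h1 : ∀ s w : H, xi C T k ε (s * jh * s⁻¹ * (w * jh * w⁻¹)) =
      Xi1 P k u v ε (C.π s * j * (C.π s)⁻¹ * (C.π w * j * (C.π w)⁻¹)) := by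
    intro s w
    have hc : ∀ s : H, (s * jh * s⁻¹) * (s * jh * s⁻¹) = 1 := by
      intro s
      calc (s * jh * s⁻¹) * (s * jh * s⁻¹) = s * (jh * jh) * s⁻¹ := by group
        _ = 1 := by rw [hj]; group
    rw [xi_product X hε1 (hc s) (hc w)]
    simp [map_mul, map_inv, hπ]
  simp_rw [h1]
  have h2 : ∀ s : H, ∑ w : H, Xi1 P k u v ε (C.π s * j * (C.π s)⁻¹ * (C.π w * j * (C.π w)⁻¹)) =
      (p : ℂ) * ∑ w : G, Xi1 P k u v ε (C.π s * j * (C.π s)⁻¹ * (w * j * w⁻¹)) := fun s =>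
    C.sum_pi (fun w => Xi1 P k u v ε (C.π s * j * (C.π s)⁻¹ * (w * j * w⁻¹)))
  simp_rw [h2]
  rw [← Finset.mul_sum,
    C.sum_pi (fun g => ∑ w : G, Xi1 P k u v ε (g * j * g⁻¹ * (w * j * w⁻¹)))]
  ring

theorem E6 (X : Ctx S C T) {ε : G → ℂ} (hε1 : ∀ g : G, g ^ k ≠ 1 → ε g = 1)
    (hε0 : classInner ε (one G) = 0) (hεn : classInner ε ε = 1)
    (hεg : IsGeneralizedCharacter G ε) {j : G} {jh : H}
    (hπ : C.π jh = j) (hj : jh * jh = 1) (hjh : jh ^ k = 1) :
    (ss p * T0 k j + rr p * T1 k j ε + (p : ℂ) * J0 P k u v j) * (ss p + rr p * ε 1) =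
      (Fintype.card G : ℂ) ^ 2 * (ss p + rr p * ε j) ^ 2 := by
  have hp0 : (p : ℂ) ≠ 0 := Nat.cast_ne_zero.mpr hp.out.ne_zero
  have hxi := norm_one (isGenChar_xi X hεg hε1) (classInner_xi X hε1 hε0 hεn)
  have h := M_signed hxi jh
  have h1 : xi C T k ε 1 = ss p + rr p * ε 1 := by
    have h2 : (1 : H) ^ k = C.z 0 := by rw [z_zero, one_pow]
    rw [xi_regular X h2, ee_zero, one_mul, map_one]
  have h2 : xi C T k ε jh = ss p + rr p * ε j := by
    have h3 : jh ^ k = C.z 0 := by rw [z_zero, hjh]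
    rw [xi_regular X h3, ee_zero, one_mul, hπ]
  rw [M_xi X hε1 hπ hj, h1, h2] at h
  have hcard : (Fintype.card H : ℂ) = (Fintype.card G : ℂ) * p := by
    rw [← Nat.card_eq_fintype_card, ← Nat.card_eq_fintype_card, C.card_eq]
    push_cast
    rfl
  rw [hcard] at h
  have h3 : M j (Xi1 P k u v ε) = ss p * T0 k j + rr p * T1 k j ε + (p : ℂ) * J0 P k u v j := by
    rw [T0, T1, J0, ← M_mul, ← M_mul, ← M_mul, ← M_add, ← M_add]
    apply M_congr
    intro g
    rw [Xi1]
    by_cases hg : g ^ k = 1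
    · simp [hg]
    · simp only [hg, if_false]
      split_ifs <;> simp
  rw [h3] at h
  have h4 : (p : ℂ) ^ 2 ≠ 0 := pow_ne_zero 2 hp0
  apply mul_left_cancel₀ h4
  linear_combination h

/-- **The conclusion of the identity.** -/
theorem final (X : Ctx S C T) {ε : G → ℂ} (hε : IsIrrCharacter G ε ∨ IsIrrCharacter G (-ε))
    (hε0 : classInner ε (one G) = 0) (hε1 : ∀ g : G, g ^ k ≠ 1 → ε g = 1)
    (hθ : ∀ χ : ↥(P : Subgroup G) → ℂ, IsIrrCharacter (P : Subgroup G) χ → χ ≠ one _ →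
      (IsIrrCharacter G (Phi P k χ + one G + ε) ∨ IsIrrCharacter G (-(Phi P k χ + one G + ε))))
    {j : G} {jh : H} (hπ : C.π jh = j) (hj : jh * jh = 1) (hjh : jh ^ k = 1) :
    ε 1 = 1 ∨ ε j = ε 1 := by
  haveI := finite_irrCharacter (G := (P : Subgroup G))
  letI : Fintype (IrrCharacter (P : Subgroup G)) := Fintype.ofFinite _
  have hcm := comm_of_setup S
  have hjk : j ^ k = 1 := by
    rw [← hπ, ← map_pow, hjh, map_one]
  have hεg : IsGeneralizedCharacter G ε := by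
    rcases hε with h | h
    · exact isGenChar_of_isIrr h
    · have := isGenChar_neg (isGenChar_of_isIrr h)
      simpa using this
  have hεn : classInner ε ε = 1 := by
    rcases hε with h | h
    · have := classInner_irr h h
      simpa using this
    · have := classInner_irr h h
      simp only [if_true] at this
      rw [classInner_neg_left, classInner_neg_right, neg_neg] at this
      exact this
  have he := signed_one_ne hε
  -- the nontrivial forms
  have hne : ∀ i l : ZMod p, ¬ (i = 0 ∧ l = 0) → lamF u v i l ≠ one _ := by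
    intro i l h h'
    rw [← lamF_zero (u := u) (v := v)] at h'
    exact h (lamF_inj X.hs h')
  have hE3 : ∀ χ : ↥(P : Subgroup G) → ℂ, IsIrrCharacter (P : Subgroup G) χ → χ ≠ one _ →
      (T0 k j + T1 k j ε + LL P k j χ) * (1 + ε 1) = (Fintype.card G : ℂ) ^ 2 * (1 + ε j) ^ 2 :=
    fun χ h1 h2 => E3 S hε1 h1 (hθ χ h1 h2) hjk
  have he1 : 1 + ε 1 ≠ 0 := by
    have h1 := hθ _ (isIrr_lamF X.hu X.hv (1 : ZMod p) 0) (hne _ _ (by simp))
    have h2 := signed_one_ne h1
    rwa [theta_val S hε1 (isIrr_lamF X.hu X.hv (1 : ZMod p) 0), if_pos (one_pow k)] at h2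
  set A : ℂ := (Fintype.card G : ℂ) ^ 2 with hA
  have hA0 : A ≠ 0 := by
    apply pow_ne_zero
    exact Nat.cast_ne_zero.mpr Fintype.card_ne_zero
  set c : ℂ := A * (1 + ε j) ^ 2 / (1 + ε 1) - T0 k j - T1 k j ε with hc
  have hLL : ∀ χ : ↥(P : Subgroup G) → ℂ, IsIrrCharacter (P : Subgroup G) χ → χ ≠ one _ →
      LL P k j χ = c := by
    intro χ h1 h2
    have := hE3 χ h1 h2
    rw [hc]
    field_simp
    linear_combination this
  have hQ : (Nat.card (P : Subgroup G) : ℂ) ≠ 0 := Nat.cast_ne_zero.mpr Nat.card_pos.ne'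
  have hq : (p : ℂ) ≠ 0 := Nat.cast_ne_zero.mpr hp.out.ne_zero
  have hq1 : (p : ℂ) ≠ 1 := by
    intro h
    have : p = 1 := by exact_mod_cast h
    exact hp.out.one_lt.ne' this
  have hqm : (p : ℂ) ≠ -1 := by
    intro h
    have h1 : ((p + 1 : ℕ) : ℂ) = 0 := by
      push_cast
      rw [h]
      ring
    have h2 : p + 1 = 0 := by exact_mod_cast h1
    omega
  -- the equation for the total
  have e4 : ((Nat.card (P : Subgroup G) : ℂ) - 1) * c = -2 * JJ k j := by
    rw [← E4 S j, ← card_ne_one hcm, Finset.sum_mul]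
    refine Finset.sum_congr rfl fun χ _ => ?_
    by_cases h : (χ : ↥(P : Subgroup G) → ℂ) = one _
    · rw [if_pos h, if_pos h, zero_mul]
    · rw [if_neg h, if_neg h, one_mul, hLL _ χ.2 h]
  have e5 := E5' X (k := k) j (c := c) (fun i l h =>
    hLL _ (isIrr_lamF X.hu X.hv i l) (hne i l h))
  have e3 : (T0 k j + T1 k j ε + c) * (1 + ε 1) = A * (1 + ε j) ^ 2 := by
    rw [hc]
    field_simp
    ring
  exact alg hA0 hQ hq he he1 rfl rfl hq1 hqm (E1 j) (E2 hε hε1 j) e3 e4 e5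
    (E6 X hε1 hε0 hεn hεg hπ hj hjh)

end Cfsg.Agent.Lib.InvSylow.Final
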