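import Cfsg.Agent.Lib.InvSylow.CT
import Cfsg.Agent.Lib.Core.PLength
import Cfsg.Agent.Lib.Core.Series

/-!
# `p`-length one by induction from the character theorem
-/

set_option autoImplicit false
set_option linter.unusedSectionVars false
set_option linter.style.haveILetI false

namespace Cfsg.Agent.Lib.InvSylow.Induct

open Cfsg Cfsg.Agent.Lib.Core.Basic Cfsg.Agent.Lib.Core.Series Cfsg.Agent.Lib.Core.PLength
open Cfsg.Agent.Lib.InvSylow.Fusion Cfsg.Agent.Lib.InvSylow.CT
open scoped Pointwise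

universe u

section abstract

variable {X : Type u} [Group X] [Finite X] {p : ℕ} [hp : Fact p.Prime]

theorem le_of_index_coprime {N S : Subgroup X} [N.Normal]
    (hN : (N.index).Coprime p) (hS : IsPGroup p S) : S ≤ N := by
  intro x hx
  obtain ⟨k, hk⟩ := hS ⟨x, hx⟩
  have hk' : x ^ p ^ k = 1 := congrArg Subtype.val hk
  have h1 : ((x : X ⧸ N)) ^ p ^ k = 1 := by
    rw [← QuotientGroup.mk_pow, hk']
    rfl
  have h2 : ((x : X ⧸ N)) ^ N.index = 1 := by
    rw [Subgroup.index_eq_card]
    exact pow_card_eq_one'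
  have h3 : Nat.Coprime (p ^ k) N.index := (Nat.Coprime.pow_left k hN.symm)
  have h4 := orderOf_dvd_of_pow_eq_one h1
  have h5 := orderOf_dvd_of_pow_eq_one h2
  have h6 := Nat.dvd_gcd h4 h5
  rw [h3.gcd_eq_one, Nat.dvd_one, orderOf_eq_one_iff] at h6
  exact (QuotientGroup.eq_one_iff x).mp h6

theorem pLengthLE_one_iff : PLengthLE p 1 X ↔ ((pPrimePCore p X).index).Coprime p := by
  rw [show (1 : ℕ) = 0 + 1 from rfl, pLengthLE_succ_iff, pLengthLE_zero_iff, Subgroup.index_eq_card]

theorem le_pPrimePCore_of_pLengthLE (h : PLengthLE p 1 X) {S : Subgroup X} (hS : IsPGroup p S) :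
    S ≤ pPrimePCore p X :=
  le_of_index_coprime (pLengthLE_one_iff.mp h) hS

theorem pLengthLE_one_of_sylow_le (P : Sylow p X) (hP : (P : Subgroup X) ≤ pPrimePCore p X) :
    PLengthLE p 1 X := by
  rw [pLengthLE_one_iff]
  have h1 := Subgroup.index_dvd_of_le hP
  have h2 : ¬ p ∣ (P : Subgroup X).index := P.not_dvd_index
  exact Nat.Coprime.symm ((Nat.Prime.coprime_iff_not_dvd hp.out).mpr (fun h => h2 (h.trans h1)))

theorem map_pPrimePCore_le_of_normal {N : Subgroup X} (hN : N.Normal) :
    (pPrimePCore p N).map N.subtype ≤ pPrimePCore p X := by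
  have hnor : ((pPrimePCore p N).map N.subtype).Normal := ConjAct.normal_of_characteristic_of_normal
  apply le_pPrimePCore hnor
  rintro _ ⟨y, hy, rfl⟩
  obtain ⟨k, hk⟩ := exists_pow_mem_pPrimeCore hy
  refine ⟨k, ?_⟩
  apply map_pPrimeCore_le_of_isSubnormal (Subgroup.Normal.isSubnormal hN)
  exact ⟨y ^ p ^ k, hk, by simp⟩

/-- Passing `p`-length one from a normal subgroup containing all Sylow `p`-subgroups. -/
theorem pLengthLE_one_of_normal {N : Subgroup X} (hN : N.Normal) (P : Sylow p X)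
    (hPN : (P : Subgroup X) ≤ N) (h : PLengthLE p 1 N) : PLengthLE p 1 X := by
  apply pLengthLE_one_of_sylow_le P
  have h1 : IsPGroup p ((P : Subgroup X).subgroupOf N) := P.isPGroup'.comap_subtype
  have h2 := le_pPrimePCore_of_pLengthLE h h1
  have h3 := Subgroup.map_mono (f := N.subtype) h2
  rw [Subgroup.map_subgroupOf_eq_of_le hPN] at h3
  exact h3.trans (map_pPrimePCore_le_of_normal hN)

end abstract

section steps

variable {G : Type u} [Group G] [Finite G] {p : ℕ} [hp : Fact p.Prime]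

/-- Burnside's transfer theorem gives `p`-length one. -/
theorem pLength_of_burnside (P : Sylow p G)
    (h : Subgroup.normalizer ((P : Subgroup G) : Set G) ≤
      Subgroup.centralizer ((P : Subgroup G) : Set G)) : PLengthLE p 1 G := by
  have hk := MonoidHom.not_dvd_card_ker_transferSylow P h
  let f := MonoidHom.transferSylow P h
  have h0 : PLengthLE p 0 f.rangeRestrict.ker := by
    rw [pLengthLE_zero_iff, MonoidHom.ker_rangeRestrict]
    exact ((Nat.Prime.coprime_iff_not_dvd hp.out).mpr hk).symm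
  have h1 : PLengthLE p 1 f.range :=
    pLengthLE_one_of_isPGroup (P.isPGroup'.to_subgroup f.range)
  exact PLengthLE.of_ker f.rangeRestrict f.rangeRestrict_surjective h0 h1

/-- The subgroup step. -/
theorem invHyp_subtype {P : Sylow p G} (hP : InvHyp P) {K : Subgroup G}
    (hPK : (P : Subgroup G) ≤ K) : InvHyp (P.subtype hPK) := by
  refine ⟨?_, ?_, hP.odd⟩
  · intro x hx y hy
    rw [Sylow.coe_subtype, Subgroup.mem_subgroupOf] at hx hy
    apply Subtype.ext
    exact hP.comm _ hx _ hy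
  · intro n hn
    have hn' : (n : G) ∈ Subgroup.normalizer ((P : Subgroup G) : Set G) := by
      rw [Subgroup.mem_normalizer_iff] at hn ⊢
      intro x
      constructor
      · intro hx
        have h1 : (⟨x, hPK hx⟩ : K) ∈ ((P.subtype hPK : Sylow p K) : Subgroup K) := by
          rw [Sylow.coe_subtype, Subgroup.mem_subgroupOf]
          exact hx
        have h2 := (hn ⟨x, hPK hx⟩).mp h1
        rw [Sylow.coe_subtype, Subgroup.mem_subgroupOf] at h2
        exact h2
      · intro hx
        have hxK : x ∈ K := by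
          have h1 : (n : G)⁻¹ * ((n : G) * x * (n : G)⁻¹) * (n : G) = x := by group
          rw [← h1]
          exact K.mul_mem (K.mul_mem (K.inv_mem n.2) (hPK hx)) n.2
        have h1 : (⟨x, hxK⟩ : K) ∈ ((P.subtype hPK : Sylow p K) : Subgroup K) := by
          apply (hn ⟨x, hxK⟩).mpr
          rw [Sylow.coe_subtype, Subgroup.mem_subgroupOf]
          exact hx
        rw [Sylow.coe_subtype, Subgroup.mem_subgroupOf] at h1
        exact h1
    rcases hP.sign _ hn' with h | h
    · left
      intro x hx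
      rw [Sylow.coe_subtype, Subgroup.mem_subgroupOf] at hx
      apply Subtype.ext
      exact h _ hx
    · right
      intro x hx
      rw [Sylow.coe_subtype, Subgroup.mem_subgroupOf] at hx
      apply Subtype.ext
      exact h _ hx

theorem not_cyclic_subtype {P : Sylow p G} (hnc : ¬ IsCyclic (P : Subgroup G)) {K : Subgroup G}
    (hPK : (P : Subgroup G) ≤ K) : ¬ IsCyclic ((P.subtype hPK : Sylow p K) : Subgroup K) := by
  intro h
  apply hnc
  rw [Sylow.coe_subtype] at h
  exact isCyclic_of_surjective (Subgroup.subgroupOfEquivOfLe hPK)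
    (MulEquiv.surjective _)

/-- The Frattini-type lifting of elements normalizing the image of a Sylow subgroup. -/
theorem exists_mem_normalizer (P : Sylow p G) (Q : Subgroup G) [Q.Normal] {n : G}
    (hn : ∀ y ∈ (P : Subgroup G), ∃ x ∈ (P : Subgroup G), (n * y * n⁻¹ : G) * x⁻¹ ∈ Q) :
    ∃ q ∈ Q, q * n ∈ Subgroup.normalizer ((P : Subgroup G) : Set G) := by
  classical
  let L : Subgroup G := (P : Subgroup G) ⊔ Q
  have hPL : (P : Subgroup G) ≤ L := le_sup_left
  have hnL : ((n • P : Sylow p G) : Subgroup G) ≤ L := by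
    intro z hz
    rw [Sylow.smul_def, Sylow.pointwise_smul_def, Subgroup.mem_pointwise_smul_iff_inv_smul_mem] at hz
    have hz' : n⁻¹ * z * n ∈ (P : Subgroup G) := by
      simpa [MulAut.smul_def, mul_assoc] using hz
    obtain ⟨x, hx, hq⟩ := hn _ hz'
    have e : n * (n⁻¹ * z * n) * n⁻¹ = z := by group
    rw [e] at hq
    have e2 : z = (z * x⁻¹) * x := by group
    rw [e2]
    exact L.mul_mem ((le_sup_right : Q ≤ L) hq) (hPL hx)
  obtain ⟨l, hl⟩ := MulAction.exists_smul_eq L ((n • P : Sylow p G).subtype hnL) (P.subtype hPL)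
  have hl2 : ((l : G) * n) • P = P := by
    simp_rw [Sylow.smul_subtype, Subgroup.smul_def, smul_smul] at hl
    exact Sylow.subtype_injective hl
  have hln : (l : G) * n ∈ Subgroup.normalizer ((P : Subgroup G) : Set G) :=
    Sylow.smul_eq_iff_mem_normalizer.mp hl2
  -- decompose `l`
  have hlm : (l : G) ∈ ((((P : Subgroup G) ⊔ Q : Subgroup G)) : Set G) := l.2
  rw [Subgroup.mul_normal, Set.mem_mul] at hlm
  obtain ⟨x, hx, q, hq, hxq⟩ := hlm
  refine ⟨q, hq, ?_⟩
  have e : q * n = x⁻¹ * ((l : G) * n) := by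
    rw [← hxq]
    group
  rw [e]
  refine Subgroup.mul_mem _ ?_ hln
  exact Subgroup.inv_mem _ (Subgroup.le_normalizer hx)

/-- The image of a Sylow subgroup in a quotient. -/
noncomputable def imgSylow (P : Sylow p G) (Q : Subgroup G) [Q.Normal] : Sylow p (G ⧸ Q) :=
  P.mapSurjective (QuotientGroup.mk'_surjective Q)

theorem mem_imgSylow {P : Sylow p G} {Q : Subgroup G} [Q.Normal] {y : G ⧸ Q} :
    y ∈ (imgSylow P Q : Subgroup (G ⧸ Q)) ↔ ∃ x ∈ (P : Subgroup G), (x : G ⧸ Q) = y := by
  change y ∈ (P : Subgroup G).map (QuotientGroup.mk' Q) ↔ _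
  rw [Subgroup.mem_map]
  rfl

theorem invHyp_quot {P : Sylow p G} (hP : InvHyp P) (Q : Subgroup G) [Q.Normal] :
    InvHyp (imgSylow P Q) := by
  refine ⟨?_, ?_, hP.odd⟩
  · intro y₁ h₁ y₂ h₂
    obtain ⟨x₁, hx₁, rfl⟩ := mem_imgSylow.mp h₁
    obtain ⟨x₂, hx₂, rfl⟩ := mem_imgSylow.mp h₂
    rw [← QuotientGroup.mk_mul, ← QuotientGroup.mk_mul, hP.comm _ hx₁ _ hx₂]
  · intro n' hn'
    obtain ⟨n, rfl⟩ := QuotientGroup.mk_surjective n'
    have h1 : ∀ y ∈ (P : Subgroup G), ∃ x ∈ (P : Subgroup G), (n * y * n⁻¹ : G) * x⁻¹ ∈ Q := by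
      intro y hy
      have h2 : ((n : G ⧸ Q)) * (y : G ⧸ Q) * ((n : G ⧸ Q))⁻¹ ∈ (imgSylow P Q : Subgroup (G ⧸ Q)) := by
        have h3 := (Subgroup.mem_normalizer_iff.mp hn' (y : G ⧸ Q)).mp (mem_imgSylow.mpr ⟨y, hy, rfl⟩)
        exact h3
      obtain ⟨x, hx, hxe⟩ := mem_imgSylow.mp h2
      refine ⟨x, hx, ?_⟩
      rw [← QuotientGroup.eq_one_iff, QuotientGroup.mk_mul, QuotientGroup.mk_inv, hxe,
        QuotientGroup.mk_mul, QuotientGroup.mk_mul, QuotientGroup.mk_inv]
      group
    obtain ⟨q, hq, hqn⟩ := exists_mem_normalizer P Q h1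
    have hq1 : ((q * n : G) : G ⧸ Q) = (n : G ⧸ Q) := by
      rw [QuotientGroup.mk_mul, (QuotientGroup.eq_one_iff q).mpr hq, one_mul]
    rcases hP.sign _ hqn with h | h
    · left
      intro y hy
      obtain ⟨x, hx, rfl⟩ := mem_imgSylow.mp hy
      rw [← hq1, ← QuotientGroup.mk_inv, ← QuotientGroup.mk_mul, ← QuotientGroup.mk_mul, h x hx]
    · right
      intro y hy
      obtain ⟨x, hx, rfl⟩ := mem_imgSylow.mp hy
      rw [← hq1, ← QuotientGroup.mk_inv, ← QuotientGroup.mk_mul, ← QuotientGroup.mk_mul, h x hx,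
        QuotientGroup.mk_inv]

theorem not_cyclic_quot {P : Sylow p G} (hnc : ¬ IsCyclic (P : Subgroup G)) {Q : Subgroup G}
    [Q.Normal] (hQ : (Nat.card Q).Coprime p) :
    ¬ IsCyclic (imgSylow P Q : Subgroup (G ⧸ Q)) := by
  intro h
  apply hnc
  have hinf : (P : Subgroup G) ⊓ Q = ⊥ :=
    inf_eq_bot_of_isPGroup_of_coprime P.isPGroup' hQ
  let f : (P : Subgroup G) →* (imgSylow P Q : Subgroup (G ⧸ Q)) :=
    (QuotientGroup.mk' Q).subgroupMap (P : Subgroup G)
  refine isCyclic_of_injective f ?_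
  intro a b hab
  have h1 : ((a : G) : G ⧸ Q) = ((b : G) : G ⧸ Q) := congrArg Subtype.val hab
  have h2 : (a : G)⁻¹ * b ∈ Q := QuotientGroup.eq.mp h1
  have h3 : (a : G)⁻¹ * b ∈ (P : Subgroup G) ⊓ Q :=
    ⟨Subgroup.mul_mem _ (Subgroup.inv_mem _ a.2) b.2, h2⟩
  rw [hinf, Subgroup.mem_bot] at h3
  apply Subtype.ext
  exact inv_mul_eq_one.mp h3

end steps

/-- **The theorem `T(G)`.** -/
theorem T_aux (p : ℕ) [hp : Fact p.Prime] : ∀ (n : ℕ) (G : Type u) [Group G] [Finite G]
    (P : Sylow p G), Nat.card G = n → InvHyp P → ¬ IsCyclic (P : Subgroup G) → PLengthLE p 1 G := by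
  intro n
  induction n using Nat.strong_induction_on with
  | _ n ih =>
    intro G _ _ P hn hP hnc
    by_cases hinv : ∃ t : G, ∀ x ∈ (P : Subgroup G), t * x * t⁻¹ = x⁻¹
    · obtain ⟨t, ht⟩ := hinv
      by_cases hcore : pPrimeCore p G = ⊥
      · obtain ⟨K, hKn, hKt, hPK⟩ := ct_core hP ht hnc hcore
        have hlt : Nat.card K < n := by
          rw [← hn]
          exact lt_of_le_of_ne (Subgroup.card_le_card_group K)
            (fun h => hKt (Subgroup.eq_top_of_card_eq K h))
        have h1 := ih _ hlt K (P.subtype hPK) rfl (invHyp_subtype hP hPK) (not_cyclic_subtype hnc hPK)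
        exact pLengthLE_one_of_normal hKn P hPK h1
      · set Q := pPrimeCore p G with hQ
        have hQc : (Nat.card Q).Coprime p := pPrimeCore_coprime
        have hQ1 : 1 < Nat.card Q := by
          have h1 : Nat.card Q ≠ 1 := by
            intro h
            exact hcore ((Subgroup.card_eq_one).mp h)
          have h2 : 0 < Nat.card Q := Nat.card_pos
          omega
        have hlt : Nat.card (G ⧸ Q) < n := by
          rw [← hn, Subgroup.card_eq_card_quotient_mul_card_subgroup Q]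
          have h2 : 0 < Nat.card (G ⧸ Q) := Nat.card_pos
          nlinarith
        have h1 := ih _ hlt (G ⧸ Q) (imgSylow P Q) rfl (invHyp_quot hP Q) (not_cyclic_quot hnc hQc)
        have h0 : PLengthLE p 0 (QuotientGroup.mk' Q).ker := by
          rw [pLengthLE_zero_iff, QuotientGroup.ker_mk']
          exact hQc
        exact PLengthLE.of_ker (QuotientGroup.mk' Q) (QuotientGroup.mk'_surjective Q) h0 h1
    · apply pLength_of_burnside P
      intro m hm
      rcases hP.sign m hm with h | h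
      · rw [Subgroup.mem_centralizer_iff]
        intro x hx
        have := h x hx
        calc x * m = (m * x * m⁻¹) * m := by rw [this]
          _ = m * x := by group
      · exact absurd ⟨m, h⟩ hinv

end Cfsg.Agent.Lib.InvSylow.Induct
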