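import Cfsg.Agent.Lib.InvSylow.ChiNu
import Cfsg.Agent.Lib.Char.Central
import Cfsg.Agent.Lib.Char.Brauer
import Cfsg.Agent.Lib.CharDeep.BrauerChar

/-!
# Twisting a generalized character vanishing on singular elements by a central character
-/

set_option autoImplicit false
set_option linter.unusedSectionVars false

namespace Cfsg.Agent.Lib.InvSylow.LemmaK

open Cfsg
open Cfsg.Agent.Lib.Char.Basic Cfsg.Agent.Lib.Char.Ortho Cfsg.Agent.Lib.Char.Complete
open Cfsg.Agent.Lib.Char.GenLattice
open Cfsg.Agent.Lib.InvSylow.Pow Cfsg.Agent.Lib.InvSylow.Ext Cfsg.Agent.Lib.InvSylow.Fusion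
open Cfsg.Agent.Lib.InvSylow.Count Cfsg.Agent.Lib.InvSylow.Tau
open Cfsg.Agent.Lib.InvSylow.Cover Cfsg.Agent.Lib.InvSylow.CoverP
open scoped ComplexConjugate _root_.Classical

universe u

/-- A class function with integer inner products is a generalized character. -/
theorem isGenChar_of_int_inner {E : Type u} [Group E] [Fintype E] {φ : E → ℂ}
    (hcl : IsClassFunction E φ)
    (h : ∀ ϑ : E → ℂ, IsIrrCharacter E ϑ → ∃ n : ℤ, classInner φ ϑ = n) :
    IsGeneralizedCharacter E φ := by
  haveI := finite_irrCharacter (G := E)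
  letI : Fintype (IrrCharacter E) := Fintype.ofFinite _
  choose n hn using fun i : IrrCharacter E => h i i.2
  have h1 := classFunction_eq_sum hcl
  have h2 : φ = ∑ i : IrrCharacter E, n i • (i : E → ℂ) := by
    conv_lhs => rw [h1]
    refine Finset.sum_congr rfl fun i _ => ?_
    rw [hn i]
    funext x
    simp
  rw [h2]
  exact isGenChar_of_int_combination n

/-- A central element acts by a scalar in an irreducible character. -/
theorem exists_scalar {E : Type u} [Group E] [Finite E] {ϑ : E → ℂ} (hϑ : IsIrrCharacter E ϑ) {z : E}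
    (hz : z ∈ Subgroup.center E) : ∃ ω : ℂ, ∀ e, ϑ (e * z) = ω * ϑ e := by
  obtain ⟨n, ρ, hirr, rfl⟩ := hϑ
  haveI := hirr
  obtain ⟨ω, hω⟩ := Cfsg.Agent.Lib.Char.Central.center_acts_scalar ρ z hz
  refine ⟨ω, fun e => ?_⟩
  simp only [Representation.character]
  rw [map_mul, hω, mul_smul_comm, mul_one, map_smul, smul_eq_mul]

variable {G H : Type u} [Group G] [Group H] {p N k k' a m : ℕ} {P : Sylow p G}
variable [Fintype G] [Fintype H] [hp : Fact p.Prime]
variable {D : PowData p N k k' a m} {u v : ↥(P : Subgroup G) → ZMod p}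

/-- The twisted function. -/
noncomputable def psi (C : Cov P u v H) (k : ℕ) (Y : G → ℂ) (h : H) : ℂ :=
  ee p (C.snd (h ^ k)) * Y (C.π h)

theorem pow_z_k (C : Cov P u v H) (D : PowData p N k k' a m) (hN : ∀ x : H, x ^ N = 1) (i : ZMod p) :
    C.z i ^ k = C.z i := by
  apply D.pow_k_of_pow (j := 1) (hN _)
  rw [pow_one, z_nat, CharP.cast_eq_zero, zero_mul, z_zero]

theorem pow_z_k' (C : Cov P u v H) (D : PowData p N k k' a m) (hN : ∀ x : H, x ^ N = 1) (i : ZMod p) :
    C.z i ^ k' = 1 := by
  apply D.pow_k'_of_pow (j := 1) (hN _)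
  rw [pow_one, z_nat, CharP.cast_eq_zero, zero_mul, z_zero]

theorem isClassFunction_psi (C : Cov P u v H) {Y : G → ℂ} (hYcl : IsClassFunction G Y)
    (hY0 : ∀ g, g ^ k ≠ 1 → Y g = 0) : IsClassFunction H (psi C k Y) := by
  intro h c
  simp only [psi]
  have h1 : Y (C.π (c * h * c⁻¹)) = Y (C.π h) := by
    simp only [map_mul, map_inv]
    exact hYcl _ _
  rw [h1]
  by_cases hr : (C.π h) ^ k = 1
  · have h2 : h ^ k = C.z (C.snd (h ^ k)) := C.eq_z _ (by rw [map_pow, hr])
    have h3 : (c * h * c⁻¹) ^ k = h ^ k := by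
      rw [conj_pow, h2, (z_comm C _ c).symm.eq]
      group
    rw [h3]
  · rw [hY0 _ hr, mul_zero, mul_zero]

theorem psi_regular (C : Cov P u v H) {Y : G → ℂ} {h : H} {i : ZMod p} (hi : h ^ k = C.z i) :
    psi C k Y h = ee p i * Y (C.π h) := by
  rw [psi, hi, C.snd_z]

/-- **Lemma K**. -/
theorem isGenChar_psi (C : Cov P u v H) (D : PowData p N k k' a m) (hcard : Nat.card H ∣ N)
    {Y : G → ℂ} (hY : IsGeneralizedCharacter G Y) (hY0 : ∀ g, g ^ k ≠ 1 → Y g = 0) :
    IsGeneralizedCharacter H (psi C k Y) := by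
  have hN : ∀ x : H, x ^ N = 1 := fun x =>
    orderOf_dvd_iff_pow_eq_one.mp ((orderOf_dvd_natCard x).trans hcard)
  have hYcl := isClassFunction_of_isGenChar hY
  have hcl := isClassFunction_psi C hYcl hY0
  apply Cfsg.Agent.Lib.Char.Brauer.isGenChar_of_restrict_elementary hcl
  intro E q hq hE
  letI : Fintype E := Fintype.ofFinite _
  have hYE : IsGeneralizedCharacter E (fun e : E => Y (C.π e)) :=
    isGenChar_comp (C.π.comp E.subtype) hY
  by_cases hz : C.z 1 ∈ E
  swap
  · -- `E` meets the centre trivially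
    have hmeet : ∀ e ∈ E, C.π e = 1 → e = 1 := by
      intro e he h1
      by_contra hne
      have h2 := C.eq_z e h1
      have hi : C.snd e ≠ 0 := by
        intro h3
        rw [h3, z_zero] at h2
        exact hne h2
      apply hz
      have h3 : C.z 1 = e ^ ((C.snd e)⁻¹.val) := by
        rw [h2, C.snd_z, z_nat, ZMod.natCast_zmod_val, inv_mul_cancel₀ hi]
      rw [h3]
      exact E.pow_mem he _
    have heq : (fun e : E => psi C k Y e) = fun e : E => Y (C.π e) := by
      funext e
      simp only [psi]
      by_cases hr : (C.π e) ^ k = 1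
      · have h1 : (e : H) ^ k = 1 := hmeet _ (E.pow_mem e.2 k) (by rw [map_pow, hr])
        have h2 : C.snd (1 : H) = 0 := by
          have := C.snd_z 0
          rwa [z_zero] at this
        rw [h1, h2, ee_zero, one_mul]
      · rw [hY0 _ hr, mul_zero]
    rw [heq]
    exact hYE
  · -- `E` contains the centre
    have hzc : (⟨C.z 1, hz⟩ : E) ∈ Subgroup.center E := by
      rw [Subgroup.mem_center_iff]
      intro e
      apply Subtype.ext
      exact (z_comm C 1 e).symm.eq
    set z₀ : E := ⟨C.z 1, hz⟩ with hz₀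
    have hclE : IsClassFunction E (fun e : E => psi C k Y e) := fun e c => hcl _ _
    apply isGenChar_of_int_inner hclE
    intro ϑ hϑ
    obtain ⟨ω, hω⟩ := exists_scalar hϑ hzc
    have hϑ1 := irr_one_ne_zero hϑ
    have hωn : ∀ (n : ℕ) (e : E), ϑ (e * z₀ ^ n) = ω ^ n * ϑ e := by
      intro n e
      induction n with
      | zero => simp
      | succ n ih =>
        rw [pow_succ, ← mul_assoc, hω, ih]
        ring
    have hz₀p : z₀ ^ p = 1 := by
      apply Subtype.ext
      change C.z 1 ^ p = 1
      rw [z_nat, CharP.cast_eq_zero, zero_mul, z_zero]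
    have hωp : ω ^ p = 1 := by
      have h1 := hωn p 1
      rw [hz₀p, mul_one] at h1
      exact (mul_eq_right₀ hϑ1).mp h1.symm
    have hωnorm : ω * conj ω = 1 := by
      have h1 : ‖ω‖ = 1 := Complex.norm_eq_one_of_pow_eq_one hωp hp.out.ne_zero
      rw [Complex.mul_conj, Complex.normSq_eq_norm_sq, h1]
      simp
    have hFshift : ∀ e : E, psi C k Y (e * z₀ : E) * conj (ϑ (e * z₀)) =
        (ee p 1 * conj ω) * (psi C k Y e * conj (ϑ e)) := by
      intro e
      have h1 : C.π ((e * z₀ : E) : H) = C.π e := by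
        change C.π ((e : H) * C.z 1) = _
        rw [map_mul, C.π_z, mul_one]
      have h2 : psi C k Y (e * z₀ : E) = ee p 1 * psi C k Y e := by
        simp only [psi]
        rw [h1]
        by_cases hr : (C.π e) ^ k = 1
        · have h3 : (e : H) ^ k = C.z (C.snd ((e : H) ^ k)) := C.eq_z _ (by rw [map_pow, hr])
          have h4 : ((e * z₀ : E) : H) ^ k = C.z (C.snd ((e : H) ^ k) + 1) := by
            change ((e : H) * C.z 1) ^ k = _
            rw [(z_comm C 1 e).symm.mul_pow, pow_z_k C D hN, C.z_add, ← h3]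
          rw [h4, C.snd_z, ee_add]
          ring
        · rw [hY0 _ hr]
          simp
      rw [h2, hω, map_mul]
      ring
    by_cases hcase : ee p 1 * conj ω = 1
    · -- matching central characters
      have hζ : ee p 1 = ω := by
        calc ee p 1 = ee p 1 * (conj ω * ω) := by
              rw [mul_comm (conj ω), hωnorm, mul_one]
          _ = ω := by rw [← mul_assoc, hcase, one_mul]
      have hcardE : Nat.card E ∣ p ^ a * m := by
        rw [← D.eq]
        exact (Subgroup.card_subgroup_dvd_card E).trans hcard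
      obtain ⟨f, hf⟩ := Cfsg.Agent.Lib.CharDeep.BrauerChar.exists_powHom hq hE hcardE
        D.coprime D.k'0 D.k'1
      have hϑf : IsCharacter E (ϑ ∘ f) :=
        isCharacter_comp f (isCharacter_of_isIrrCharacter hϑ)
      obtain ⟨n, hn⟩ := exists_int_classInner hYE (isGenChar_of_isCharacter hϑf)
      refine ⟨n, ?_⟩
      rw [← hn]
      unfold classInner
      congr 1
      refine Finset.sum_congr rfl fun e _ => ?_
      simp only [Function.comp_apply]
      by_cases hr : (C.π e) ^ k = 1
      · set i := C.snd ((e : H) ^ k) with hi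
        have h3 : (e : H) ^ k = C.z i := C.eq_z _ (by rw [map_pow, hr])
        have h4 : e = f e * z₀ ^ (i.val) := by
          apply Subtype.ext
          have h5 : ((f e * z₀ ^ i.val : E) : H) = ((e : H) ^ k') * C.z 1 ^ i.val := by
            rw [hf]
            rfl
          rw [h5, z_nat, ZMod.natCast_zmod_val, mul_one, ← h3]
          have h6 := D.mul_pow_eq (hN (e : H))
          rw [((Commute.refl (e : H)).pow_pow k' k).eq, h6]
        have h7 : ϑ e = ee p i * ϑ (f e) := by
          conv_lhs => rw [h4]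
          rw [hωn, ← hζ]
          congr 1
          have h8 : ∀ n : ℕ, ee p 1 ^ n = ee p (n : ZMod p) := by
            intro n
            induction n with
            | zero => simp [ee_zero]
            | succ n ih =>
              rw [pow_succ, ih, ← ee_add]
              push_cast
              rfl
          rw [h8, ZMod.natCast_zmod_val]
        rw [psi_regular C h3, h7, map_mul, ee_conj]
        calc ee p i * Y (C.π e) * (ee p (-i) * conj (ϑ (f e)))
            = (ee p (-i) * ee p i) * (Y (C.π e) * conj (ϑ (f e))) := by ring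
          _ = _ := by rw [ee_neg_mul, one_mul]
      · simp only [psi]
        rw [hY0 _ hr, mul_zero, zero_mul, zero_mul]
    · refine ⟨0, ?_⟩
      have hS : ∑ e : E, psi C k Y e * conj (ϑ e) =
          (ee p 1 * conj ω) * ∑ e : E, psi C k Y e * conj (ϑ e) := by
        conv_lhs => rw [← Equiv.sum_comp (Equiv.mulRight z₀)]
        rw [Finset.mul_sum]
        exact Finset.sum_congr rfl fun e _ => hFshift e
      have hS0 : ∑ e : E, psi C k Y e * conj (ϑ e) = 0 := by
        have h3 : (1 - ee p 1 * conj ω) * ∑ e : E, psi C k Y e * conj (ϑ e) = 0 := by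
          rw [sub_mul, one_mul, ← hS, sub_self]
        exact (mul_eq_zero.mp h3).resolve_left (sub_ne_zero.mpr (Ne.symm hcase))
      unfold classInner
      rw [hS0, mul_zero]
      simp

end Cfsg.Agent.Lib.InvSylow.LemmaK
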