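import Cfsg.Agent.Lib.InvSylow.Induct

/-!
# From index two to the inverting hypothesis, by transfer
-/

set_option autoImplicit false
set_option linter.unusedSectionVars false
set_option linter.style.haveILetI false

namespace Cfsg.Agent.Lib.InvSylow.Top

open Cfsg Cfsg.Agent.Lib.InvSylow.Fusion

universe u

variable {G : Type u} [Group G] [Finite G] {p : ℕ} [hp : Fact p.Prime]

open scoped IsMulCommutative in
/-- The transfer into an abelian Sylow subgroup is trivial if `G` is generated by `p'`-elements. -/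
theorem transfer_trivial (P : Sylow p G) [IsMulCommutative (P : Subgroup G)]
    [(P : Subgroup G).FiniteIndex]
    (hres : Cfsg.pResidual p G = ⊤) (g : G) :
    MonoidHom.transfer (MonoidHom.id (P : Subgroup G)) g = 1 := by
  have hle : Cfsg.pResidual p G ≤ (MonoidHom.transfer (MonoidHom.id (P : Subgroup G))).ker := by
    unfold Cfsg.pResidual
    rw [Subgroup.closure_le]
    intro y hy
    change MonoidHom.transfer (MonoidHom.id (P : Subgroup G)) y = 1
    set z := MonoidHom.transfer (MonoidHom.id (P : Subgroup G)) y with hz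
    have h1 : z ^ orderOf y = 1 := by
      rw [hz, ← map_pow, pow_orderOf_eq_one, map_one]
    obtain ⟨n, hn⟩ := P.isPGroup' z
    have h2 := orderOf_dvd_of_pow_eq_one h1
    have h3 := orderOf_dvd_of_pow_eq_one hn
    have hc : Nat.Coprime (orderOf y) (p ^ n) := Nat.Coprime.pow_right n hy
    exact orderOf_eq_one_iff.mp (Nat.eq_one_of_dvd_coprimes hc h2 h3)
  rw [hres] at hle
  exact hle (Subgroup.mem_top g)

open scoped IsMulCommutative in
theorem invHyp_of_index_two (hodd : p ≠ 2) (P : Sylow p G)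
    (hab : IsMulCommutative (P : Subgroup G))
    (hidx : ((Subgroup.centralizer ((P : Subgroup G) : Set G)).subgroupOf
      (Subgroup.normalizer ((P : Subgroup G) : Set G))).index = 2)
    (hres : Cfsg.pResidual p G = ⊤) : InvHyp P := by
  classical
  have hcomm : ∀ x ∈ (P : Subgroup G), ∀ y ∈ (P : Subgroup G), x * y = y * x := fun x hx y hy =>
    congrArg Subtype.val (hab.is_comm.comm ⟨x, hx⟩ ⟨y, hy⟩)
  set N := Subgroup.normalizer ((P : Subgroup G) : Set G) with hN
  set C := (Subgroup.centralizer ((P : Subgroup G) : Set G)).subgroupOf N with hC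
  have hmemC : ∀ n : N, n ∈ C ↔ ∀ x ∈ (P : Subgroup G), (n : G) * x * (n : G)⁻¹ = x := by
    intro n
    rw [hC, Subgroup.mem_subgroupOf, Subgroup.mem_centralizer_iff]
    constructor
    · intro h x hx
      have := h x hx
      rw [← this]
      group
    · intro h x hx
      have h1 := h x hx
      calc x * (n : G) = ((n : G) * x * (n : G)⁻¹) * n := by rw [h1]
        _ = n * x := by group
  obtain ⟨t, ht⟩ : ∃ t : N, t ∉ C := by
    by_contra h
    push Not at h
    have h1 : C = ⊤ := eq_top_iff.mpr fun x _ => h x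
    rw [h1, Subgroup.index_top] at hidx
    exact one_ne_zero (by omega : (1 : ℕ) = 0)
  have hcos : ∀ n : N, n ∉ C → t⁻¹ * n ∈ C := by
    intro n hn
    rw [Subgroup.mul_mem_iff_of_index_two hidx]
    simp [hn, ht]
  have htt := Subgroup.mul_self_mem_of_index_two hidx t
  have htP : ∀ x ∈ (P : Subgroup G), (t : G) * x * (t : G)⁻¹ ∈ (P : Subgroup G) := fun x hx =>
    (Subgroup.mem_normalizer_iff.mp t.2 x).mp hx
  -- transfer
  have hfix : ∀ x ∈ (P : Subgroup G), (t : G) * x * (t : G)⁻¹ = x → x = 1 := by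
    intro x hx htx
    haveI := hab
    haveI : (P : Subgroup G).FiniteIndex := inferInstance
    have htpow : ∀ k : ℕ, (t : G) * x ^ k * (t : G)⁻¹ = x ^ k := by
      intro k
      rw [← conj_pow, htx]
    have key : ∀ (k : ℕ) (g₀ : G), g₀⁻¹ * x ^ k * g₀ ∈ (P : Subgroup G) →
        g₀⁻¹ * x ^ k * g₀ = x ^ k := by
      intro k g₀ h
      haveI : IsMulCommutative P := hab
      have hy : x ^ k ∈ (P : Subgroup G) := Subgroup.pow_mem _ hx k
      obtain ⟨n, hn, h2⟩ := P.conj_eq_normalizer_conj_of_mem (x ^ k) g₀ hy h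
      rw [h2]
      by_cases hnC : (⟨n, hn⟩ : N) ∈ C
      · -- `n` centralizes
        have h3 := (hmemC ⟨n, hn⟩).mp hnC (n⁻¹ * x ^ k * n) (by
          have h4 := (Subgroup.mem_normalizer_iff.mp hn (n⁻¹ * x ^ k * n))
          apply h4.mpr
          have e : n * (n⁻¹ * x ^ k * n) * n⁻¹ = x ^ k := by group
          rw [e]
          exact hy)
        simp only at h3
        rw [← h3]
        group
      · have h3 := hcos ⟨n, hn⟩ hnC
        have h4 := (hmemC _).mp h3 (x ^ k) hy
        simp only [Subgroup.coe_mul, InvMemClass.coe_inv] at h4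
        have h5 : n * x ^ k * n⁻¹ = x ^ k := by
          calc n * x ^ k * n⁻¹ = (t : G) * ((t : G)⁻¹ * n * x ^ k * ((t : G)⁻¹ * n)⁻¹) * (t : G)⁻¹ := by
                group
            _ = x ^ k := by rw [h4, htpow]
        calc n⁻¹ * x ^ k * n = n⁻¹ * (n * x ^ k * n⁻¹) * n := by rw [h5]
          _ = x ^ k := by group
    have hV := MonoidHom.transfer_eq_pow (MonoidHom.id (P : Subgroup G)) x key
    rw [transfer_trivial P hres x] at hV
    have h1 : x ^ (P : Subgroup G).index = 1 := by
      have := congrArg Subtype.val hV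
      simpa using this.symm
    obtain ⟨n, hn⟩ := P.isPGroup' ⟨x, hx⟩
    have hn' : x ^ p ^ n = 1 := by
      simpa [Subtype.ext_iff] using hn
    have hc : Nat.Coprime (P : Subgroup G).index (p ^ n) :=
      Nat.Coprime.pow_right n
        ((Nat.Prime.coprime_iff_not_dvd hp.out).mpr P.not_dvd_index).symm
    exact orderOf_eq_one_iff.mp (Nat.eq_one_of_dvd_coprimes hc
      (orderOf_dvd_of_pow_eq_one h1) (orderOf_dvd_of_pow_eq_one hn'))
  have hinv : ∀ x ∈ (P : Subgroup G), (t : G) * x * (t : G)⁻¹ = x⁻¹ := by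
    intro x hx
    have h1 := hfix (x * ((t : G) * x * (t : G)⁻¹)) (Subgroup.mul_mem _ hx (htP x hx)) (by
      have h2 := (hmemC _).mp htt x hx
      simp only [Subgroup.coe_mul] at h2
      calc (t : G) * (x * ((t : G) * x * (t : G)⁻¹)) * (t : G)⁻¹
          = ((t : G) * x * (t : G)⁻¹) * ((t : G) * (t : G) * x * ((t : G) * (t : G))⁻¹) := by group
        _ = ((t : G) * x * (t : G)⁻¹) * x := by rw [h2]
        _ = x * ((t : G) * x * (t : G)⁻¹) := hcomm _ (htP x hx) _ hx)
    exact eq_inv_of_mul_eq_one_right h1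
  refine ⟨hcomm, ?_, hodd⟩
  intro n hn
  by_cases h : (⟨n, hn⟩ : N) ∈ C
  · left
    exact (hmemC ⟨n, hn⟩).mp h
  · right
    intro x hx
    have h3 := hcos ⟨n, hn⟩ h
    have h4 := (hmemC _).mp h3 x hx
    simp only [Subgroup.coe_mul, InvMemClass.coe_inv] at h4
    calc n * x * n⁻¹ = (t : G) * ((t : G)⁻¹ * n * x * ((t : G)⁻¹ * n)⁻¹) * (t : G)⁻¹ := by group
      _ = x⁻¹ := by rw [h4, hinv x hx]

end Cfsg.Agent.Lib.InvSylow.Top
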