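import Cfsg.Agent.Lib.InvSylow.LemmaK
import Cfsg.Agent.Lib.Char.Complete

/-!
# The generalized character `ξ` of the central extension
-/

set_option autoImplicit false
set_option linter.unusedSectionVars false

namespace Cfsg.Agent.Lib.InvSylow.Xi

open Cfsg
open Cfsg.Agent.Lib.Char.Basic Cfsg.Agent.Lib.Char.Ortho Cfsg.Agent.Lib.Char.Complete
open Cfsg.Agent.Lib.Char.GenLattice
open Cfsg.Agent.Lib.InvSylow.Pow Cfsg.Agent.Lib.InvSylow.Ext Cfsg.Agent.Lib.InvSylow.Fusion
open Cfsg.Agent.Lib.InvSylow.Count Cfsg.Agent.Lib.InvSylow.Tau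
open Cfsg.Agent.Lib.InvSylow.Cover Cfsg.Agent.Lib.InvSylow.CoverP
open Cfsg.Agent.Lib.InvSylow.ChiNu Cfsg.Agent.Lib.InvSylow.LemmaK
open scoped ComplexConjugate _root_.Classical

universe u

variable {G H : Type u} [Group G] [Group H] {p N k k' a m : ℕ} {P : Sylow p G}
variable [Fintype G] [Fintype H] [Fintype (P : Subgroup G)] [hp : Fact p.Prime]
variable {D : PowData p N k k' a m} {t : G} {u v : ↥(P : Subgroup G) → ZMod p}
variable {S : Setup P D t} {C : Cov P u v H} {T : H}

/-- The predicate defining `A₀`. -/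
def A0 (P : Sylow p G) (u v : ↥(P : Subgroup G) → ZMod p) (g : G) : Prop :=
  ex0 P u g = 0 ∧ ex0 P v g = 0

/-- The function `ξ`. -/
noncomputable def xi (C : Cov P u v H) (T : H) (k : ℕ) (ε : G → ℂ) : H → ℂ :=
  ext (PH C) k (phi C T) + ((p - 1) / 2 : ℕ) • psi C k (ε - one G)

/-- The coefficient `(p - 1) / 2`. -/
noncomputable abbrev rr (p : ℕ) : ℂ := ((p : ℂ) - 1) / 2

/-- The coefficient `(p + 1) / 2`. -/
noncomputable abbrev ss (p : ℕ) : ℂ := ((p : ℂ) + 1) / 2

theorem cast_half (hodd : p ≠ 2) : (((p - 1) / 2 : ℕ) : ℂ) = rr p := by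
  obtain ⟨n, hn⟩ := hp.out.odd_of_ne_two hodd
  subst hn
  have h : (2 * n + 1 - 1) / 2 = n := by omega
  rw [h]
  change (n : ℂ) = (((2 * n + 1 : ℕ) : ℂ) - 1) / 2
  push_cast
  ring

variable (X : Ctx S C T)

include X

theorem exp_G (x : G) : x ^ N = 1 := S.exp x

theorem isGenChar_xi {ε : G → ℂ} (hε : IsGeneralizedCharacter G ε)
    (hε1 : ∀ g : G, g ^ k ≠ 1 → ε g = 1) : IsGeneralizedCharacter H (xi C T k ε) := by
  apply isGenChar_add
  · exact isGenChar_ext D X.hNH (exp_H X) (stable_phi X) (isGenChar_phi X)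
  · apply isGenChar_nsmul
    apply isGenChar_psi C D X.hNH (isGenChar_sub hε isGenChar_one)
    intro g hg
    simp [hε1 g hg]

/-- Values on elements with `p`-part in the centre. -/
theorem xi_regular {ε : G → ℂ} {h : H} {i : ZMod p} (hi : h ^ k = C.z i) :
    xi C T k ε h = ee p i * (ss p + rr p * ε (C.π h)) := by
  have h1 : ext (PH C) k (phi C T) h = (p : ℂ) * ee p i := by
    have hmem : C.z i ∈ (PH C : Subgroup H) := by
      rw [mem_PH, C.π_z]
      exact P.one_mem
    rw [ext_eq D (exp_H X) (stable_phi X) (x := h) (c := 1) (y := ⟨C.z i, hmem⟩) (by simp [hi])]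
    rw [phi, if_pos]
    · rw [mu_z X]
    · change ex0 P u (C.π (C.z i)) = 0 ∧ ex0 P v (C.π (C.z i)) = 0
      rw [C.π_z, ex0_one X.hu, ex0_one X.hv]
      exact ⟨rfl, rfl⟩
  have hx : xi C T k ε h = ext (PH C) k (phi C T) h + ((p - 1) / 2 : ℕ) • psi C k (ε - one G) h := rfl
  have e : (ε - one G) (C.π h) = ε (C.π h) - 1 := rfl
  rw [hx, h1, psi_regular C hi, nsmul_eq_mul, cast_half S.hyp.odd, e]
  simp only [rr, ss]
  ring

/-- Values on elements of singular image. -/
theorem xi_singular {ε : G → ℂ} (hε1 : ∀ g : G, g ^ k ≠ 1 → ε g = 1) {h : H}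
    (hr : (C.π h) ^ k ≠ 1) : xi C T k ε h = phi C T (sylI (PH C) k h) := by
  have h1 : psi C k (ε - one G) h = 0 := by
    simp [psi, hε1 _ hr]
  simp only [xi, Pi.add_apply, Pi.smul_apply, h1, smul_zero, add_zero]
  rfl

/-- `A₀` is respected by the chosen conjugates. -/
theorem A0_Ib (h : H) :
    A0 P u v (C.π (sylI (PH C) k h)) ↔ A0 P u v (Ib P k (C.π h)) := by
  obtain ⟨c, hc⟩ := sylI_spec D (exp_H X) (PH C) h
  set y := sylI (PH C) k h with hy
  have hyP : C.π y ∈ (P : Subgroup G) := y.2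
  have h2 : C.π c * (C.π h) ^ k * (C.π c)⁻¹ = C.π y := by
    have := congrArg C.π hc
    simpa using this
  have h3 : IsConj ((C.π h) ^ k) (⟨C.π y, hyP⟩ : (P : Subgroup G)) := isConj_iff.mpr ⟨_, h2⟩
  rcases (isConj_iff_Ib S _ _).mp h3 with h4 | h4
  · have h5 : C.π y = (Ib P k (C.π h) : G) := congrArg Subtype.val h4
    rw [h5]
  · have h5 : C.π y = ((Ib P k (C.π h) : G))⁻¹ := congrArg Subtype.val h4
    rw [h5]
    have h6 := (Ib P k (C.π h)).2
    simp only [A0, ex0_inv X.hu h6, ex0_inv X.hv h6, neg_eq_zero]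

/-- The values of `ξ` at products of two involutions, described on `G`. -/
noncomputable def Xi1 (P : Sylow p G) (k : ℕ) (u v : ↥(P : Subgroup G) → ZMod p) (ε : G → ℂ)
    (g : G) : ℂ :=
  if g ^ k = 1 then ss p + rr p * ε g else if A0 P u v (Ib P k g) then (p : ℂ) else 0

omit X in
theorem Xi1_reg {ε : G → ℂ} {g : G} (hg : g ^ k = 1) :
    Xi1 P k u v ε g = ss p + rr p * ε g := by
  rw [Xi1, if_pos hg]

theorem xi_product {ε : G → ℂ} (hε1 : ∀ g : G, g ^ k ≠ 1 → ε g = 1) {v₁ v₂ : H}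
    (h1 : v₁ * v₁ = 1) (h2 : v₂ * v₂ = 1) :
    xi C T k ε (v₁ * v₂) = Xi1 P k u v ε (C.π (v₁ * v₂)) := by
  set h := v₁ * v₂ with hh
  have hinv : v₁ * h * v₁⁻¹ = h⁻¹ := by
    have h3 : v₁⁻¹ = v₁ := inv_eq_of_mul_eq_one_left h1
    have h4 : v₂⁻¹ = v₂ := inv_eq_of_mul_eq_one_left h2
    rw [hh, h3, mul_inv_rev, h3, h4, ← mul_assoc, h1, one_mul]
  have hinvk : v₁ * h ^ k * v₁⁻¹ = (h ^ k)⁻¹ := by
    rw [← conj_pow, hinv, inv_pow]
  by_cases hr : (C.π h) ^ k = 1
  · have h3 : h ^ k = C.z (C.snd (h ^ k)) := C.eq_z _ (by rw [map_pow, hr])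
    set i := C.snd (h ^ k) with hi
    have h4 : C.z i = (C.z i)⁻¹ := by
      have h5 := hinvk
      rw [h3] at h5
      have h6 : v₁ * C.z i * v₁⁻¹ = C.z i := by
        rw [(z_comm C i v₁).symm.eq]
        group
      rw [h6] at h5
      exact h5
    have h5 : i = 0 := by
      rw [z_inv] at h4
      have h6 := z_inj C h4
      have h7 : (2 : ZMod p) * i = 0 := by
        linear_combination h6
      exact (mul_eq_zero.mp h7).resolve_left (two_ne X)
    rw [h5] at h3
    rw [xi_regular X h3, Xi1_reg hr, ee_zero, one_mul]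
  · rw [xi_singular X hε1 hr, Xi1, if_neg hr]
    obtain ⟨c, hc⟩ := sylI_spec D (exp_H X) (PH C) h
    set y := sylI (PH C) k h with hy
    have hiff := A0_Ib X (k := k) h
    rw [← hy] at hiff
    simp only [phi]
    by_cases hA : A0 P u v (C.π y)
    · have hA' : ex0 P u (C.π y) = 0 ∧ ex0 P v (C.π y) = 0 := hA
      rw [if_pos hA', if_pos (hiff.mp hA)]
      have hyne : C.π y ≠ 1 := by
        intro h6
        apply hr
        have h7 : C.π c * (C.π h) ^ k * (C.π c)⁻¹ = C.π y := by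
          have := congrArg C.π hc
          simpa using this
        rw [h6] at h7
        have h8 : (C.π h) ^ k = (C.π c)⁻¹ * (C.π c * (C.π h) ^ k * (C.π c)⁻¹) * C.π c := by group
        rw [h8, h7]
        simp
      have hw : (c * v₁ * c⁻¹) * (y : H) * (c * v₁ * c⁻¹)⁻¹ = (y : H)⁻¹ := by
        rw [← hc]
        calc c * v₁ * c⁻¹ * (c * h ^ k * c⁻¹) * (c * v₁ * c⁻¹)⁻¹
            = c * (v₁ * h ^ k * v₁⁻¹) * c⁻¹ := by group
          _ = _ := by rw [hinvk]; group
      have hk0 := kap_eq_zero_of_inverted X y.2 hA'.1 hA'.2 hyne hw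
      rw [mu, hk0, mul_zero, ee_zero, mul_one]
    · rw [if_neg (show ¬ (ex0 P u (C.π y) = 0 ∧ ex0 P v (C.π y) = 0) from hA),
        if_neg (fun h' => hA (hiff.mpr h'))]

/-- The squared absolute value of `ξ`, described on `G`. -/
noncomputable def Xi2 (P : Sylow p G) (k : ℕ) (u v : ↥(P : Subgroup G) → ZMod p) (ε : G → ℂ)
    (g : G) : ℂ :=
  if g ^ k = 1 then (ss p + rr p * ε g) * conj (ss p + rr p * ε g)
  else if A0 P u v (Ib P k g) then (p : ℂ) ^ 2 else 0

theorem xi_mul_conj {ε : G → ℂ} (hε1 : ∀ g : G, g ^ k ≠ 1 → ε g = 1) (h : H) :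
    xi C T k ε h * conj (xi C T k ε h) = Xi2 P k u v ε (C.π h) := by
  by_cases hr : (C.π h) ^ k = 1
  · have h3 : h ^ k = C.z (C.snd (h ^ k)) := C.eq_z _ (by rw [map_pow, hr])
    rw [xi_regular X h3, Xi2, if_pos hr, map_mul, ee_conj]
    have := ee_neg_mul (C.snd (h ^ k))
    calc _ = (ee p (-C.snd (h ^ k)) * ee p (C.snd (h ^ k))) *
          ((ss p + rr p * ε (C.π h)) * conj (ss p + rr p * ε (C.π h))) := by ring
      _ = _ := by rw [this, one_mul]
  · rw [xi_singular X hε1 hr, Xi2, if_neg hr, phi]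
    have hiff := A0_Ib X (k := k) h
    by_cases hA : A0 P u v (C.π (sylI (PH C) k h))
    · have hA' : ex0 P u (C.π (sylI (PH C) k h)) = 0 ∧ ex0 P v (C.π (sylI (PH C) k h)) = 0 := hA
      rw [if_pos hA', if_pos (hiff.mp hA), map_mul, Complex.conj_natCast]
      have := mu_conj (C := C) (T := T) (sylI (PH C) k h : H)
      calc _ = (p : ℂ) ^ 2 * (mu C T (sylI (PH C) k h : H) * conj (mu C T (sylI (PH C) k h : H))) := by
            ring
        _ = _ := by rw [this, mul_one]
    · rw [if_neg (show ¬ (ex0 P u (C.π (sylI (PH C) k h)) = 0 ∧ ex0 P v (C.π (sylI (PH C) k h)) = 0)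
        from hA), if_neg (fun h' => hA (hiff.mpr h'))]
      simp

/-- Fourier inversion for the two forms. -/
theorem sum_lam (x : (P : Subgroup G)) :
    ∑ i : ZMod p, ∑ j : ZMod p, lamF u v i j x =
      (p : ℂ) ^ 2 * (if A0 P u v (x : G) then 1 else 0) := by
  have h1 : ∀ i j : ZMod p, lamF u v i j x = ee p (i * u x) * ee p (j * v x) := by
    intro i j
    rw [lamF, ee_add]
  simp_rw [h1]
  rw [← Finset.sum_mul_sum]
  have h2 := AddChar.sum_mulShift (R' := ℂ) (ψ := ZMod.stdAddChar (N := p)) (u x)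
    (ZMod.isPrimitive_stdAddChar p)
  have h3 := AddChar.sum_mulShift (R' := ℂ) (ψ := ZMod.stdAddChar (N := p)) (v x)
    (ZMod.isPrimitive_stdAddChar p)
  rw [ZMod.card] at h2 h3
  simp only [ee]
  rw [h2, h3]
  have e : A0 P u v (x : G) ↔ u x = 0 ∧ v x = 0 := by
    simp only [A0, ex0_coe]
  by_cases h4 : u x = 0
  · by_cases h5 : v x = 0
    · rw [if_pos h4, if_pos h5, if_pos (e.mpr ⟨h4, h5⟩)]
      ring
    · rw [if_neg h5, if_neg (fun h => h5 (e.mp h).2)]
      simp
  · rw [if_neg h4, if_neg (fun h => h4 (e.mp h).1)]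
    simp

/-- The order of `A₀`. -/
theorem card_A0 :
    (p : ℂ) ^ 2 * ∑ x : (P : Subgroup G), (if A0 P u v (x : G) then (1 : ℂ) else 0) =
      (Nat.card (P : Subgroup G) : ℂ) := by
  have hc := comm_of_setup S
  have hQ : (Nat.card (P : Subgroup G) : ℂ) ≠ 0 := Nat.cast_ne_zero.mpr Nat.card_pos.ne'
  have h1 : ∀ i j : ZMod p, ∑ x : (P : Subgroup G), lamF u v i j x =
      (Nat.card (P : Subgroup G) : ℂ) * (if i = 0 ∧ j = 0 then 1 else 0) := by
    intro i j
    have h2 := classInner_irr (isIrr_lamF X.hu X.hv i j) (isIrr_one (A := (P : Subgroup G)))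
    unfold classInner at h2
    simp only [one, map_one, mul_one] at h2
    have h3 : lamF u v i j = one _ ↔ i = 0 ∧ j = 0 := by
      constructor
      · intro h
        rw [← lamF_zero (u := u) (v := v)] at h
        exact lamF_inj X.hs h
      · rintro ⟨rfl, rfl⟩
        exact lamF_zero
    by_cases h4 : i = 0 ∧ j = 0
    · rw [if_pos h4]
      rw [if_pos (h3.mpr h4)] at h2
      field_simp at h2
      rw [h2, mul_one]
    · rw [if_neg h4]
      rw [if_neg (fun h => h4 (h3.mp h))] at h2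
      have h5 := (mul_eq_zero.mp h2).resolve_left (inv_ne_zero hQ)
      rw [h5, mul_zero]
  rw [Finset.mul_sum]
  simp_rw [← sum_lam X]
  rw [Finset.sum_comm]
  have h6 : ∀ i : ZMod p, ∑ x : (P : Subgroup G), ∑ j : ZMod p, lamF u v i j x =
      ∑ j : ZMod p, (Nat.card (P : Subgroup G) : ℂ) * (if i = 0 ∧ j = 0 then 1 else 0) := by
    intro i
    rw [Finset.sum_comm]
    exact Finset.sum_congr rfl fun j _ => h1 i j
  simp_rw [h6]
  rw [Finset.sum_eq_single 0, Finset.sum_eq_single 0]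
  · simp
  · intro j _ hj
    simp [hj]
  · simp
  · intro i _ hi
    simp [hi]
  · simp

/-- **The norm of `ξ`.** -/
theorem classInner_xi {ε : G → ℂ} (hε1 : ∀ g : G, g ^ k ≠ 1 → ε g = 1)
    (hε0 : classInner ε (one G) = 0) (hεn : classInner ε ε = 1) :
    classInner (xi C T k ε) (xi C T k ε) = 1 := by
  have hG : (Nat.card G : ℂ) ≠ 0 := Nat.cast_ne_zero.mpr Nat.card_pos.ne'
  have hQ : (Nat.card (P : Subgroup G) : ℂ) ≠ 0 := Nat.cast_ne_zero.mpr Nat.card_pos.ne'
  have hp0 : (p : ℂ) ≠ 0 := Nat.cast_ne_zero.mpr hp.out.ne_zero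
  set n : ℂ := (Nat.card G : ℂ) with hn
  set Q : ℂ := (Nat.card (P : Subgroup G) : ℂ) with hQdef
  set q : ℂ := (p : ℂ) with hq
  -- reduction to `G`
  have h1 : classInner (xi C T k ε) (xi C T k ε) = n⁻¹ * ∑ g : G, Xi2 P k u v ε g := by
    unfold classInner
    simp_rw [xi_mul_conj X hε1]
    rw [C.sum_pi, C.card_eq]
    push_cast
    rw [← hn, ← hq]
    field_simp
  -- singular counts
  set σ : ℂ := ∑ g : G, (if g ^ k = 1 then 0 else 1) with hσ
  have hσv : σ = n * (Q - 1) / (2 * Q) := by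
    have h2 := sum_sing' S (one _) (fun _ => rfl)
    simp only [one] at h2
    rw [hσ, h2]
    have h3 : ∑ x : (P : Subgroup G), (if x = 1 then (0 : ℂ) else 1) = Q - 1 := by
      have h4 : ∀ x : (P : Subgroup G), (if x = 1 then (0 : ℂ) else 1) =
          1 - (if x = 1 then 1 else 0) := by
        intro x
        split_ifs <;> simp
      simp_rw [h4]
      rw [Finset.sum_sub_distrib, Finset.sum_const, Finset.card_univ, Finset.sum_ite_eq']
      simp [Nat.card_eq_fintype_card, hQdef]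
    rw [h3]
  set α : ℂ := ∑ x : (P : Subgroup G), (if A0 P u v (x : G) then (1 : ℂ) else 0) with hα
  have hαv : q ^ 2 * α = Q := card_A0 X
  set σ₀ : ℂ := ∑ g : G, (if g ^ k = 1 then 0 else if A0 P u v (Ib P k g) then 1 else 0) with hσ₀
  have hσ₀v : σ₀ = n * (α - 1) / (2 * Q) := by
    have h2 := sum_sing' S (fun x => if A0 P u v (x : G) then (1 : ℂ) else 0) (by
      intro x
      have h3 : A0 P u v ((x⁻¹ : (P : Subgroup G)) : G) ↔ A0 P u v (x : G) := by
        simp only [A0, InvMemClass.coe_inv, ex0_inv X.hu x.2, ex0_inv X.hv x.2, neg_eq_zero]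
      simp only [h3])
    rw [hσ₀, h2]
    have h3 : ∑ x : (P : Subgroup G), (if x = 1 then (0 : ℂ) else
        if A0 P u v (x : G) then 1 else 0) = α - 1 := by
      have h4 : ∀ x : (P : Subgroup G), (if x = 1 then (0 : ℂ) else
          if A0 P u v (x : G) then 1 else 0) =
          (if A0 P u v (x : G) then 1 else 0) - (if x = 1 then 1 else 0) := by
        intro x
        by_cases hx : x = 1
        · have h5 : A0 P u v ((1 : (P : Subgroup G)) : G) := by
            simp only [A0, OneMemClass.coe_one, ex0_one X.hu, ex0_one X.hv, and_self]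
          rw [if_pos hx, if_pos hx, hx, if_pos h5, sub_self]
        · rw [if_neg hx, if_neg hx, sub_zero]
      simp_rw [h4]
      rw [Finset.sum_sub_distrib, Finset.sum_ite_eq']
      simp [hα]
    rw [h3]
  -- the sums of `ε`
  have hs0 : ∑ g : G, ε g = 0 := by
    unfold classInner at hε0
    simp only [one, map_one, mul_one] at hε0
    exact (mul_eq_zero.mp hε0).resolve_left (inv_ne_zero hG)
  set Tε : ℂ := ∑ g : G, (if g ^ k = 1 then ε g else 0) with hTε
  have hT1 : Tε + σ = 0 := by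
    rw [← hs0, hTε, hσ, ← Finset.sum_add_distrib]
    refine Finset.sum_congr rfl fun g _ => ?_
    by_cases hg : g ^ k = 1
    · simp [hg]
    · simp [hg, hε1 g hg]
  set Tc : ℂ := ∑ g : G, (if g ^ k = 1 then conj (ε g) else 0) with hTc
  have hT2 : Tc + σ = 0 := by
    have h3 := congrArg (starRingEnd ℂ) hs0
    rw [map_sum, map_zero] at h3
    rw [← h3, hTc, hσ, ← Finset.sum_add_distrib]
    refine Finset.sum_congr rfl fun g _ => ?_
    by_cases hg : g ^ k = 1
    · simp [hg]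
    · simp [hg, hε1 g hg]
  set T2 : ℂ := ∑ g : G, (if g ^ k = 1 then ε g * conj (ε g) else 0) with hT2def
  have hT3 : T2 + σ = n := by
    have h3 : ∑ g : G, ε g * conj (ε g) = n := by
      unfold classInner at hεn
      rw [← hn] at hεn
      field_simp at hεn
      exact hεn
    rw [← h3, hT2def, hσ, ← Finset.sum_add_distrib]
    refine Finset.sum_congr rfl fun g _ => ?_
    by_cases hg : g ^ k = 1
    · simp [hg]
    · simp [hg, hε1 g hg]
  set T0 : ℂ := ∑ g : G, (if g ^ k = 1 then 1 else 0) with hT0def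
  have hT0 : T0 + σ = n := by
    rw [hT0def, hσ, ← Finset.sum_add_distrib]
    have h3 : ∀ g : G, ((if g ^ k = 1 then (1 : ℂ) else 0) + if g ^ k = 1 then 0 else 1) = 1 := by
      intro g
      split_ifs <;> simp
    simp_rw [h3]
    simp [hn, Nat.card_eq_fintype_card]
  -- the pointwise expansion
  have hss : conj (ss p) = ss p := by
    simp [ss, Complex.conj_ofNat]
  have hrr : conj (rr p) = rr p := by
    simp [rr, Complex.conj_ofNat]
  have hX : ∀ g : G, Xi2 P k u v ε g = ss p ^ 2 * (if g ^ k = 1 then 1 else 0) +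
      ss p * rr p * ((if g ^ k = 1 then ε g else 0) + (if g ^ k = 1 then conj (ε g) else 0)) +
      rr p ^ 2 * (if g ^ k = 1 then ε g * conj (ε g) else 0) +
      q ^ 2 * (if g ^ k = 1 then 0 else if A0 P u v (Ib P k g) then 1 else 0) := by
    intro g
    rw [Xi2]
    by_cases hg : g ^ k = 1
    · simp only [if_pos hg, map_add, map_mul, hss, hrr]
      ring
    · simp only [if_neg hg]
      split_ifs <;> ring
  have hsum : ∑ g : G, Xi2 P k u v ε g = ss p ^ 2 * T0 + ss p * rr p * (Tε + Tc) + rr p ^ 2 * T2 +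
      q ^ 2 * σ₀ := by
    simp_rw [hX]
    rw [Finset.sum_add_distrib, Finset.sum_add_distrib, Finset.sum_add_distrib, ← Finset.mul_sum,
      ← Finset.mul_sum, ← Finset.mul_sum, ← Finset.mul_sum, Finset.sum_add_distrib]
  rw [h1, hsum]
  have e1 : T0 = n - σ := by linear_combination hT0
  have e2 : Tε = -σ := by linear_combination hT1
  have e3 : Tc = -σ := by linear_combination hT2
  have e4 : T2 = n - σ := by linear_combination hT3
  rw [e1, e2, e3, e4, hσv, hσ₀v]
  simp only [rr, ss]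
  rw [← hq]
  have hα' : α = Q / q ^ 2 := by
    field_simp
    linear_combination hαv
  rw [hα']
  field_simp
  ring

end Cfsg.Agent.Lib.InvSylow.Xi
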